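import Cfsg.Agent.SC3.Char

/-! Class data of a finite simple group: the rational classes and the arithmetic facts they satisfy. -/

set_option autoImplicit false

namespace Cfsg.Agent.KC

open Subgroup Finset

/-- numerical data: `n` non-trivial rational classes, group order `g`, class number `k`; element order `O`,
automiser order `E`, centraliser order `C`, power map `Q` -/
structure Dat where
  n : ℕ
  g : ℕ
  k : ℕ
  O : ℕ → ℕ
  E : ℕ → ℕ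
  C : ℕ → ℕ
  Q : ℕ → ℕ → ℕ

namespace Dat

variable (D : Dat)

/-- number of conjugacy classes in a rational class -/
def T (j : ℕ) : ℕ := (D.O j).totient / D.E j

/-- length of a conjugacy class -/
def N (j : ℕ) : ℕ := D.g / D.C j

/-- `i` is the rational class of a proper non-trivial power of the `j`-th representative -/
def A (j i : ℕ) : Prop := ∃ d ∈ range (D.O j), 1 < d ∧ d ∣ D.O j ∧ D.Q j d = i

instance (j i : ℕ) : Decidable (D.A j i) := by unfold A; infer_instance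

/-- basic facts -/
structure F0 : Prop where
  two : ∀ j < D.n, 2 ≤ D.O j
  epos : ∀ j < D.n, 0 < D.E j
  edvd : ∀ j < D.n, D.E j ∣ (D.O j).totient
  odvd : ∀ j < D.n, D.O j ∣ D.C j
  ecd : ∀ j < D.n, D.E j * D.C j ∣ D.g
  gpos : 0 < D.g
  srt : ∀ i j, i ≤ j → j < D.n →
    D.O i < D.O j ∨ D.O i = D.O j ∧ (D.T i < D.T j ∨ D.T i = D.T j ∧ D.C i ≤ D.C j)
  sumT : ∑ j ∈ range D.n, D.T j + 1 = D.k
  sumN : ∑ j ∈ range D.n, D.T j * D.N j + 1 = D.g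

/-- power maps and local facts -/
structure F1 : Prop where
  eo : ∀ j < D.n, (D.O j).Prime → D.E j = 1 ∨ ∃ l < D.n, D.O l = D.E j
  pw : ∀ j < D.n, ∀ d, d ∣ D.O j → d ≠ D.O j → D.Q j d < D.n ∧ D.O (D.Q j d) * d = D.O j ∧
    D.T (D.Q j d) ∣ D.T j ∧ D.C j ∣ D.C (D.Q j d) ∧ D.E j * D.C j ∣ D.E (D.Q j d) * D.C (D.Q j d)
  pp : ∀ j < D.n, ∀ a b, a * b ∣ D.O j → a * b ≠ D.O j → D.Q (D.Q j a) b = D.Q j (a * b)
  ch : ∀ j < D.n, ∀ q a, q.Prime → ¬ q ∣ D.O j → q ^ (a + 1) ∣ D.C j →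
    ∃ l < D.n, D.O l = q * D.O j ∧ D.Q l q = j ∧ q ^ (a + 1) ∣ D.C l
  cen : ∀ p a, p.Prime → p ^ (a + 1) ∣ D.g → ∃ l < D.n, D.O l = p ∧ p ^ (a + 1) ∣ D.C l
  big : ∀ p, p.Prime → p * p ∣ D.g → ∀ j < D.n, ∀ a, D.O j = p ^ a → p * p ∣ D.C j
  small : ∀ p, p.Prime → ¬ p * p ∣ D.g → ∀ j < D.n, D.O j = p → D.E j ≠ 1 ∧ ∀ l < D.n, D.O l = p → l = j

/-- the prime two -/
structure F2 : Prop where
  mode : 2 ∣ D.g → (∀ j < D.n, ∀ a, D.O j = 2 ^ a → 8 ∣ D.C j ∧ 4 * D.O j ∣ D.g) ∨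
    ∃ c, 2 ^ (c + 2) ∣ D.g ∧ ¬ 2 ^ (c + 3) ∣ D.g ∧ (∀ i ≤ c, ∃ j < D.n, D.O j = 2 ^ (i + 1)) ∧
      (∀ j < D.n, ¬ 2 ^ (c + 2) ∣ D.O j) ∧ ∀ j < D.n, ∀ l < D.n, D.O j = 2 → D.O l = 2 → j = l
  bf : (∑ j ∈ range D.n with D.O j = 2, D.N j) ^ 2 ≤ (∑ j ∈ range D.n with D.O j = 2, D.N j) +
    (∑ j ∈ range D.n with (D.O j = 2 ∨ 2 ∣ D.E j), D.T j) * D.g
  ne : D.g ≠ 1920

/-- consequences of the theorem of Frobenius -/
structure F3 : Prop where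
  fr : ∀ d, d ∣ D.g → d ∣ ∑ j ∈ range D.n with D.O j ∣ d, D.T j * D.N j + 1
  sec : ∀ j < D.n, ∀ p a m b, p.Prime → D.O j = p ^ a → D.C j = p ^ b * m → ¬ p ∣ m →
    m ∣ ∑ l ∈ range D.n with (D.A l j ∧ ¬ p ∣ D.O l / D.O j), D.T l / D.T j * (D.C j / D.C l) + 1 ∧
    (∑ l ∈ range D.n with (D.A l j ∧ ¬ p ∣ D.O l / D.O j), D.T l / D.T j * (D.C j / D.C l) + 1) * D.O j ≤ D.C j

/-- a row: degree `d` of a non-trivial irreducible character, `S j` the sum of its values over the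
conjugacy classes in the `j`-th rational class -/
structure Row (d : ℕ) (S : ℕ → ℤ) : Prop where
  two : 2 ≤ d
  dvd : d ∣ D.g
  cen : ∀ j < D.n, (d : ℤ) ∣ S j * D.N j
  van : ∀ j < D.n, d.Coprime (D.N j) → S j = 0
  lt : ∀ j < D.n, |S j| < D.T j * d
  cong : ∀ j < D.n, ∀ p a, p.Prime → D.O j = p ^ a → (p : ℤ) ∣ S j - D.T j * d
  mult : ∀ j < D.n, ∃ m : ℕ, d + D.E j * S j + ∑ i ∈ range D.n with D.A j i, D.E i * S i = (D.O j : ℤ) * m
  lin : d + ∑ j ∈ range D.n, S j * D.N j = 0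
  nrm : (d : ℚ) ^ 2 + ∑ j ∈ range D.n, (S j : ℚ) ^ 2 * D.N j / D.T j ≤ D.g

/-- character theory -/
structure F4 : Prop where
  npp : ∀ j < D.n, ∀ p a, p.Prime → D.N j ≠ p ^ a
  three : 3 ≤ D.g.primeFactors.card
  sixty : 60 ≤ D.g
  tab : ∃ R : Multiset (ℕ × (ℕ → ℤ)), R.card + 1 = D.k ∧ (∀ r ∈ R, D.Row r.1 r.2) ∧
    (R.map fun r => r.1 ^ 2).sum + 1 = D.g ∧
    (∀ j < D.n, (R.map fun r => (r.1 : ℤ) * r.2 j).sum + D.T j = 0) ∧
    ∀ j < D.n, (R.map fun r => r.2 j ^ 2).sum + D.T j ^ 2 = (D.T j * D.C j : ℤ)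

/-- the list of triples (order, number of classes, centraliser order) -/
def lst : List (ℕ × ℕ × ℕ) := (List.range D.n).map fun j => (D.O j, D.T j, D.C j)

/-- all triples lie in `l`, and they are pairwise different -/
def Acc (l : List (ℕ × ℕ × ℕ)) : Prop := (∀ j < D.n, (D.O j, D.T j, D.C j) ∈ l) ∧
  ∀ i < D.n, ∀ j < D.n, (D.O i, D.T i, D.C i) = (D.O j, D.T j, D.C j) → i = j

end Dat

/-- the data belong to the group `G`: `x j` are representatives of the non-trivial rational classes and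
`cls y` is the number of the rational class of `y` -/
structure Link (G : Type*) [Group G] (D : Dat) (x : ℕ → G) (cls : G → ℕ) : Prop where
  card : Nat.card G = D.g
  kk : Nat.card (ConjClasses G) = D.k
  ne : ∀ j < D.n, x j ≠ 1
  ord : ∀ j < D.n, orderOf (x j) = D.O j
  cen : ∀ j < D.n, Nat.card (centralizer ({x j} : Set G)) = D.C j
  nor : ∀ j < D.n, Nat.card (normalizer (zpowers (x j) : Set G)) = D.E j * D.C j
  lt : ∀ y, y ≠ 1 → cls y < D.n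
  cx : ∀ j < D.n, cls (x j) = j
  eq : ∀ y z, y ≠ 1 → z ≠ 1 → (cls y = cls z ↔ ∃ h : G, zpowers z = zpowers (h * y * h⁻¹))
  pw : ∀ j < D.n, ∀ d, D.Q j d = cls (x j ^ d)

end Cfsg.Agent.KC
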