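import Cfsg.Agent.KC.TwoA
import Cfsg.Agent.KC.Spec

/-! Counting the elements of a rational class. -/

set_option autoImplicit false

namespace Cfsg.Agent.KC

open Subgroup Finset Cfsg.Agent.SC3

variable {G : Type*} [Group G] [Finite G]

theorem ncard_gen (w : G) : {y | zpowers y = zpowers w}.ncard = (orderOf w).totient := by
  classical
  have := Fintype.ofFinite (zpowers w)
  rw [← IsCyclic.card_orderOf_eq_totient (α := zpowers w) (by rw [← Nat.card_eq_fintype_card, Nat.card_zpowers]), ← Set.ncard_coe_finset,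
    ← Set.ncard_image_of_injective _ Subtype.val_injective]
  congr 1
  ext y
  simp only [Set.mem_setOf_eq, coe_filter, Finset.mem_univ, true_and, Set.mem_image]
  refine ⟨fun h => ⟨⟨y, h ▸ mem_zpowers y⟩, ?_, rfl⟩, ?_⟩
  · rw [← orderOf_coe, ← Nat.card_zpowers, h, Nat.card_zpowers]
  · rintro ⟨y, h, rfl⟩
    exact eq_of_le_of_card_ge (zpowers_le_of_mem y.2) (by rw [Nat.card_zpowers, Nat.card_zpowers, orderOf_coe, h])

omit [Finite G] in
theorem zp_cj (h y : G) : zpowers (h * y * h⁻¹) = cj h (zpowers y) := 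
  (MonoidHom.map_zpowers (MulAut.conj h).toMonoidHom y).symm

theorem ncard_rat (w : G) :
    {y | ∃ h : G, zpowers y = zpowers (h * w * h⁻¹)}.ncard = (Nm (zpowers w)).index * (orderOf w).totient := by
  classical
  letI : MulAction G (Subgroup G) :=
    { smul := cj, one_smul := cj_one, mul_smul := fun g h U => (cj_cj g h U).symm }
  have hs : MulAction.stabilizer G (zpowers w) = Nm (zpowers w) := by
    ext g; rw [MulAction.mem_stabilizer_iff]; exact cj_eq_iff
  rw [← hs, MulAction.index_stabilizer, Set.ncard_eq_toFinset_card _ (Set.toFinite _),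
    Set.ncard_eq_toFinset_card _ (Set.toFinite _),
    card_eq_sum_card_fiberwise (f := fun y => zpowers y) (t := (Set.toFinite (MulAction.orbit G (zpowers w))).toFinset)
      (fun y hy => ?_), ← smul_eq_mul, ← sum_const]
  · refine sum_congr rfl fun U hU => ?_
    obtain ⟨g, rfl⟩ := (Set.Finite.mem_toFinset _).1 hU
    rw [← orderOf_conj g w, ← ncard_gen, ← Set.ncard_coe_finset]
    congr 1
    ext y
    simp only [coe_filter, Set.Finite.mem_toFinset, Set.mem_setOf_eq, zp_cj]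
    exact ⟨fun h => h.2, fun h => ⟨⟨g, h⟩, h⟩⟩
  · obtain ⟨h, e⟩ := (Set.Finite.mem_toFinset _).1 hy
    exact (Set.Finite.mem_toFinset _).2 ⟨h, (e.trans (zp_cj h w)).symm⟩

namespace Link

variable {D : Dat} {x : ℕ → G} {cls : G → ℕ} (L : Link G D x cls)
include L

omit [Finite G] in
theorem rep {y : G} (hy : y ≠ 1) : ∃ h : G, zpowers y = cj h (zpowers (x (cls y))) :=
  ((L.eq _ _ (L.ne _ (L.lt y hy)) hy).1 (L.cx _ (L.lt y hy))).imp fun h e => e.trans (zp_cj h _)

omit [Finite G] in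
theorem ordc {y : G} (hy : y ≠ 1) : orderOf y = D.O (cls y) := by
  obtain ⟨h, e⟩ := L.rep hy
  rw [← Nat.card_zpowers, e, card_cj, Nat.card_zpowers, L.ord _ (L.lt y hy)]

omit [Finite G] in
theorem cenc {y : G} (hy : y ≠ 1) : Nat.card (C1 y) = D.C (cls y) := by
  have hC : ∀ y : G, C1 y = Ce (zpowers y) := fun y => by rw [Ce, zpowers_eq_closure, centralizer_closure]
  obtain ⟨h, e⟩ := L.rep hy
  rw [hC, e, Ce_cj, card_cj, ← hC, L.cen _ (L.lt y hy)]

omit [Finite G] in
theorem norc {y : G} (hy : y ≠ 1) : Nat.card (Nm (zpowers y)) = D.E (cls y) * D.C (cls y) := by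
  obtain ⟨h, e⟩ := L.rep hy
  rw [e, Nm_cj, card_cj, L.nor _ (L.lt y hy)]

theorem cardX (h0 : D.F0) {j : ℕ} (hj : j < D.n) : {y | y ≠ 1 ∧ cls y = j}.ncard = D.T j * D.N j := by
  have h1 : {y | y ≠ 1 ∧ cls y = j} = {y | ∃ h : G, zpowers y = zpowers (h * x j * h⁻¹)} := by
    ext y
    refine ⟨fun h => (L.eq _ _ (L.ne j hj) h.1).1 ((L.cx j hj).trans h.2.symm), fun h => ?_⟩
    have h2 : y ≠ 1 := by
      rintro rfl
      obtain ⟨h, e⟩ := h
      exact L.ne j hj (by simpa using e.symm)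
    exact ⟨h2, ((L.eq _ _ (L.ne j hj) h2).2 h).symm.trans (L.cx j hj)⟩
  have h2 := (Nm (zpowers (x j))).card_mul_index
  rw [L.nor j hj, L.card] at h2
  obtain ⟨t, ht⟩ := h0.edvd j hj
  have h3 : 0 < D.C j := L.cen j hj ▸ Nat.card_pos
  rw [h1, ncard_rat, L.ord j hj, Dat.T, Dat.N, ← h2, ht, Nat.mul_div_cancel_left _ (h0.epos j hj),
    mul_comm (D.E j) (D.C j), mul_assoc, Nat.mul_div_cancel_left _ h3]
  ring

theorem sum_cls (h0 : D.F0) (p : ℕ → Prop) [DecidablePred p] (f : ℕ → ℕ) :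
    ∑ y ∈ (Set.toFinite {y | y ≠ 1 ∧ p (cls y)}).toFinset, f (cls y) =
      ∑ j ∈ range D.n with p j, D.T j * D.N j * f j := by
  classical
  rw [← sum_fiberwise_of_maps_to (g := cls) (t := (range D.n).filter p)]
  · refine sum_congr rfl fun j hj => ?_
    obtain ⟨h1, h2⟩ := mem_filter.1 hj
    rw [sum_congr rfl (g := fun _ => f j) fun y hy => by rw [(mem_filter.1 hy).2], sum_const, smul_eq_mul,
      ← L.cardX h0 (Finset.mem_range.1 h1), ← Set.ncard_coe_finset]
    congr 2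
    ext y
    simp only [coe_filter, Set.Finite.mem_toFinset, Set.mem_setOf_eq]
    exact ⟨fun h => ⟨h.1.1, h.2⟩, fun h => ⟨⟨h.1, h.2 ▸ h2⟩, h.2⟩⟩
  · intro y hy
    have := (Set.Finite.mem_toFinset _).1 hy
    exact mem_filter.2 ⟨Finset.mem_range.2 (L.lt y this.1), this.2⟩

end Link

end Cfsg.Agent.KC
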