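import Cfsg.Agent.KC.Frob
import Cfsg.Agent.KC.TwoB
import Cfsg.Agent.N9.Gal

/-! The character theoretic facts for the class data. -/

set_option autoImplicit false
set_option linter.unusedSectionVars false

namespace Cfsg.Agent.KC

open Subgroup Finset Cfsg.Agent.SC3 Cfsg.Agent.CharLib
open scoped ComplexConjugate

variable {G : Type*} [Group G] [Finite G]

open Classical in
/-- the conjugacy classes in a rational class -/
noncomputable def CF (cls : G → ℕ) (j : ℕ) : Finset (ConjClasses G) := (XF cls j).image ConjClasses.mk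

/-- the sum over the conjugacy classes of a rational class -/
noncomputable def sF (cls : G → ℕ) (f : G → ℂ) (j : ℕ) : ℂ := ∑ c ∈ CF cls j, f c.out

open Classical in
/-- the sum over the generators -/
noncomputable def gF (f : G → ℂ) (w : G) : ℂ :=
  ∑ y ∈ (Set.toFinite {y | zpowers y = zpowers w}).toFinset, f y

theorem gF_conj {f : G → ℂ} (hf : IsClassFunction G f) (h w : G) : gF f (h * w * h⁻¹) = gF f w := by
  symm
  refine sum_bij (fun y _ => h * y * h⁻¹) (fun y hy => ?_) (fun a _ b _ e => by simpa using e)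
    (fun z hz => ⟨h⁻¹ * z * h⁻¹⁻¹, ?_, by group⟩) fun y _ => (hf y h).symm
  · simp only [Set.Finite.mem_toFinset, Set.mem_ofPred_eq] at hy ⊢
    rw [zp_conj, zp_conj, hy]
  · simp only [Set.Finite.mem_toFinset, Set.mem_ofPred_eq] at hz ⊢
    rw [zp_conj, hz, zp_conj, cj_cj, inv_mul_cancel, cj_one]

theorem mem_CF {cls : G → ℕ} {j : ℕ} {c : ConjClasses G} :
    c ∈ CF cls j ↔ ∃ y ∈ XF cls j, ConjClasses.mk y = c := by
  classical
  simp only [CF, mem_image]

theorem zp_eq_of_ord {g a b : G} (ha : a ∈ zpowers g) (hb : b ∈ zpowers g) (h : orderOf a = orderOf b) :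
    zpowers a = zpowers b := by
  classical
  refine eq_of_le_of_card_ge (zpowers_le.2 ?_) (by rw [Nat.card_zpowers, Nat.card_zpowers, h])
  obtain ⟨i, -, rfl⟩ := mem_image.1 (mem_zpowers_iff_mem_range_orderOf.1 ha)
  obtain ⟨k, -, rfl⟩ := mem_image.1 (mem_zpowers_iff_mem_range_orderOf.1 hb)
  rw [orderOf_pow, orderOf_pow] at h
  obtain ⟨c, hc⟩ := Nat.gcd_dvd_right (orderOf g) i
  have e : (orderOf g).gcd i = (orderOf g).gcd k := by
    rw [← Nat.div_div_self (Nat.gcd_dvd_left _ i) (orderOf_pos g).ne', h,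
      Nat.div_div_self (Nat.gcd_dvd_left _ k) (orderOf_pos g).ne']
  rw [hc, e, pow_mul]
  refine pow_mem (mem_zpowers_iff.2 ⟨Nat.gcdB (orderOf g) k, ?_⟩) c
  simp only [← zpow_natCast, ← zpow_mul]
  rw [Nat.gcd_eq_gcd_ab, zpow_add, zpow_mul g (orderOf g), zpow_natCast, pow_orderOf_eq_one, one_zpow,
    one_mul]

theorem mk_out' (c : ConjClasses G) : ConjClasses.mk c.out = c := Quotient.out_eq c

namespace Link
variable {D : Dat} {x : ℕ → G} {cls : G → ℕ} (L : Link G D x cls)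
include L

theorem idxF {j : ℕ} {y : G} (hy : y ∈ XF cls j) : (centralizer ({y} : Set G)).index = D.N j := by
  obtain ⟨h1, rfl⟩ := mem_XF.1 hy
  have h2 := (C1 y).card_mul_index
  rw [L.cenc h1, L.card] at h2
  rw [Dat.N, ← h2, Nat.mul_div_cancel_left _ (L.cenc h1 ▸ Nat.card_pos)]

theorem outF {j : ℕ} (hj : j < D.n) {c : ConjClasses G} (hc : c ∈ CF cls j) : c.out ∈ XF cls j := by
  obtain ⟨y, hy, rfl⟩ := mem_CF.1 hc
  obtain ⟨g, hg⟩ := isConj_iff.1 (ConjClasses.mk_eq_mk_iff_isConj.1 (mk_out' (ConjClasses.mk y)).symm)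
  exact hg ▸ L.conjF hj g hy

theorem sumF {j : ℕ} (hj : j < D.n) {f : G → ℂ} (hf : IsClassFunction G f) :
    ∑ y ∈ XF cls j, f y = D.N j * sF cls f j := by
  classical
  have := Fintype.ofFinite G
  rw [← sum_fiberwise_of_maps_to (g := ConjClasses.mk) (t := CF cls j)
    (fun y hy => mem_CF.2 ⟨y, hy, rfl⟩), sF, mul_sum]
  refine sum_congr rfl fun c hc => ?_
  have e : (XF cls j).filter (fun y => ConjClasses.mk y = c) = CharLib.cls c.out := by
    ext y
    rw [mem_filter, mem_cls, ← ConjClasses.mk_eq_mk_iff_isConj, mk_out', eq_comm]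
    refine ⟨fun h => h.2, fun h => ⟨?_, h⟩⟩
    obtain ⟨g, rfl⟩ := isConj_iff.1 (ConjClasses.mk_eq_mk_iff_isConj.1 ((mk_out' c).trans h))
    exact L.conjF hj g (L.outF hj hc)
  rw [e, sum_congr rfl fun y hy => (classFun_of_isConj hf (mem_cls.1 hy)).symm, sum_const, card_cls,
    L.idxF (L.outF hj hc), nsmul_eq_mul]

theorem Npos {j : ℕ} (hj : j < D.n) : 0 < D.N j :=
  L.idxF (L.selfF hj) ▸ Nat.pos_of_ne_zero index_ne_zero_of_finite

theorem cardC (h0 : D.F0) {j : ℕ} (hj : j < D.n) : (CF cls j).card = D.T j := by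
  have h := L.sumF hj (f := fun _ => 1) fun _ _ => rfl
  simp only [sF, sum_const, nsmul_eq_mul, mul_one, L.cardF h0 hj] at h
  have h2 : D.T j * D.N j = D.N j * (CF cls j).card := by exact_mod_cast h
  exact (Nat.eq_of_mul_eq_mul_left (L.Npos hj) (by rw [← h2, mul_comm])).symm

theorem Tpos (h0 : D.F0) {j : ℕ} (hj : j < D.n) : 0 < D.T j :=
  Nat.pos_of_mul_pos_right (L.cardF h0 hj ▸ card_pos.2 ⟨_, L.selfF hj⟩)

theorem genF (h0 : D.F0) {j : ℕ} (hj : j < D.n) {f : G → ℂ} (hf : IsClassFunction G f) {w : G}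
    (hw : w ∈ XF cls j) : gF f w = D.E j * sF cls f j := by
  classical
  have k0 : ∀ {f : G → ℂ}, IsClassFunction G f → ∀ y ∈ XF cls j, gF f y = gF f (x j) := fun hf y hy => by
    obtain ⟨h, e⟩ := (L.memF hj).1 hy
    rw [← gF_conj hf h (x j), gF, gF]; simp only [e]
  have key : ∀ {f : G → ℂ}, IsClassFunction G f →
      ∑ y ∈ XF cls j, f y = ((XF cls j).image zpowers).card * gF f (x j) := fun {f} hf => by
    rw [← sum_fiberwise_of_maps_to (g := zpowers) (t := (XF cls j).image zpowers)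
      (fun y hy => mem_image_of_mem _ hy), ← nsmul_eq_mul, ← sum_const]
    refine sum_congr rfl fun U hU => ?_
    obtain ⟨y, hy, rfl⟩ := mem_image.1 hU
    rw [← k0 hf y hy, gF]
    congr 1; ext z
    simp only [mem_filter, Set.Finite.mem_toFinset, Set.mem_ofPred_eq]
    exact ⟨fun h => h.2, fun h => ⟨L.zpF hj h.symm hy, h⟩⟩
  have h1 := key (f := fun _ => 1) fun _ _ => rfl
  obtain ⟨t, ht⟩ := h0.edvd j hj
  have h2 : D.T j = t := by rw [Dat.T, ht, Nat.mul_div_cancel_left _ (h0.epos j hj)]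
  simp only [gF, sum_const, nsmul_eq_mul, mul_one, L.cardF h0 hj, ← Set.ncard_eq_toFinset_card,
    ncard_gen, L.ord j hj, ht, ← h2] at h1
  have h3 := key hf
  rw [L.sumF hj hf] at h3
  have h4 : (D.T j : ℂ) ≠ 0 := by exact_mod_cast (L.Tpos h0 hj).ne'
  have h5 : (D.N j : ℂ) ≠ 0 := by exact_mod_cast (L.Npos hj).ne'
  push_cast at h1
  rw [k0 hf w hw]
  refine mul_left_cancel₀ (mul_ne_zero h4 h5) ?_
  linear_combination (gF f (x j)) * h1 - D.E j * D.T j * h3

theorem allF [Fintype G] {f : G → ℂ} (hf : IsClassFunction G f) :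
    ∑ y, f y = f 1 + ∑ j ∈ range D.n, D.N j * sF cls f j := by
  classical
  rw [← add_sum_erase _ _ (mem_univ (1 : G)), ← sum_fiberwise_of_maps_to (g := cls) (t := range D.n)
    (fun y hy => Finset.mem_range.2 (L.lt y (ne_of_mem_erase hy)))]
  congr 1
  refine sum_congr rfl fun j hj => ?_
  rw [← L.sumF (Finset.mem_range.1 hj) hf]
  congr 1; ext y; simp [mem_XF]

theorem A_lt (h0 : D.F0) (h1 : D.F1) {j i : ℕ} (hj : j < D.n) (h : D.A j i) :
    i < D.n ∧ D.O i < D.O j := by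
  obtain ⟨d, d1, d2, d3, rfl⟩ := h
  obtain ⟨a, b, -⟩ := h1.pw j hj d d3 (Finset.mem_range.1 d1).ne
  have := h0.two _ a
  exact ⟨a, by nlinarith⟩

theorem cycF (h0 : D.F0) (h1 : D.F1) {j : ℕ} (hj : j < D.n) {f : G → ℂ} (hf : IsClassFunction G f) :
    ∑ i ∈ range (D.O j), f (x j ^ i) =
      f 1 + D.E j * sF cls f j + ∑ i ∈ range D.n with D.A j i, D.E i * sF cls f i := by
  classical
  have := Fintype.ofFinite G
  have e0 : ∑ i ∈ range (D.O j), f (x j ^ i) = ∑ y ∈ univ.filter (· ∈ zpowers (x j)), f y := by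
    rw [← L.ord j hj]
    refine sum_bij (fun i _ => x j ^ i) (fun i _ => by simp) (fun a ha b hb e =>
      pow_injOn_Iio_orderOf (by simpa using ha) (by simpa using hb) e) (fun y hy => ?_) fun _ _ => rfl
    obtain ⟨i, hi, rfl⟩ := mem_image.1 (mem_zpowers_iff_mem_range_orderOf.1 (mem_filter.1 hy).2)
    exact ⟨i, hi, rfl⟩
  have e1 : ∀ i < D.n, ∀ w ∈ zpowers (x j), w ∈ XF cls i →
      ∑ y ∈ ((univ.filter (· ∈ zpowers (x j))).erase 1).filter (cls · = i), f y = D.E i * sF cls f i := by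
    intro i hi w w1 w2
    rw [← L.genF h0 hi hf w2, gF]
    congr 1; ext y
    simp only [mem_filter, mem_erase, mem_univ, true_and, Set.Finite.mem_toFinset, Set.mem_ofPred_eq]
    refine ⟨fun h => ?_, fun h => ⟨⟨(mem_XF.1 (L.zpF hi h.symm w2)).1,
      zpowers_le.2 w1 (h.le (mem_zpowers y))⟩, (mem_XF.1 (L.zpF hi h.symm w2)).2⟩⟩
    exact zp_eq_of_ord h.1.2 w1 ((L.ordF hi (mem_XF.2 ⟨h.1.1, h.2⟩)).trans (L.ordF hi w2).symm)
  have hA : ¬ D.A j j := fun h => (L.A_lt h0 h1 hj h).2.ne rfl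
  rw [e0, ← add_sum_erase _ _ (show (1 : G) ∈ _ by simp), add_assoc,
    ← sum_insert (f := fun i => D.E i * sF cls f i) (by simp [hA]),
    ← sum_fiberwise_of_maps_to (g := cls) (t := insert j ((range D.n).filter (D.A j ·))) fun y hy => ?_]
  · congr 1
    refine sum_congr rfl fun i hi => ?_
    rcases mem_insert.1 hi with rfl | hi
    · exact e1 _ hj _ (mem_zpowers _) (L.selfF hj)
    · obtain ⟨a, d, d1, d2, d3, rfl⟩ := mem_filter.1 hi
      refine e1 _ (Finset.mem_range.1 a) (x j ^ d) (pow_mem (mem_zpowers _) d) (mem_XF.2 ⟨?_, (L.pw j hj d).symm⟩)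
      exact pow_ne_one_of_lt_orderOf (by omega) (L.ord j hj ▸ Finset.mem_range.1 d1)
  · simp only [mem_erase, mem_filter, mem_univ, true_and] at hy
    have o1 : orderOf y ∣ D.O j := L.ord j hj ▸ orderOf_dvd_of_mem_zpowers hy.2
    obtain ⟨d, hd⟩ := o1
    have o2 : 1 < orderOf y := by
      have := orderOf_pos y
      have := mt orderOf_eq_one_iff.1 hy.1
      omega
    have d0 : 0 < d := Nat.pos_of_ne_zero fun e => by have := h0.two j hj; rw [e] at hd; omega
    have o3 : zpowers (x j ^ d) = zpowers y := zp_eq_of_ord (pow_mem (mem_zpowers _) d) hy.2 (by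
      rw [orderOf_pow_of_dvd d0.ne' (by rw [L.ord j hj, hd]; exact dvd_mul_left _ _), L.ord j hj, hd,
        Nat.mul_div_cancel _ d0])
    have o4 := L.zpF (L.lt y hy.1) o3.symm (mem_XF.2 ⟨hy.1, rfl⟩)
    rcases Nat.lt_or_ge 1 d with e | e
    · refine mem_insert_of_mem (mem_filter.2 ⟨Finset.mem_range.2 (L.lt y hy.1), d,
        Finset.mem_range.2 (by nlinarith), e, ⟨orderOf y, by rw [hd, mul_comm]⟩, ?_⟩)
      rw [L.pw j hj]; exact (mem_XF.1 o4).2
    · obtain rfl : d = 1 := by omega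
      rw [← (mem_XF.1 o4).2, pow_one, L.cx j hj]; exact mem_insert_self _ _

theorem intF (h0 : D.F0) (h1 : D.F1) {χ : G → ℂ} (hχ : IsCharacter G χ) {j : ℕ} (hj : j < D.n) :
    ∃ s : ℤ, sF cls χ j = s := by
  classical
  induction h : D.O j using Nat.strong_induction_on generalizing j with | _ o ih =>
  have key : ∀ i, ∃ s : ℤ, D.A j i → sF cls χ i = s := fun i => by
    by_cases e : D.A j i
    · exact (ih _ (h ▸ (L.A_lt h0 h1 hj e).2) (L.A_lt h0 h1 hj e).1 rfl).imp fun s a _ => a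
    · exact ⟨0, fun a => absurd a e⟩
  choose s hs using key
  obtain ⟨m, hm⟩ := sum_pow hχ (g := x j) (n := D.O j) (L.ord j hj ▸ pow_orderOf_eq_one _)
  obtain ⟨d, hd⟩ := isChar_degree hχ
  rw [L.cycF h0 h1 hj (isChar_classFun hχ), hd,
    sum_congr rfl fun i hi => by rw [hs i (mem_filter.1 hi).2]] at hm
  exact int_of_rat (IsIntegral.sum _ fun c _ => isChar_isIntegral hχ _)
    (a := D.O j * m - d - ∑ i ∈ range D.n with D.A j i, D.E i * s i) (b := D.E j)
    (by exact_mod_cast (h0.epos j hj).ne') (by push_cast; linear_combination hm)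

variable [IsSimpleGroup G] (h0 : D.F0) (h1 : D.F1) (hG : ¬ IsMulCommutative G)
include h0 h1 hG

theorem row {χ : IrrCharacter G} (h : χ ≠ triv G) {S : ℕ → ℤ} (hS : ∀ j < D.n, sF cls χ j = S j) :
    D.Row (dg χ) S := by
  classical
  have := Fintype.ofFinite G
  have hd : (dg χ : ℂ) ≠ 0 := by exact_mod_cast (dg_pos χ).ne'
  have hc := isChar_classFun (ch χ)
  refine ⟨one_lt_dg hG h, L.card ▸ dg_dvd χ, fun j hj => ?_, fun j hj e => ?_, fun j hj => ?_,
    fun j hj p a hp e => ?_, fun j hj => ?_, ?_, ?_⟩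
  · obtain ⟨s, hs⟩ := int_of_rat (z := ∑ c ∈ CF cls j, centralChar χ c.out)
      (IsIntegral.sum _ fun c _ => isIntegral_centralChar χ.2 _) (a := S j * D.N j) (b := dg χ)
      (by exact_mod_cast (dg_pos χ).ne') (by
        push_cast
        rw [← hS j hj, sF, sum_mul, sum_mul]
        refine sum_congr rfl fun c hc => ?_
        rw [centralChar, L.idxF (L.outF hj hc), dg_eq]; field_simp)
    refine ⟨s, ?_⟩
    have e : (S j * D.N j : ℂ) = dg χ * s := by
      rw [← hs, ← hS j hj, sF, sum_mul, mul_sum]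
      refine sum_congr rfl fun c hc => ?_
      rw [centralChar, L.idxF (L.outF hj hc), dg_eq]; field_simp
    exact_mod_cast e
  · have : (S j : ℂ) = 0 := by
      rw [← hS j hj]
      refine sum_eq_zero fun c hc => (N9.burnside χ.2 (dg_eq χ) ?_).resolve_right
        (norm_lt hG h (mem_XF.1 (L.outF hj hc)).1).ne
      rw [L.idxF (L.outF hj hc)]; exact e.symm
    exact_mod_cast this
  · have e : ‖(S j : ℂ)‖ < D.T j * dg χ := by
      rw [← hS j hj, ← L.cardC h0 hj, ← nsmul_eq_mul, ← sum_const]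
      exact (norm_sum_le _ _).trans_lt (sum_lt_sum_of_nonempty
        (card_pos.1 (L.cardC h0 hj ▸ L.Tpos h0 hj)) fun c hc => norm_lt hG h (mem_XF.1 (L.outF hj hc)).1)
    rw [Complex.norm_intCast] at e
    exact_mod_cast e
  · obtain ⟨M, hM⟩ := exists_isPModular hp
    rw [← memLI_intCast_iff hM]
    push_cast
    rw [← hS j hj, ← L.cardC h0 hj, ← nsmul_eq_mul, ← sum_const, sF, ← sum_sub_distrib, ← dg_eq]
    exact memLI_sum hM.2.1.isPrime _ fun c hc => memLI_char_sub_degree hM (ch χ) (k := a)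
      (by rw [← e, ← L.ordF hj (L.outF hj hc), pow_orderOf_eq_one])
  · obtain ⟨m, hm⟩ := sum_pow (ch χ) (g := x j) (n := D.O j) (L.ord j hj ▸ pow_orderOf_eq_one _)
    rw [L.cycF h0 h1 hj hc, dg_eq, hS j hj,
      sum_congr rfl fun i hi => by rw [hS i (Finset.mem_range.1 (mem_filter.1 hi).1)]] at hm
    exact ⟨m, by exact_mod_cast hm⟩
  · have e := inner_irr_ne χ.2 (triv G).2 fun e => h (Subtype.ext e)
    simp only [classInner, triv_apply, map_one, mul_one] at e
    rw [mul_eq_zero, or_iff_right (inv_ne_zero card_ne_zero), L.allF hc, dg_eq,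
      sum_congr rfl fun i hi => by rw [hS i (Finset.mem_range.1 hi), mul_comm]] at e
    exact_mod_cast e
  · have e := inner_irr_self χ.2
    rw [classInner, inv_mul_eq_one₀ card_ne_zero, L.allF fun a b => by rw [hc], L.card] at e
    simp only [sF, Complex.mul_conj, dg_eq, Complex.normSq_eq_norm_sq, Complex.norm_natCast] at e
    have e' : (D.g : ℝ) = (dg χ : ℝ) ^ 2 + ∑ j ∈ range D.n, D.N j * ∑ c ∈ CF cls j, ‖χ.1 c.out‖ ^ 2 := by
      exact_mod_cast e
    have e2 : (dg χ : ℝ) ^ 2 + ∑ j ∈ range D.n, (S j : ℝ) ^ 2 * D.N j / D.T j ≤ D.g := by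
      rw [e']
      refine add_le_add_right (sum_le_sum fun j hj => ?_) _
      rw [Finset.mem_range] at hj
      rw [div_le_iff₀ (by exact_mod_cast L.Tpos h0 hj), mul_comm, mul_assoc]
      refine mul_le_mul_of_nonneg_left ?_ (Nat.cast_nonneg _)
      have a1 : |(S j : ℝ)| ≤ ∑ c ∈ CF cls j, ‖χ.1 c.out‖ := by
        rw [← Complex.norm_intCast, ← hS j hj]; exact norm_sum_le _ _
      rw [← sq_abs, ← L.cardC h0 hj, mul_comm]
      exact (pow_le_pow_left₀ (abs_nonneg _) a1 2).trans sq_sum_le_card_mul_sum_sq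
    exact_mod_cast e2

omit h0 h1 in
theorem npp {j : ℕ} (hj : j < D.n) (p a : ℕ) (hp : p.Prime) : D.N j ≠ p ^ a := fun e => by
  classical
  obtain ⟨M, hM⟩ := exists_isPModular hp
  have hP := hM.2.1.isPrime
  have e1 := sum_irr_mul_conj (x j) 1
  rw [if_neg (by simpa using L.ne j hj), ← add_sum_erase _ _ (mem_univ (triv G))] at e1
  simp only [triv_apply, map_one, mul_one] at e1
  simp only [dg_eq, Complex.conj_natCast] at e1
  refine not_memLI_one hP ?_
  rw [eq_neg_of_add_eq_zero_left e1]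
  refine memLI_neg (memLI_sum hP _ fun χ hχ => ?_)
  by_cases h : p ∣ dg χ
  · exact memLI_mul_left hP (memLR_of_isIntegral hP (isChar_isIntegral (ch χ) _))
      ((memLI_natCast_iff hM _).2 h)
  · rw [(N9.burnside χ.2 (dg_eq χ) ?_).resolve_right (norm_lt hG (ne_of_mem_erase hχ) (L.ne j hj)).ne,
      zero_mul]
    · exact memLI_zero hP
    · rw [L.idxF (L.selfF hj), e]
      exact (hp.coprime_iff_not_dvd.2 h).pow_left a

theorem three : 3 ≤ D.g.primeFactors.card := by
  by_contra hc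
  have g1 : D.g ≠ 1 := L.card ▸ Finite.one_lt_card.ne'
  obtain ⟨p, hp, hd⟩ := Nat.exists_prime_and_dvd g1
  obtain ⟨v, m, hm, e⟩ := Nat.exists_eq_pow_mul_and_not_dvd h0.gpos.ne' p hp.one_lt.ne'
  obtain ⟨a, rfl⟩ : ∃ a, v = a + 1 := ⟨v - 1, by
    rcases v with _ | v
    · rw [pow_zero, one_mul] at e; exact absurd (e ▸ hd) hm
    · rfl⟩
  obtain ⟨l, hl, -, c, h2⟩ := h1.cen p a hp ⟨m, e⟩
  obtain ⟨u, hu⟩ := (dvd_mul_left _ _).trans (h0.ecd l hl)
  have c0 : 0 < D.C l := L.cen l hl ▸ Nat.card_pos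
  have h3 : D.N l = u := by rw [Dat.N, hu, Nat.mul_div_cancel_left _ c0]
  have h4 : m = c * u := Nat.eq_of_mul_eq_mul_left (pow_pos hp.pos (a + 1)) (by
    rw [← e, hu, h2, mul_assoc])
  have h5 : u.primeFactors ⊆ D.g.primeFactors.erase p := fun r hr => by
    obtain ⟨r1, r2, -⟩ := Nat.mem_primeFactors.1 hr
    refine mem_erase.2 ⟨?_, Nat.mem_primeFactors.2 ⟨r1, hu ▸ r2.mul_left _, h0.gpos.ne'⟩⟩
    rintro rfl
    exact hm (h4 ▸ r2.mul_left _)
  have h6 := card_le_card h5
  rw [card_erase_of_mem (Nat.mem_primeFactors.2 ⟨hp, hd, h0.gpos.ne'⟩)] at h6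
  have u0 := h3 ▸ L.Npos hl
  rcases Nat.eq_zero_or_pos u.primeFactors.card with h | h
  · rcases Nat.primeFactors_eq_empty.1 (card_eq_zero.1 h) with h | h
    · omega
    · exact L.npp hG hl p 0 hp (h3.trans h)
  · obtain ⟨r, k, r1, -, r2⟩ := (isPrimePow_nat_iff u).1
      (isPrimePow_iff_card_primeFactors_eq_one.2 (by omega))
    exact L.npp hG hl r k r1 (h3.trans r2.symm)

theorem sixty : 60 ≤ D.g := by
  have h3 := L.three h0 h1 hG
  have h4 : 2 ∣ D.g → 2 * 2 ∣ D.g := fun h => by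
    by_contra hc
    obtain ⟨l, hl, a, -⟩ := h1.cen 2 0 Nat.prime_two (by simpa using h)
    have b := h0.edvd l hl
    rw [a, Nat.totient_two, Nat.dvd_one] at b
    exact (h1.small 2 Nat.prime_two hc l hl a).1 b
  by_contra hc
  have : ∀ g < 60, 3 ≤ g.primeFactors.card → 2 ∣ g ∧ ¬ 2 * 2 ∣ g := by
    simp only [Nat.primeFactors]; decide +kernel
  have := this D.g (by omega) h3
  exact this.2 (h4 this.1)

theorem f4 : D.F4 := by
  classical
  refine ⟨fun j hj p a hp => L.npp hG hj p a hp, L.three h0 h1 hG, L.sixty h0 h1 hG, ?_⟩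
  have key : ∀ (χ : IrrCharacter G) j, ∃ s : ℤ, j < D.n → sF cls χ j = s := fun χ j => by
    by_cases e : j < D.n
    · exact (L.intF h0 h1 (ch χ) e).imp fun s a _ => a
    · exact ⟨0, fun a => absurd a e⟩
  choose S hS using key
  have hT : ∀ j < D.n, S (triv G) j = D.T j := fun j hj => by
    have := hS (triv G) j hj
    simp only [sF, triv_apply, sum_const, L.cardC h0 hj, nsmul_eq_mul, mul_one] at this
    exact_mod_cast this.symm
  refine ⟨(univ.erase (triv G)).val.map fun χ => (dg χ, S χ), ?_, fun r hr => ?_, ?_,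
    fun j hj => ?_, fun j hj => ?_⟩
  · rw [Multiset.card_map, card_val, card_erase_add_one (mem_univ _), card_univ,
      ← Nat.card_eq_fintype_card, card_irr_eq_card_conjClasses, L.kk]
  · obtain ⟨χ, hχ, rfl⟩ := Multiset.mem_map.1 hr
    exact L.row h0 h1 hG (ne_of_mem_erase hχ) (hS χ)
  · rw [Multiset.map_map, ← L.card, ← sum_dg_sq, ← sum_erase_add _ _ (mem_univ (triv G)), dg_triv]
    rfl
  · have e : ∑ χ : IrrCharacter G, (dg χ : ℂ) * S χ j = 0 := by
      simp only [← hS _ j hj, sF, mul_sum]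
      rw [sum_comm]
      refine sum_eq_zero fun c hc => ?_
      have e1 := sum_irr_mul_conj c.out 1
      rw [if_neg (by simpa using (mem_XF.1 (L.outF hj hc)).1)] at e1
      simpa only [dg_eq, Complex.conj_natCast, mul_comm] using e1
    have e' : ∑ χ : IrrCharacter G, (dg χ : ℤ) * S χ j = 0 := by exact_mod_cast e
    rw [← sum_erase_add _ _ (mem_univ (triv G)), dg_triv, hT j hj, Nat.cast_one, one_mul] at e'
    rw [Multiset.map_map]; exact e'
  · have e : ∑ χ : IrrCharacter G, (S χ j : ℂ) ^ 2 = D.T j * D.C j := by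
      have a : ∀ χ : IrrCharacter G, (S χ j : ℂ) ^ 2 = sF cls χ j * conj (sF cls χ j) := fun χ => by
        rw [hS χ j hj, map_intCast, sq]
      simp only [a, sF, map_sum, sum_mul_sum]
      rw [sum_comm, ← L.cardC h0 hj, ← nsmul_eq_mul, ← sum_const]
      refine sum_congr rfl fun c hc => ?_
      rw [sum_comm, sum_eq_single c]
      · rw [sum_irr_mul_conj, if_pos (IsConj.refl _), L.cenc (mem_XF.1 (L.outF hj hc)).1,
          (mem_XF.1 (L.outF hj hc)).2]
      · intro c' _ h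
        rw [sum_irr_mul_conj, if_neg]
        rw [← ConjClasses.mk_eq_mk_iff_isConj, mk_out', mk_out']
        exact h.symm
      · exact fun h => absurd hc h
    have e' : ∑ χ : IrrCharacter G, S χ j ^ 2 = D.T j * D.C j := by exact_mod_cast e
    rw [← sum_erase_add _ _ (mem_univ (triv G)), hT j hj] at e'
    rw [Multiset.map_map]; exact e'

end Link

end Cfsg.Agent.KC
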