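import Cfsg.Agent.KC.TwoB

/-! Existence of the class data. -/

set_option autoImplicit false

namespace Cfsg.Agent.KC

open Subgroup Finset Cfsg.Agent.SC3

variable {G : Type*} [Group G] [Finite G]

omit [Finite G] in
theorem C1_eq_Ce (y : G) : C1 y = Ce (zpowers y) := by rw [Ce, zpowers_eq_closure, centralizer_closure]

omit [Finite G] in
theorem C1_le_Nm (y : G) : C1 y ≤ Nm (zpowers y) := C1_eq_Ce y ▸ centralizer_le_normalizer _

omit [Finite G] in
theorem card_Nm_eq (y : G) : Nat.card (Nm (zpowers y)) =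
    Nat.card (zpowers y).normalizerMonoidHom.range * Nat.card (C1 y) := by
  rw [← (zpowers y).normalizerMonoidHom.ker.card_mul_index, index_ker, normalizerMonoidHom_ker, mul_comm,
    Nat.card_congr (subgroupOfEquivOfLe (centralizer_le_normalizer _)).toEquiv, C1_eq_Ce]

theorem range_dvd (y : G) : Nat.card (zpowers y).normalizerMonoidHom.range ∣ (orderOf y).totient := by
  rw [← Nat.card_zpowers, ← IsCyclic.card_mulAut]
  exact card_subgroup_dvd_card _

/-- rational conjugacy -/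
def ratS (G : Type*) [Group G] : Setoid {y : G // y ≠ 1} where
  r y z := ∃ h : G, zpowers z.1 = cj h (zpowers y.1)
  iseqv := ⟨fun y => ⟨1, (cj_one _).symm⟩, fun ⟨h, e⟩ => ⟨h⁻¹, by rw [e, cj_cj, inv_mul_cancel, cj_one]⟩,
    fun ⟨h, e⟩ ⟨k, f⟩ => ⟨k * h, by rw [f, e, cj_cj]⟩⟩

namespace Link

variable {D : Dat} {x : ℕ → G} {cls : G → ℕ} (L : Link G D x cls)
include L

theorem E_eq {j : ℕ} (hj : j < D.n) : D.E j = Nat.card (zpowers (x j)).normalizerMonoidHom.range := by
  have h := card_Nm_eq (x j)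
  rw [L.nor j hj, L.cen j hj] at h
  exact Nat.eq_of_mul_eq_mul_right (L.cen j hj ▸ Nat.card_pos) h

theorem cardX' {j : ℕ} (hj : j < D.n) : {y | y ≠ 1 ∧ cls y = j}.ncard = D.T j * D.N j := by
  have h1 : {y | y ≠ 1 ∧ cls y = j} = {y | ∃ h : G, zpowers y = zpowers (h * x j * h⁻¹)} := by
    ext y
    refine ⟨fun h => (L.eq _ _ (L.ne j hj) h.1).1 ((L.cx j hj).trans h.2.symm), fun h => ?_⟩
    have h2 : y ≠ 1 := by
      rintro rfl
      obtain ⟨h, e⟩ := h
      exact L.ne j hj (by simpa using e.symm)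
    exact ⟨h2, ((L.eq _ _ (L.ne j hj) h2).2 h).symm.trans (L.cx j hj)⟩
  have h2 := (Nm (zpowers (x j))).card_mul_index
  rw [L.nor j hj, L.card] at h2
  have h4 := range_dvd (x j)
  rw [← L.E_eq hj, L.ord j hj] at h4
  obtain ⟨t, ht⟩ := h4
  have h3 : 0 < D.C j := L.cen j hj ▸ Nat.card_pos
  rw [h1, ncard_rat, L.ord j hj, Dat.T, Dat.N, ← h2, ht, Nat.mul_div_cancel_left _ (L.E_eq hj ▸ Nat.card_pos),
    mul_comm (D.E j) (D.C j), mul_assoc, Nat.mul_div_cancel_left _ h3]
  ring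

theorem sum_all [Fintype G] (f : G → ℕ) (F : ℕ → ℕ) (h : ∀ y, y ≠ 1 → f y = F (cls y)) :
    ∑ y, f y = ∑ j ∈ range D.n, D.T j * D.N j * F j + f 1 := by
  classical
  rw [← sum_erase_add _ _ (Finset.mem_univ (1 : G)), ← sum_fiberwise_of_maps_to (g := cls) (t := range D.n)
    fun y hy => Finset.mem_range.2 (L.lt y (ne_of_mem_erase hy))]
  congr 1
  refine sum_congr rfl fun j hj => ?_
  rw [sum_congr rfl (g := fun _ => F j) fun y hy => by
    rw [h y (ne_of_mem_erase (mem_filter.1 hy).1), (mem_filter.1 hy).2], sum_const, smul_eq_mul,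
    ← L.cardX' (Finset.mem_range.1 hj), ← Set.ncard_coe_finset]
  congr 2
  ext y
  simp

theorem f0 (hs : ∀ i j, i ≤ j → j < D.n →
    D.O i < D.O j ∨ D.O i = D.O j ∧ (D.T i < D.T j ∨ D.T i = D.T j ∧ D.C i ≤ D.C j)) : D.F0 := by
  classical
  have := Fintype.ofFinite G
  have hg : 0 < D.g := L.card ▸ Nat.card_pos
  refine ⟨fun j hj => ?_, fun j hj => L.E_eq hj ▸ Nat.card_pos, fun j hj => ?_, fun j hj => ?_, fun j hj => ?_,
    hg, hs, ?_, ?_⟩
  · have h1 := orderOf_pos (x j)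
    have h2 := mt orderOf_eq_one_iff.1 (L.ne j hj)
    rw [L.ord j hj] at h1 h2
    omega
  · rw [L.E_eq hj, ← L.ord j hj]; exact range_dvd _
  · rw [← L.ord j hj, ← L.cen j hj, ← Nat.card_zpowers]
    exact card_dvd_of_le (zpowers_le.2 (mem_centralizer_singleton_iff.2 rfl))
  · rw [← L.nor j hj, ← L.card]; exact card_subgroup_dvd_card _
  · have h1 := L.sum_all (fun y => Nat.card (C1 y)) D.C fun y hy => L.cenc hy
    have h2 : ∑ y : G, Nat.card (C1 y) = D.k * D.g := by
      rw [← L.kk, ← L.card, ← card_comm_eq_card_conjClasses_mul_card, ← Nat.card_sigma]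
      exact Nat.card_congr ⟨fun p => ⟨(p.2, p.1), mem_centralizer_singleton_iff.1 p.2.2⟩,
        fun p => ⟨p.1.2, p.1.1, mem_centralizer_singleton_iff.2 p.2⟩, fun _ => rfl, fun _ => rfl⟩
    have h3 : Nat.card (C1 (1 : G)) = D.g := by
      rw [← L.card, show C1 (1 : G) = ⊤ from (centralizer_eq_top_iff_subset).2 (by simp), card_top]
    rw [h2, h3, sum_congr rfl (g := fun j => D.T j * D.g) fun j hj => by
      rw [mul_assoc, Dat.N, Nat.div_mul_cancel (by
        rw [← L.cen j (Finset.mem_range.1 hj), ← L.card]; exact card_subgroup_dvd_card _)], ← sum_mul,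
      ← add_one_mul] at h1
    exact (Nat.eq_of_mul_eq_mul_right hg h1).symm
  · have h1 := L.sum_all (fun _ => 1) (fun _ => 1) fun _ _ => rfl
    simpa [← Nat.card_eq_fintype_card, L.card] using h1.symm

end Link

theorem exists_link (G : Type*) [Group G] [Finite G] : ∃ D x cls, Link G D x cls ∧ D.F0 := by
  classical
  let S := Quotient (ratS G)
  let n := Nat.card S
  let e0 : Fin n ≃ S := (Finite.equivFin S).symm
  let key : G → ℕ ×ₗ ℕ ×ₗ ℕ := fun y => toLex (orderOf y, toLex ((orderOf y).totient /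
    (Nat.card (Nm (zpowers y)) / Nat.card (C1 y)), Nat.card (C1 y)))
  let e : Fin n ≃ S := (Tuple.sort fun i => key (e0 i).out.1).trans e0
  let x : ℕ → G := fun j => if h : j < n then (e ⟨j, h⟩).out.1 else 1
  let cls : G → ℕ := fun y => if h : y = 1 then 0 else e.symm (Quotient.mk _ ⟨y, h⟩)
  have hx : ∀ j (h : j < n), x j = (e ⟨j, h⟩).out.1 := fun j h => dif_pos h
  have hc : ∀ y (h : y ≠ 1), cls y = e.symm (Quotient.mk _ ⟨y, h⟩) := fun y h => dif_neg h
  let D : Dat := ⟨n, Nat.card G, Nat.card (ConjClasses G), fun j => orderOf (x j),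
    fun j => Nat.card (Nm (zpowers (x j))) / Nat.card (C1 (x j)), fun j => Nat.card (C1 (x j)),
    fun j d => cls (x j ^ d)⟩
  have L : Link G D x cls := by
    refine ⟨rfl, rfl, fun j hj => hx j hj ▸ (e ⟨j, hj⟩).out.2, fun _ _ => rfl, fun _ _ => rfl,
      fun j _ => (Nat.div_mul_cancel (card_dvd_of_le (C1_le_Nm _))).symm, fun y hy => hc y hy ▸ Fin.is_lt _,
      fun j hj => ?_, fun y z hy hz => ?_, fun _ _ _ => rfl⟩
    · rw [hx j hj, hc _ (e ⟨j, hj⟩).out.2, Quotient.out_eq, e.symm_apply_apply]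
    · rw [hc y hy, hc z hz, ← Fin.ext_iff, e.symm.injective.eq_iff, Quotient.eq]
      simp only [zp_cj]
      rfl
  refine ⟨D, x, cls, L, L.f0 fun i j hij hj => ?_⟩
  have h : key (x i) ≤ key (x j) := by
    rw [hx i (hij.trans_lt hj), hx j hj]
    exact Tuple.monotone_sort (fun i => key (e0 i).out.1) (a := ⟨i, hij.trans_lt hj⟩) (b := ⟨j, hj⟩) hij
  simp only [key, Prod.Lex.toLex_le_toLex] at h
  exact h

end Cfsg.Agent.KC
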