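import Cfsg.Agent.Ord.Zas
import Cfsg.Agent.Stein.SL2Pres
import Cfsg.Agent.SL2.Elem

/-! A simple group of order 1092 is `PSL₂(13)`. -/

set_option autoImplicit false

namespace Cfsg.Agent.KC

open Finset Cfsg.Agent.Stein Cfsg.Agent.Ord

instance fact13 : Fact (Nat.Prime 13) := ⟨by norm_num⟩

def lg13 (x : ZMod 13) : ℕ := [0, 0, 0, 2, 1, 4, 2, 5, 1, 4, 5, 3, 3].getD x.val 0

def sq13 (x : ZMod 13) : Bool := (5658 : ℕ).testBit x.val

def iv13 (x : ZMod 13) : ZMod 13 :=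
  [0, 1, 7, 9, 10, 8, 11, 2, 5, 3, 4, 6, 12].getD x.val 0

/-- candidate for the element swapping `0` and `∞` -/
def W13 (μ α β : ZMod 13) : Option (ZMod 13) → Option (ZMod 13)
  | none => some 0
  | some x => if x = 0 then none else some (μ ^ lg13 x * bif sq13 x then α else β)

/-- the map `x ↦ -1 / x` -/
def M13 : Option (ZMod 13) → Option (ZMod 13)
  | none => some 0
  | some x => if x = 0 then none else some (-iv13 x)

theorem lg13_spec : ∀ x : ZMod 13, x ≠ 0 → x = 4 ^ lg13 x * bif sq13 x then 1 else 2 := by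
  decide +kernel

theorem iv13_spec : ∀ x : ZMod 13, x ≠ 0 → x * iv13 x = 1 := by decide +kernel

theorem norm13 : ∀ x : ZMod 13, x ≠ 0 → ∃ ν : ZMod 13, ν ^ 6 = 1 ∧ (ν * x = -1 ∨ ν * x = 2) := by
  decide +kernel

theorem W13_cases : ∀ μ : ZMod 13, μ ^ 6 = 1 → ∀ α : ZMod 13, α = -1 ∨ α = 2 →
    ∀ β c : ZMod 13, W13 μ α β (some c) = some (-α + 0) → ∀ ν : ZMod 13, ν ^ 6 = 1 →
    (∀ x : ZMod 13, W13 μ α β ((W13 μ α β (some x)).map fun y => c + ν * y) =
      (W13 μ α β (some (1 + x))).map (-α + ·)) → ∀ x : ZMod 13, W13 μ α β (some x) = M13 (some x) := by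
  decide +kernel

theorem M13_sq : ∀ x, M13 (M13 x) = x := by decide +kernel

/-- the lower unipotent elements -/
def Y13 (a : ZMod 13) (x : Option (ZMod 13)) : Option (ZMod 13) :=
  M13 ((M13 x).map (-a + ·))

theorem M13_rel : ∀ t : ZMod 13, t ≠ 0 → ∀ (u : ZMod 13) (x : Option (ZMod 13)),
    (Y13 (-iv13 t) ((x.map (u + ·)).map (t + ·))).map (t + ·) =
      Y13 (-(iv13 t ^ 2 * u)) ((Y13 (-iv13 t) (x.map (t + ·))).map (t + ·)) := by
  decide +kernel

theorem card_S13 : (Finset.univ.filter fun x : ZMod 13 => x ^ 6 = 1).card = 6 := by decide +kernel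

variable {G : Type*} [Group G]

theorem exists_zas13 [Finite G] [IsSimpleGroup G] (h : Nat.card G = 1092) :
    Nonempty (Zas G (ZMod 13)) := by
  obtain ⟨P⟩ : Nonempty (Sylow 13 G) := inferInstance
  have hc : ∀ Q : Sylow 13 G, Nat.card (Q : Subgroup G) = 13 := fun Q => by
    rw [Q.card_eq_multiplicity, h, show (1092 : ℕ) = 13 * 84 from rfl,
      Nat.factorization_mul (by norm_num) (by norm_num), Finsupp.add_apply,
      Nat.Prime.factorization_self (by norm_num), Nat.factorization_eq_zero_of_not_dvd (by norm_num)]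
    rfl
  have hi : (P : Subgroup G).index = 84 := by
    have := (P : Subgroup G).card_mul_index
    rw [hc, h] at this; omega
  have hn : Nat.card (Sylow 13 G) = 14 := by
    have h1 := card_sylow_modEq_one 13 G
    have h2 := P.card_dvd_index
    rw [hi] at h2
    have h3 : Nat.card (Sylow 13 G) ≠ 1 := fun h3 => by
      have := (Nat.card_eq_one_iff_unique.1 h3).1
      rcases IsSimpleGroup.eq_bot_or_eq_top_of_normal (P : Subgroup G) (P.normal_of_subsingleton)
        with e | e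
      · have := hc P; rw [e] at this; simp at this
      · have := hc P; rw [e, Subgroup.card_top, h] at this; simp at this
    have h4 := Nat.le_of_dvd (by norm_num) h2
    unfold Nat.ModEq at h1
    generalize Nat.card (Sylow 13 G) = n at *
    obtain ⟨k, rfl⟩ : ∃ k, n = 13 * k + 1 := ⟨n / 13, by omega⟩
    have : k ≤ 6 := by omega
    interval_cases k <;> simp_all
  let e : Multiplicative (ZMod 13) ≃* (P : Subgroup G) :=
    mulEquivOfPrimeCardEq (p := 13) (by simp) (hc P)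
  obtain ⟨Z, -⟩ := exists_zas P (V := ZMod 13) (fun a => e (Multiplicative.ofAdd a))
    (fun a b => by rw [ofAdd_add, map_mul]; rfl)
    (fun a b hab => Multiplicative.ofAdd.injective (e.injective (Subtype.ext hab)))
    (fun g => ⟨fun hg => ⟨(e.symm ⟨g, hg⟩).toAdd, by simp⟩, fun ⟨a, ha⟩ => ha ▸ (e _).2⟩)
    (fun k hk h1 Q hQ => by
      have h2 : k ∈ (P : Subgroup G) ⊓ Q := by
        rw [← P.isPGroup'.inf_normalizer_sylow Q]
        exact ⟨hk, Sylow.smul_eq_iff_mem_normalizer.1 hQ⟩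
      have h3 : Nat.card ((P : Subgroup G) ⊓ Q : Subgroup G) = 13 := by
        have := Subgroup.card_dvd_of_le (inf_le_left : (P : Subgroup G) ⊓ Q ≤ P)
        rw [hc] at this
        refine ((Nat.dvd_prime (by norm_num)).1 this).resolve_left fun h4 => h1 ?_
        rw [Subgroup.card_eq_one] at h4
        exact Subgroup.mem_bot.1 (h4 ▸ h2)
      exact Sylow.ext ((Subgroup.eq_of_le_of_card_ge inf_le_right (by rw [h3, hc])).symm.trans
        (Subgroup.eq_of_le_of_card_ge inf_le_left (by rw [h3, hc]))))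
    (by rw [hn]; simp)
  exact ⟨Z⟩

section
variable {Z : Zas G (ZMod 13)}

theorem L13 {g : G} (hg : g ∈ Z.H) (a : ZMod 13) : Z.L g a = Z.L g 1 * a := by
  have := map_nsmul (Zas.Lh hg) a.val 1
  rw [nsmul_eq_mul, nsmul_eq_mul, mul_one, ZMod.natCast_zmod_val, mul_comm] at this
  exact this

theorem L13' {g : G} (hg : g ∈ Z.H) : Z.L g = (Z.L g 1 * ·) := funext (L13 hg)

theorem L13_pow {g : G} (hg : g ∈ Z.H) (n : ℕ) : Z.L (g ^ n) 1 = Z.L g 1 ^ n := by
  induction n with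
  | zero => rw [pow_zero, pow_zero, Zas.L_one]
  | succ n ih => rw [pow_succ', pow_succ', Zas.L_mul (Z.H.pow_mem hg n), ih, L13 hg]

theorem L13_six (h6 : Nat.card Z.H = 6) {g : G} (hg : g ∈ Z.H) : Z.L g 1 ^ 6 = 1 := by
  have : g ^ 6 = 1 := by
    have := pow_card_eq_one' (x := (⟨g, hg⟩ : Z.H))
    rw [h6] at this
    exact congrArg Subtype.val this
  rw [← L13_pow hg, this, Zas.L_one]

theorem exists_L13 (h6 : Nat.card Z.H = 6) {ν : ZMod 13} (hν : ν ^ 6 = 1) :
    ∃ g ∈ Z.H, Z.L g 1 = ν := by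
  let f : Z.H → {x : ZMod 13 // x ^ 6 = 1} := fun g => ⟨Z.L g 1, L13_six h6 g.2⟩
  have hi : Function.Injective f := fun g g' e => Subtype.ext (Zas.eq_of_L g.2 g'.2 fun a => by
    rw [L13 g.2, L13 g'.2, show Z.L g 1 = Z.L g' 1 from congrArg Subtype.val e])
  obtain ⟨g, hg⟩ := (hi.bijective_of_nat_card_le (by
    rw [h6, Nat.card_eq_fintype_card, Fintype.card_subtype, card_S13])).2 ⟨ν, hν⟩
  exact ⟨g, g.2, congrArg Subtype.val hg⟩

theorem exists_w13 (h6 : Nat.card Z.H = 6) : ∃ w, ∀ x, Z.ρ w x = M13 x := by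
  obtain ⟨w, α, h1, h2, hα, ha⟩ : ∃ w α, Z.ρ w none = some 0 ∧ Z.ρ w (some 0) = none ∧
      (α = -1 ∨ α = 2) ∧ Z.ρ w (some 1) = some α := by
    obtain ⟨w, h1, h2⟩ := Z.exists_w
    obtain ⟨α, ha⟩ := Zas.w_some h2 (one_ne_zero (α := ZMod 13))
    obtain ⟨ν, hν, hα⟩ := norm13 α fun e => by
      rw [e, ← h1] at ha
      exact absurd ((Z.ρ w).injective ha) (by simp)
    obtain ⟨g, hg, rfl⟩ := exists_L13 h6 hν
    exact ⟨g * w, _, by rw [Z.mul_act, h1, hg.2], by rw [Z.mul_act, h2, hg.1], hα,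
      by rw [Z.mul_act, ha, (Zas.conj_τ hg α).2, L13 hg]⟩
  obtain ⟨β, hb⟩ := Zas.w_some h2 (show (2 : ZMod 13) ≠ 0 by decide)
  obtain ⟨s, hs, hs2⟩ := exists_L13 h6 (show (4 : ZMod 13) ^ 6 = 1 by decide)
  have hc := Zas.conj_w h1 h2 hs
  generalize hμ : Z.L (w * s * w⁻¹) 1 = μ
  have hk : ∀ (k : ℕ) (x : ZMod 13), Z.ρ w (some (4 ^ k * x)) = (Z.ρ w (some x)).map (μ ^ k * ·) := by
    intro k x
    induction k with
    | zero => simp
    | succ k ih =>
      have := Zas.w_H h1 h2 hs (4 ^ k * x)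
      rw [L13 hs, hs2, L13' hc, hμ, ih, ← mul_assoc, ← pow_succ'] at this
      rw [this]
      cases Z.ρ w (some x) <;> simp [pow_succ', mul_assoc]
  have hW : ∀ x, Z.ρ w x = W13 μ α β x := by
    rintro (_ | x)
    · exact h1
    by_cases hx : x = 0
    · rw [hx, h2]; rfl
    · rw [W13, if_neg hx]
      conv_lhs => rw [lg13_spec x hx, hk]
      cases sq13 x
      · rw [cond_false, hb]; rfl
      · rw [cond_true, ha]; rfl
  obtain ⟨g, hg, c, hr⟩ := Zas.w_rel h2 h1 ha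
  rw [L13' hg] at hr
  simp only [hW] at hr
  have h3 := W13_cases μ (hμ ▸ L13_six h6 hc) α hα β c (by simpa [W13] using hr none) _
    (L13_six h6 hg) fun x => hr (some x)
  refine ⟨w, ?_⟩
  rintro (_ | x)
  · exact h1
  · rw [hW, h3]

end

theorem o1092 [Finite G] [IsSimpleGroup G] (h : Nat.card G = 1092) :
    Nonempty (G ≃* Matrix.ProjectiveSpecialLinearGroup (Fin 2) (ZMod 13)) := by
  obtain ⟨Z⟩ := exists_zas13 h
  have h6 : Nat.card Z.H = 6 := by
    have := Z.card_H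
    rw [h, Nat.card_zmod] at this; omega
  obtain ⟨w, hw⟩ := exists_w13 h6
  have hw' : ∀ x, Z.ρ w⁻¹ x = M13 x := fun x => Z.inv_act (by rw [hw, M13_sq])
  have hy : ∀ a x, Z.ρ (w * Z.τ (-a) * w⁻¹) x = Y13 a x := fun a x => by
    rw [Z.mul_act, Z.mul_act, hw, hw', Z.τ_act]; rfl
  let S : SL2Sys (ZMod 13) G :=
    { x := Z.τ
      y := fun t => w * Z.τ (-t) * w⁻¹
      x_add := Z.τ_add
      y_add := fun t u => by rw [neg_add, Z.τ_add]; group
      conj := fun t u ht => by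
        rw [mul_inv_eq_iff_eq_mul]
        refine Z.ext fun x => ?_
        have hi : t⁻¹ = iv13 t := inv_eq_of_mul_eq_one_right (iv13_spec t ht)
        simp only [Z.mul_act _ (Z.τ _), Z.mul_act (Z.τ _), Z.mul_act (w * _ * w⁻¹), hy, Z.τ_act, hi,
          Z.mul_act (Z.τ _ * _)]
        exact M13_rel t ht u x }
  have hs : Function.Surjective S.fromSL2 := MonoidHom.range_eq_top.1
    (Zas.eq_top (Z := Z) (w := w) (hw none) _ (fun a => ⟨_, S.fromSL2_x a⟩) fun a =>
      ⟨_, (S.fromSL2_y (-a)).trans (by change w * Z.τ (- -a) * w⁻¹ = _; rw [neg_neg])⟩)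
  let ψ : SL2.PSLT (ZMod 13) →* G := QuotientGroup.lift _ S.fromSL2 fun z hz => by
    rw [MonoidHom.mem_ker, ← Subgroup.mem_bot, ← Z.center_eq_bot, Subgroup.mem_center_iff]
    intro g
    obtain ⟨g, rfl⟩ := hs g
    rw [← map_mul, ← map_mul, Subgroup.mem_center_iff.1 hz]
  have hψ : Function.Surjective ψ := fun g => by
    obtain ⟨g, rfl⟩ := hs g
    exact ⟨QuotientGroup.mk g, rfl⟩
  have hc := SL2.card_psl_mul (F := ZMod 13)
  rw [SL2.card_center_odd (by decide), SL2.card_sl, ZMod.card] at hc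
  exact ⟨(MulEquiv.ofBijective ψ (hψ.bijective_of_nat_card_le (by omega))).symm⟩

end Cfsg.Agent.KC
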