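import Cfsg.Agent.KC.A7Cert
import Cfsg.Agent.EP.Basic

set_option autoImplicit false
set_option linter.unusedSectionVars false

/-! A simple group of order 2520 with the centralizer orders of `A₇` is `A₇`. -/

namespace Cfsg.Agent.KC
open Subgroup Cfsg.Agent.SC3 Cfsg.Agent.EP

variable {G : Type*} [Group G] [Finite G]

theorem mem_c1 {x y : G} : y ∈ C1 x ↔ Commute x y := by
  rw [mem_centralizer_singleton_iff]; exact ⟨fun h => h.symm, fun h => h.symm⟩

theorem ord_dvd_c1 {x y : G} (h : Commute x y) : orderOf y ∣ Nat.card (C1 x) :=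
  Subgroup.orderOf_dvd_natCard _ (mem_c1.2 h)

theorem exists_i2_fix {U : Subgroup G} (hU : 2 ∣ Nat.card U) {t : G} (ht : t * t = 1) (hn : t ∈ Nm U) :
    ∃ v ∈ U, I2 v ∧ Commute t v := by
  classical
  have := Fintype.ofFinite G
  have ti : t⁻¹ = t := inv_eq_of_mul_eq_one_right ht
  have h1 := Frob.even_card_of_invol (Finset.univ.filter fun g => g ∈ U ∧ ¬ g ∈ C1 t) (fun g => t * g * t⁻¹)
    (fun a ha => by
      simp only [Finset.mem_filter, Finset.mem_univ, true_and, mem_c1] at ha ⊢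
      refine ⟨Nm_conj hn ha.1, fun h => ha.2 ?_⟩
      have : Commute (t * t * t⁻¹) (t * a * t⁻¹) := by simpa using h
      exact commute_conj.1 this)
    (fun a _ => by
      rw [ti]; calc t * (t * a * t) * t = (t * t) * a * (t * t) := by group
        _ = a := by rw [ht]; group)
    (fun a ha h => by
      simp only [Finset.mem_filter, Finset.mem_univ, true_and, mem_c1] at ha
      exact ha.2 (mul_inv_eq_iff_eq_mul.1 h))
  have h2 := Finset.card_filter_add_card_filter_not (s := Finset.univ.filter fun g => g ∈ U)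
    (p := fun g => g ∈ C1 t)
  rw [Finset.filter_filter, Finset.filter_filter, Frob.card_sub,
    Frob.card_sub' (U ⊓ C1 t) _ (fun g => by simp)] at h2
  obtain ⟨v, hv, h3⟩ := exists_ord (U := U ⊓ C1 t) Nat.prime_two (by
    rw [even_iff_two_dvd] at h1; omega)
  exact ⟨v, hv.1, i2_iff.2 h3, mem_c1.1 hv.2⟩

variable (G) in
/-- the orders and centralizer orders of `A₇` -/
def H7 : Prop := ∀ x : G, (orderOf x, Nat.card (C1 x)) ∈
  [(1, 2520), (2, 24), (3, 36), (3, 9), (4, 4), (5, 5), (6, 12), (7, 7)]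

namespace H7
variable (h : H7 G)
include h

theorem cs (x : G) : (orderOf x = 1 ∧ Nat.card (C1 x) = 2520) ∨ (orderOf x = 2 ∧ Nat.card (C1 x) = 24) ∨
    (orderOf x = 3 ∧ Nat.card (C1 x) = 36) ∨ (orderOf x = 3 ∧ Nat.card (C1 x) = 9) ∨
    (orderOf x = 4 ∧ Nat.card (C1 x) = 4) ∨ (orderOf x = 5 ∧ Nat.card (C1 x) = 5) ∨
    (orderOf x = 6 ∧ Nat.card (C1 x) = 12) ∨ (orderOf x = 7 ∧ Nat.card (C1 x) = 7) := by
  simpa using h x

theorem c2 {w : G} (hw : I2 w) : Nat.card (C1 w) = 24 := by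
  have := h.cs w; have := i2_iff.1 hw; omega

theorem ord6 {w x : G} (hw : I2 w) (hx : orderOf x = 3) (c : Commute w x) : orderOf (w * x) = 6 := by
  rw [c.orderOf_mul_eq_mul_orderOf_of_coprime (by rw [i2_iff.1 hw, hx]; decide), i2_iff.1 hw, hx]

theorem eqA {w x : G} (hw : I2 w) (hx : orderOf x = 3) (c : Commute w x) : C1 (w * x) = C1 w ⊓ C1 x := by
  ext g
  simp only [mem_inf, mem_c1]
  refine ⟨fun e => ?_, fun e => e.1.mul_left e.2⟩
  have e1 : (w * x) ^ 3 = w := by rw [c.mul_pow, cube3 hx, pow_three, hw.1]; simp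
  have e2 : (w * x) ^ 4 = x := by
    rw [c.mul_pow, pow_succ x, cube3 hx, show w ^ 4 = (w * w) * (w * w) by simp only [pow_succ, pow_zero, one_mul, mul_assoc], hw.1]; simp
  exact ⟨e1 ▸ e.pow_left 3, e2 ▸ e.pow_left 4⟩

theorem cardA {w x : G} (hw : I2 w) (hx : orderOf x = 3) (c : Commute w x) :
    Nat.card (C1 w ⊓ C1 x : Subgroup G) = 12 := by
  rw [← h.eqA hw hx c]
  have := h.cs (w * x); have := h.ord6 hw hx c; omega

theorem c36 {w x : G} (hw : I2 w) (hx : orderOf x = 3) (c : Commute w x) : Nat.card (C1 x) = 36 := by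
  have := h.cs x; have := ord_dvd_c1 c.symm; rw [i2_iff.1 hw] at this; omega

theorem commA {w x : G} (hw : I2 w) (hx : orderOf x = 3) (c : Commute w x) {a b : G}
    (ha : a ∈ C1 w ⊓ C1 x) (hb : b ∈ C1 w ⊓ C1 x) : Commute a b := by
  have h1 := h.cardA hw hx c
  rw [← h.eqA hw hx c] at h1 ha hb
  have k : ∀ {a b : G}, a ∈ zpowers (w * x) → b ∈ C1 (w * x) → Commute a b := by
    rintro _ b ⟨n, rfl⟩ hb; exact (mem_c1.1 hb).zpow_left n
  by_cases h2 : a ∈ zpowers (w * x)
  · exact k h2 hb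
  by_cases h3 : b ∈ zpowers (w * x)
  · exact (k h3 ha).symm
  have h4 := k (inv_mul_mem_of_two (B := zpowers (w * x)) (U := C1 (w * x))
    (zpowers_le.2 (mem_c1.2 (Commute.refl _))) (by rw [Nat.card_zpowers, h.ord6 hw hx c, h1]) ha hb h2 h3) ha
  simpa using (Commute.refl a).mul_left h4 |>.symm

theorem icomm {w w' x : G} (hw : I2 w) (hw' : I2 w') (hx : orderOf x = 3) (c : Commute w x)
    (c' : Commute w' x) : Commute w w' := by
  have h1 := h.cardA hw hx c
  have h2 := h.cardA hw' hx c'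
  have h3 := h.c36 hw hx c
  have h4 := card_mul_relIndex (A := C1 w ⊓ C1 x) (U := C1 x) inf_le_right
  have h5 := card_mul_relIndex (A := C1 w' ⊓ C1 x) (U := C1 x) inf_le_right
  have h6 := card_mul_relIndex (A := (C1 w ⊓ C1 x) ⊓ (C1 w' ⊓ C1 x)) (U := C1 x) (inf_le_left.trans inf_le_right)
  have h7 := relIndex_inf_le (H := C1 w ⊓ C1 x) (K := C1 w' ⊓ C1 x) (L := C1 x)
  have h8 : Nat.card ((C1 w ⊓ C1 x) ⊓ (C1 w' ⊓ C1 x) : Subgroup G) ∣ 12 :=
    h1 ▸ card_dvd_of_le inf_le_left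
  rw [h1, h3] at h4
  rw [h2, h3] at h5
  rw [show (C1 w ⊓ C1 x).relIndex (C1 x) = 3 by omega, show (C1 w' ⊓ C1 x).relIndex (C1 x) = 3 by omega] at h7
  rw [h3] at h6
  obtain ⟨u, hu, h9⟩ := exists_ord (U := (C1 w ⊓ C1 x) ⊓ (C1 w' ⊓ C1 x)) Nat.prime_two (by
    generalize Nat.card ((C1 w ⊓ C1 x) ⊓ (C1 w' ⊓ C1 x) : Subgroup G) = n at h6 h8
    have := Nat.le_of_dvd (by norm_num) h8
    interval_cases n <;> omega)
  have cu : Commute u x := (mem_c1.1 hu.1.2).symm
  exact h.commA (i2_iff.2 h9) hx cu ⟨mem_c1.2 (mem_c1.1 hu.1.1).symm, mem_c1.2 c.symm⟩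
    ⟨mem_c1.2 (mem_c1.1 hu.2.1).symm, mem_c1.2 c'.symm⟩

theorem two {w x : G} (hw : I2 w) (hx : orderOf x = 3) (c : Commute w x) {a b : G} (ha : Commute w a)
    (hb : Commute w b) (h1 : ¬ Commute x a) (h2 : ¬ Commute x b) : Commute x (a⁻¹ * b) :=
  mem_c1.1 (inv_mul_mem_of_two (B := C1 w ⊓ C1 x) (U := C1 w) inf_le_left
    (by rw [h.cardA hw hx c, h.c2 hw]) (mem_c1.2 ha) (mem_c1.2 hb) (fun e => h1 (mem_c1.1 e.2))
    fun e => h2 (mem_c1.1 e.2)).2

theorem comm3 {w x y : G} (hw : I2 w) (hx : orderOf x = 3) (c : Commute w x) (hy : orderOf y = 3)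
    (c' : Commute w y) : Commute x y := by
  by_contra e
  have := h.two hw hx c c'.inv_right c' (fun e' => e (by simpa using e')) e
  rw [inv_inv, sq3 hy] at this
  exact e (by simpa using this)

section P
variable {P : Subgroup G} (hP : Nat.card P = 9)
include hP

omit h in
theorem pcomm {a b : G} (ha : a ∈ P) (hb : b ∈ P) : Commute a b := by
  have : Fact (Nat.Prime 3) := ⟨Nat.prime_three⟩
  have := IsPGroup.isMulCommutative_of_card_eq_prime_sq (p := 3) (G := P) (by rw [hP]; norm_num)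
  exact congrArg Subtype.val (this.is_comm.comm ⟨a, ha⟩ ⟨b, hb⟩)

theorem pord {a : G} (ha : a ∈ P) (h1 : a ≠ 1) : orderOf a = 3 := by
  have h2 := Subgroup.orderOf_dvd_natCard _ ha
  have := h.cs a
  have h3 : orderOf a ≠ 1 := by simpa using h1
  rw [hP] at h2
  generalize orderOf a = n at *
  have := Nat.le_of_dvd (by norm_num) h2
  interval_cases n <;> omega

theorem fixfree {w u : G} (hw : I2 w) (hn : w ∈ Nm P) (hu : u ∈ P) (c : Commute w u) : u = 1 := by
  by_contra h1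
  have h2 := h.pord hP hu h1
  have h3 : P ≤ C1 w := fun y hy => by
    have c1 : Commute (y * w * y⁻¹) u := by
      have := (commute_conj (g := y)).2 c
      rwa [(pcomm hP hy hu).eq, mul_inv_cancel_right] at this
    have c2 := h.icomm hw (hw.conj y) h2 c c1
    have a1 : w * (y * w * y⁻¹) ∈ P := by
      have := P.mul_mem (Nm_conj hn hy) (P.inv_mem hy)
      rwa [hw.inv, mul_assoc, mul_assoc, ← mul_assoc y] at this
    have a2 : w * (y * w * y⁻¹) = 1 := by
      by_contra a2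
      have a3 := h.pord hP a1 a2
      have a4 : (w * (y * w * y⁻¹)) ^ 2 = 1 := by rw [c2.mul_pow, sq, sq, hw.1, (hw.conj y).1, one_mul]
      have := orderOf_dvd_of_pow_eq_one a4
      rw [a3] at this
      omega
    rw [mem_c1]
    have a3 := eq_inv_of_mul_eq_one_right a2
    rw [hw.inv] at a3
    exact (mul_inv_eq_iff_eq_mul.1 a3).symm
  have := card_dvd_of_le h3
  rw [hP, h.c2 hw] at this
  omega

theorem invP {w u : G} (hw : I2 w) (hn : w ∈ Nm P) (hu : u ∈ P) : w * u * w⁻¹ = u⁻¹ := by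
  have h1 := Nm_conj hn hu
  have := h.fixfree hP hw hn (P.mul_mem hu h1) (by
    show _ = _
    calc w * (u * (w * u * w⁻¹)) = (w * u * w⁻¹) * (w * w) * u * w⁻¹ := by group
      _ = u * (w * u * w⁻¹) * w := by rw [hw.1, mul_one, ← (pcomm hP hu h1).eq, hw.inv])
  exact eq_inv_of_mul_eq_one_right this

theorem nd57 {p : ℕ} (hp : p = 5 ∨ p = 7) : ¬ p ∣ Nat.card (Nm P) := by
  classical
  intro hd
  have := Fintype.ofFinite G
  have pp : p.Prime := by rcases hp with rfl | rfl <;> norm_num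
  obtain ⟨g, hg, h1⟩ := exists_ord pp hd
  have h2 := Frob.dvd_card_of_free_conj (zpowers g) ((Finset.univ.filter fun y => y ∈ P).erase 1)
    (fun a ha s hs => by
      simp only [Finset.mem_erase, Finset.mem_filter, Finset.mem_univ, true_and] at hs ⊢
      exact ⟨by simpa using hs.1, Nm_conj (zpowers_le.2 hg ha) hs.2⟩)
    (fun a ha s hs e => by
      simp only [Finset.mem_erase, Finset.mem_filter, Finset.mem_univ, true_and] at hs
      have h3 := h.pord hP hs.2 hs.1
      have h4 := ord_dvd_c1 (x := a) (y := s) (mul_inv_eq_iff_eq_mul.1 e)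
      have h5 := Subgroup.orderOf_dvd_natCard _ ha
      rw [Nat.card_zpowers, h1] at h5
      rcases (Nat.dvd_prime pp).1 h5 with h6 | h6
      · simpa using h6
      · have := h.cs a; rw [h3] at h4; omega)
  rw [Nat.card_zpowers, h1, Finset.card_erase_of_mem (by simp), Frob.card_sub, hP] at h2
  rcases hp with rfl | rfl <;> omega

end P

theorem exists_s [IsSimpleGroup G] (hG : Nat.card G = 2520) (P : Sylow 3 G) (hP : Nat.card P = 9) :
    ∃ s ∈ Nm (P : Subgroup G), orderOf s = 4 := by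
  have : Fact (Nat.Prime 3) := ⟨Nat.prime_three⟩
  have : Fact (Nat.Prime 2) := ⟨Nat.prime_two⟩
  have nc : ¬ IsMulCommutative G := fun e => by
    obtain ⟨t, -, ht⟩ := exists_ord (U := (⊤ : Subgroup G)) Nat.prime_two (by rw [card_top, hG]; norm_num)
    have h1 := h.c2 (i2_iff.2 ht)
    rw [show C1 t = ⊤ from eq_top_iff.2 fun g _ => mem_c1.2 (e.is_comm.comm _ _), card_top, hG] at h1
    omega
  have h1 := sylow_index (T := (P : Subgroup G)) (p := 3) (a := 2) (by rw [hP]; norm_num) (by rw [hG]; norm_num)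
  have h2 := card_mul_relIndex (A := (P : Subgroup G)) (U := Nm (P : Subgroup G)) le_normalizer
  have h3 := (Nm (P : Subgroup G)).card_mul_index
  have h4 := h.nd57 hP (Or.inl rfl)
  have h5 := h.nd57 hP (Or.inr rfl)
  have h6 : (P : Subgroup G).relIndex (Nm (P : Subgroup G)) ≠ 1 := fun e =>
    transfer nc P (fun e' => by rw [e'] at hP; simp at hP) fun g hg => mem_Ce.2 fun y hy =>
      pcomm hP (relIndex_eq_one.1 e hg) hy
  have h7 : 2 ^ 2 ∣ Nat.card (Nm (P : Subgroup G)) := by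
    rw [← h2, hP] at h3 h4 h5 ⊢
    rw [hG] at h3
    generalize (P : Subgroup G).relIndex (Nm (P : Subgroup G)) = m at *
    generalize (Nm (P : Subgroup G)).index = n at *
    have a1 : m ∣ 8 * (5 * 7) := ⟨n, by linarith⟩
    have a2 : m ∣ 8 := Nat.Coprime.dvd_of_dvd_mul_right (Nat.Coprime.mul_right
      ((Nat.prime_five.coprime_iff_not_dvd.2 fun e => h4 (e.mul_left 9)).symm)
      ((Nat.Prime.coprime_iff_not_dvd (by norm_num)).2 fun e => h5 (e.mul_left 9)).symm) a1
    have := Nat.le_of_dvd (by norm_num) a2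
    unfold Nat.ModEq at h1
    interval_cases m <;> omega
  obtain ⟨S, hS⟩ := Sylow.exists_subgroup_card_pow_prime 2 h7
  by_contra hn
  push Not at hn
  have k : ∀ a : S, a ≠ 1 → I2 (a.1.1) := fun a ha => by
    have b1 := orderOf_dvd_natCard a
    have b2 := hn a.1.1 a.1.2
    have b3 : orderOf a ≠ 1 := by simpa using ha
    rw [orderOf_coe, orderOf_coe] at b2
    rw [i2_iff, orderOf_coe, orderOf_coe]
    rw [hS] at b1
    generalize orderOf a = n at *
    have := Nat.le_of_dvd (by norm_num) b1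
    interval_cases n <;> omega
  have := Fintype.ofFinite S
  obtain ⟨a, b, c, ab, ac, bc⟩ := Fintype.two_lt_card_iff.1 (show 2 < Fintype.card S by
    rw [← Nat.card_eq_fintype_card, hS]; norm_num)
  obtain ⟨x, hx, x3⟩ := exists_ord (U := (P : Subgroup G)) Nat.prime_three (by rw [hP]; norm_num)
  have i1 := h.invP hP (k (a⁻¹ * b) (by rwa [ne_eq, inv_mul_eq_one])) (a⁻¹ * b).1.2 hx
  have i2 := h.invP hP (k (b⁻¹ * c) (by rwa [ne_eq, inv_mul_eq_one])) (b⁻¹ * c).1.2 hx
  have i3 := h.invP hP (k (a⁻¹ * c) (by rwa [ne_eq, inv_mul_eq_one])) (a⁻¹ * c).1.2 hx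
  have e : (a⁻¹ * c).1.1 = (a⁻¹ * b).1.1 * (b⁻¹ * c).1.1 := by simp
  generalize (a⁻¹ * b).1.1 = p at *
  generalize (b⁻¹ * c).1.1 = q at *
  rw [e] at i3
  apply ne_inv3 x3
  calc x = (p * x * p⁻¹)⁻¹ := by rw [i1, inv_inv]
    _ = p * (q * x * q⁻¹) * p⁻¹ := by rw [i2]; group
    _ = x⁻¹ := by rw [← i3]; group

theorem main [IsSimpleGroup G] (hG : Nat.card G = 2520) : Nonempty (G ≃* alternatingGroup (Fin 7)) := by
  have : Fact (Nat.Prime 3) := ⟨Nat.prime_three⟩
  obtain ⟨t, -, ht⟩ := exists_ord (U := (⊤ : Subgroup G)) Nat.prime_two (by rw [card_top, hG]; norm_num)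
  have ht := i2_iff.2 ht
  obtain ⟨x, hx, x3⟩ := exists_ord (U := C1 t) Nat.prime_three (by rw [h.c2 ht]; norm_num)
  have h36 := h.c36 ht x3 (mem_c1.1 hx)
  obtain ⟨P, hxP⟩ := (IsPGroup.of_card (p := 3) (n := 1) (G := zpowers x)
    (by rw [Nat.card_zpowers, x3]; rfl)).exists_le_sylow
  have hxP : x ∈ (P : Subgroup G) := hxP (mem_zpowers x)
  have hP : Nat.card P = 9 := by
    rw [P.card_eq_multiplicity, hG, show 2520 = 3 ^ 2 * 280 by norm_num,
      Nat.factorization_mul (by norm_num) (by norm_num), Nat.prime_three.factorization_pow]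
    simp [Nat.factorization_eq_zero_of_not_dvd (show ¬ 3 ∣ 280 by norm_num)]
  obtain ⟨s, hs, s4⟩ := h.exists_s hG P hP
  have hτ : I2 (s ^ 2) := i2_iff.2 (by rw [orderOf_pow, s4]; rfl)
  have hτN : s ^ 2 ∈ Nm (P : Subgroup G) := pow_mem hs 2
  have iv := h.invP hP hτ hτN hxP
  have nx : ¬ Commute (s ^ 2) x := fun e => ne_inv3 x3 (by rw [← iv, e.eq, mul_inv_cancel_right])
  obtain ⟨v, hv, v2, cv⟩ := exists_i2_fix (U := C1 x) (by rw [h36]; norm_num) hτ.1 (mem_Nm fun g hg => by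
    rw [mem_c1] at hg ⊢
    have := (commute_conj (g := s ^ 2)).2 hg
    rw [iv] at this
    simpa using this)
  have vx : Commute v x := (mem_c1.1 hv).symm
  have hy := Nm_conj hs hxP
  have xy := pcomm hP hxP hy
  refine a7_of hG (x := x) (s := s) (v := v) (fun e => by simp [e] at x3) (cube3 x3)
    (s4 ▸ pow_orderOf_eq_one s) (by rw [sq, v2.1]) xy (by rw [hτ.inv] at iv; rw [iv]; simp) vx cv.symm ?_ ?_
  · have cg : Commute x (v * (s * x * s⁻¹)) := vx.symm.mul_right xy
    have nd : ¬ 2 ∣ orderOf (v * (s * x * s⁻¹)) := fun e => by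
      obtain ⟨k, hk⟩ := exists_i2_pow e
      have c1 := (cg.pow_right k).symm
      have c2 := h.commA hk x3 c1 ⟨mem_c1.2 (h.icomm hk v2 x3 c1 vx), hv⟩
        ⟨mem_c1.2 ((Commute.refl _).pow_left k), mem_c1.2 cg⟩
      have c3 : Commute v (s * x * s⁻¹) := by simpa using (Commute.refl v).inv_right.mul_right c2
      have d1 : Nat.card ((P : Subgroup G) ⊓ C1 v : Subgroup G) ∣ 9 := hP ▸ card_dvd_of_le inf_le_left
      have d2 : Nat.card ((P : Subgroup G) ⊓ C1 v : Subgroup G) ∣ 24 := h.c2 v2 ▸ card_dvd_of_le inf_le_right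
      have d3 := eq_of_card_le (U := zpowers x) (V := (P : Subgroup G) ⊓ C1 v)
        (zpowers_le.2 ⟨hxP, mem_c1.2 vx⟩) (by
          rw [Nat.card_zpowers, x3]; exact Nat.le_of_dvd (by norm_num) (Nat.dvd_gcd d1 d2))
      rcases zp3 x3 (d3.ge ⟨hy, mem_c1.2 c3⟩) with e1 | e1 | e1
      · simp only [conj_eq_one_iff] at e1; simp [e1] at x3
      · exact nx (Commute.pow_left (mul_inv_eq_iff_eq_mul.1 e1) 2)
      · apply nx
        show _ = _
        calc s ^ 2 * x = s * (s * x * s⁻¹) * s := by rw [sq]; group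
          _ = (s * x * s⁻¹)⁻¹ * s ^ 2 := by nth_rewrite 1 [e1]; rw [sq]; group
          _ = _ := by rw [e1, inv_inv]
    have d := ord_dvd_c1 cg
    have := h.cs (v * (s * x * s⁻¹))
    rw [h36] at d
    apply orderOf_dvd_iff_pow_eq_one.1
    generalize orderOf (v * (s * x * s⁻¹)) = n at *
    have : n ≤ 7 := by omega
    interval_cases n <;> omega
  · obtain ⟨z, hz, z3⟩ := exists_ord (U := C1 (s ^ 2)) Nat.prime_three (by rw [h.c2 hτ]; norm_num)
    have cz := mem_c1.1 hz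
    have n4 : ∀ g : G, Commute z g → orderOf g ≠ 4 := fun g c e => by
      have := ord_dvd_c1 c.symm; rw [z3] at this; have := h.cs g; omega
    have c1 := h.two hτ z3 cz cv ((Commute.refl s).pow_left 2) (fun e => nx (h.commA v2 z3 e.symm
      ⟨mem_c1.2 cv.symm, mem_c1.2 cz.symm⟩ ⟨mem_c1.2 vx, mem_c1.2 (h.comm3 v2 z3 e.symm x3 vx)⟩))
      fun e => n4 s e s4
    rw [v2.inv] at c1
    have d := ord_dvd_c1 c1
    have := h.cs (v * s)
    have := n4 _ c1
    rw [h.c36 hτ z3 cz] at d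
    apply orderOf_dvd_iff_pow_eq_one.1
    generalize orderOf (v * s) = n at *
    have : n ≤ 7 := by omega
    interval_cases n <;> omega

end H7

theorem o2520' [IsSimpleGroup G] (h : Nat.card G = 2520)
    (hp : ∀ x : G, (orderOf x, Nat.card (Subgroup.centralizer ({x} : Set G))) ∈
      [(1, 2520), (2, 24), (3, 36), (3, 9), (4, 4), (5, 5), (6, 12), (7, 7)]) :
    Nonempty (G ≃* alternatingGroup (Fin 7)) := H7.main hp h

theorem o2520 [IsSimpleGroup G] (h : Nat.card G = 2520)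
    (hp : ∀ x : G, (orderOf x, Nat.card (Subgroup.centralizer ({x} : Set G))) ∈
      [(1, 2520), (2, 24), (3, 36), (3, 9), (4, 4), (5, 5), (6, 12), (7, 7)])
    (_hc : ∀ x y : G, orderOf x = orderOf y → orderOf x ≠ 7 →
      Nat.card (Subgroup.centralizer ({x} : Set G)) = Nat.card (Subgroup.centralizer ({y} : Set G)) →
      IsConj x y) :
    Nonempty (G ≃* alternatingGroup (Fin 7)) := H7.main hp h

end Cfsg.Agent.KC
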