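import Cfsg.Agent.KC.M11A

set_option autoImplicit false

/-! A simple group of order `7920` with the local data of `M11` is `M11`. -/

namespace Cfsg.Agent.KC.M11E

open Subgroup

variable {G : Type*} [Group G]

/-- The multiplication of normal forms. -/
def mu (a b : ZMod 8 × Bool) : ZMod 8 × Bool :=
  (a.1 + (if a.2 then b.1 + b.1 + b.1 else b.1), xor a.2 b.2)

section
variable {x y r s : G} (h : Rl x y r s)
include h

theorem Rl.sinv : s⁻¹ = s := inv_eq_of_mul_eq_one_right h.s2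

theorem Rl.s_pow (n : ℕ) : s * r ^ n = r ^ n * r ^ n * r ^ n * s := by
  have h1 : s * r ^ n * s⁻¹ = (r ^ 3) ^ n := by rw [← conj_pow, h.sinv, h.srs]
  rw [mul_inv_eq_iff_eq_mul.1 h1, ← pow_mul, ← pow_add, ← pow_add]
  congr 2; ring

theorem Rl.nf_mul (a b : ZMod 8 × Bool) : nf r s (mu a b) = nf r s a * nf r s b := by
  obtain ⟨i, a⟩ := a
  obtain ⟨j, b⟩ := b
  cases a <;> cases b <;> simp only [nf, mu, pow_val_add h.r8, Bool.false_eq_true, if_true, if_false,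
    Bool.xor_false, Bool.xor_true, Bool.not_true, Bool.not_false, mul_one]
  · rw [mul_assoc]
  · rw [mul_assoc _ s, h.s_pow]; simp only [mul_assoc]
  · rw [mul_assoc _ s, ← mul_assoc s, h.s_pow]; simp only [mul_assoc, h.s2, mul_one]

theorem Rl.rx2 : r ^ 2 * x * (r ^ 2)⁻¹ = y⁻¹ := by
  have h1 : r ^ 2 * x * (r ^ 2)⁻¹ = r * (r * x * r⁻¹) * r⁻¹ := by rw [sq]; group
  have h2 : r * (x * y) * r⁻¹ = (r * x * r⁻¹) * (r * y * r⁻¹) := by group
  have h3 : Commute x y := h.xy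
  rw [h1, h.rx, h2, h.rx, h.ry, h.xy, mul_assoc, mul_inv_cancel_left]
  exact eq_inv_of_mul_eq_one_left (by rw [← h.y3]; simp only [pow_succ, pow_zero, one_mul])

theorem Rl.ry2 : r ^ 2 * y * (r ^ 2)⁻¹ = x := by
  have h1 : r ^ 2 * y * (r ^ 2)⁻¹ = r * (r * y * r⁻¹) * r⁻¹ := by rw [sq]; group
  have h2 : r * (x⁻¹ * y) * r⁻¹ = (r * x * r⁻¹)⁻¹ * (r * y * r⁻¹) := by group
  have h3 : Commute x y := h.xy
  rw [h1, h.ry, h2, h.rx, h.ry, ← h3.inv_left.eq.symm, h.xy, mul_inv_rev, mul_assoc,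
    inv_mul_cancel_left, ← mul_inv_rev]
  exact inv_eq_of_mul_eq_one_right (by rw [← h.x3]; simp only [pow_succ, pow_zero, one_mul])

theorem Rl.zx : r ^ 4 * x * (r ^ 4)⁻¹ = x⁻¹ := by
  have h1 : r ^ 4 * x * (r ^ 4)⁻¹ = r ^ 2 * (r ^ 2 * x * (r ^ 2)⁻¹) * (r ^ 2)⁻¹ := by group
  have h2 : r ^ 2 * y⁻¹ * (r ^ 2)⁻¹ = (r ^ 2 * y * (r ^ 2)⁻¹)⁻¹ := by group
  rw [h1, h.rx2, h2, h.ry2]

theorem Rl.zy : r ^ 4 * y * (r ^ 4)⁻¹ = y⁻¹ := by
  have h1 : r ^ 4 * y * (r ^ 4)⁻¹ = r ^ 2 * (r ^ 2 * y * (r ^ 2)⁻¹) * (r ^ 2)⁻¹ := by group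
  rw [h1, h.ry2, h.rx2]

theorem Rl.zz : r ^ 4 * r ^ 4 = 1 := by rw [← h.r8]; group

theorem Rl.zinv : (r ^ 4)⁻¹ = r ^ 4 := inv_eq_of_mul_eq_one_right h.zz

theorem Rl.sz : s * r ^ 4 = r ^ 4 * s := by rw [h.s_pow, h.zz, one_mul]

theorem Rl.inv : Rl x⁻¹ y⁻¹ r s := by
  have h3 : Commute x y := h.xy
  refine ⟨by rw [inv_pow, h.x3, inv_one], by rw [inv_pow, h.y3, inv_one], h3.inv_inv.eq, h.r8, h.s2,
    h.srs, ?_, ?_, ?_, ?_⟩
  · have := congrArg (·⁻¹) h.sx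
    simpa only [mul_inv_rev, h.sinv, mul_assoc] using this
  · have := congrArg (·⁻¹) h.sy
    simpa only [mul_inv_rev, h.sinv, mul_assoc] using this
  · rw [h3.inv_inv.eq, ← mul_inv_rev, ← h.rx]; group
  · rw [h3.inv_left.inv_left.inv_right.eq, ← mul_inv_rev, ← h.ry]; group

theorem Rg.inv {g : G} {k l : ℕ} (hg : Rg x r s g k) (hl : k + l = 8) : Rg x⁻¹ r s g l := by
  refine ⟨hg.g2, hg.gz, hg.gd, ?_⟩
  have gi : g⁻¹ = g := inv_eq_of_mul_eq_one_right hg.g2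
  have hs : s = g * r ^ 4 * g⁻¹ := by rw [gi, hg.gz]
  have h0 : g * x * g⁻¹ * r ^ 2 * (g * x * g⁻¹)⁻¹ = r ^ k * s := by
    rw [← hg.gx]; simp only [mul_inv_rev, gi, mul_assoc]
  have h1 : s * (g * x * g⁻¹) * s⁻¹ = (g * x * g⁻¹)⁻¹ := by
    calc s * (g * x * g⁻¹) * s⁻¹ = g * (r ^ 4 * x * (r ^ 4)⁻¹) * g⁻¹ := by rw [hs]; group
      _ = _ := by rw [h.zx]; group
  have h3 : s * r ^ 2 * s⁻¹ = (r ^ 2)⁻¹ := by
    rw [h.s_pow, mul_inv_cancel_right]
    exact eq_inv_of_mul_eq_one_left (by rw [← h.r8]; group)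
  have h4 : (r ^ k)⁻¹ = r ^ l := inv_eq_of_mul_eq_one_right (by rw [← pow_add, hl, h.r8])
  have h5 : g * x⁻¹ * g * r ^ 2 * (g * x⁻¹⁻¹ * g) =
      (g * x * g⁻¹)⁻¹ * r ^ 2 * (g * x * g⁻¹) := by simp only [mul_inv_rev, gi, mul_assoc, inv_inv]
  rw [h5]
  generalize g * x * g⁻¹ = u at h0 h1
  calc u⁻¹ * r ^ 2 * u = (u⁻¹ * (r ^ 2)⁻¹ * u⁻¹⁻¹)⁻¹ := by group
    _ = ((s * u * s⁻¹) * (s * r ^ 2 * s⁻¹) * (s * u * s⁻¹)⁻¹)⁻¹ := by rw [h1, h3]
    _ = (s * (u * r ^ 2 * u⁻¹) * s⁻¹)⁻¹ := by group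
    _ = (r ^ k)⁻¹ * s⁻¹ := by rw [h0]; group
    _ = _ := by rw [h4, h.sinv]

end

theorem nf_r (r s : G) (i : ZMod 8) : nf r s (i, false) = r ^ i.val := by simp [nf]
theorem nf_rs (r s : G) (i : ZMod 8) : nf r s (i, true) = r ^ i.val * s := by simp [nf]
theorem nf_one (r s : G) : nf r s (0, false) = 1 := by simp [nf]
theorem nf_s (r s : G) : nf r s (0, true) = s := by simp [nf]
theorem nf_z (r s : G) : nf r s (4, false) = r ^ 4 := nf_r r s 4
theorem nf_zs (r s : G) : nf r s (4, true) = r ^ 4 * s := nf_rs r s 4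

theorem sylow_conj [Finite G] {C S T : Subgroup G} (hS : S ≤ C) (hT : T ≤ C)
    (hC : Nat.card C = 48) (hc : Nat.card S = 16) (h2 : IsPGroup 2 T) :
    ∃ c ∈ C, ∀ t ∈ T, c * t * c⁻¹ ∈ S := by
  have h1 : Nat.card (S.subgroupOf C) = 2 ^ 4 := by
    rw [Nat.card_congr (Subgroup.subgroupOfEquivOfLe hS).toEquiv, hc]; rfl
  have h3 : (S.subgroupOf C).index = 3 := by
    have := (S.subgroupOf C).index_mul_card
    rw [h1, hC] at this; omega
  let Q : Sylow 2 C := (IsPGroup.of_card h1).toSylow (by rw [h3]; norm_num)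
  obtain ⟨R, hR⟩ := (h2.of_equiv (Subgroup.subgroupOfEquivOfLe hT).symm).exists_le_sylow
  obtain ⟨c, e⟩ := MulAction.exists_smul_eq C R Q
  refine ⟨c, c.2, fun t ht => ?_⟩
  have h4 : (⟨t, hT ht⟩ : C) ∈ (R : Subgroup C) := hR ht
  have h5 : c * ⟨t, hT ht⟩ * c⁻¹ ∈ ((c • R : Sylow 2 C) : Subgroup C) := by
    rw [Sylow.coe_subgroup_smul]
    exact Subgroup.smul_mem_pointwise_smul _ (MulAut.conj c) _ h4
  rw [e] at h5
  exact h5

namespace Cf

variable {P S : Subgroup G} {x y r s : G} (h : Cf P S x y r s)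
include h

theorem nf_mem (a : ZMod 8 × Bool) : nf r s a ∈ S := by
  unfold nf
  split_ifs
  · exact S.mul_mem (S.pow_mem h.rS _) h.sS
  · exact S.mul_mem (S.pow_mem h.rS _) S.one_mem

theorem nf_inj [Finite G] : Function.Injective (nf r s) := by
  let f : ZMod 8 × Bool → S := fun a => ⟨nf r s a, h.nf_mem a⟩
  have hf : Function.Surjective f := fun a => by
    obtain ⟨u, hu⟩ := h.genS a a.2
    exact ⟨u, Subtype.ext hu⟩
  have := (Nat.bijective_iff_surjective_and_card f).2 ⟨hf, by rw [h.cardS]; simp⟩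
  exact fun a b e => this.1 (Subtype.ext e)

theorem ne [Finite G] {a b : ZMod 8 × Bool} (e : a ≠ b) : nf r s a ≠ nf r s b :=
  fun e' => e (h.nf_inj e')

theorem z1 [Finite G] : r ^ 4 ≠ 1 := by
  rw [← nf_z r s, ← nf_one r s]; exact h.ne (by decide)

theorem s1 [Finite G] : s ≠ 1 := by
  have := h.ne (a := (0, true)) (b := (0, false)) (by decide)
  rwa [nf_s, nf_one] at this

theorem zs [Finite G] : r ^ 4 ≠ s := by
  have := h.ne (a := (4, false)) (b := (0, true)) (by decide)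
  rwa [nf_s, nf_z] at this

theorem le_cz : S ≤ centralizer {r ^ 4} := fun a ha => by
  obtain ⟨u, rfl⟩ := h.genS a ha
  rw [mem_centralizer_singleton_iff, ← nf_z r s, ← h.rl.nf_mul, ← h.rl.nf_mul]
  have : ∀ u : ZMod 8 × Bool, mu u (4, false) = mu (4, false) u := by decide
  rw [this]

theorem cent_s [Finite G] {t : G} (ht : t ∈ S) (e : t * s = s * t) :
    t = 1 ∨ t = r ^ 4 ∨ t = s ∨ t = r ^ 4 * s := by
  obtain ⟨u, rfl⟩ := h.genS t ht
  have h1 : mu u (0, true) = mu (0, true) u :=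
    h.nf_inj (by rw [h.rl.nf_mul, h.rl.nf_mul, nf_s]; exact e)
  have h2 : ∀ u : ZMod 8 × Bool, mu u (0, true) = mu (0, true) u →
    u = (0, false) ∨ u = (4, false) ∨ u = (0, true) ∨ u = (4, true) := by decide
  rcases h2 u h1 with rfl | rfl | rfl | rfl
  · exact Or.inl (nf_one r s)
  · exact Or.inr (Or.inl (nf_z r s))
  · exact Or.inr (Or.inr (Or.inl (nf_s r s)))
  · exact Or.inr (Or.inr (Or.inr (nf_zs r s)))

theorem inv_conj [Finite G] {t : G} (ht : t ∈ S) (e : t * t = 1) (h1 : t ≠ 1) (hz : t ≠ r ^ 4) :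
    ∃ b ∈ S, b * t * b⁻¹ = s := by
  obtain ⟨u, rfl⟩ := h.genS t ht
  have h2 : ∀ u : ZMod 8 × Bool, mu u u = (0, false) → u = (0, false) ∨ u = (4, false) ∨
    ∃ b, mu b u = mu (0, true) b := by decide
  rcases h2 u (h.nf_inj (by rw [h.rl.nf_mul, nf_one]; exact e)) with rfl | rfl | ⟨b, hb⟩
  · exact absurd (nf_one r s) h1
  · exact absurd (nf_z r s) hz
  · refine ⟨nf r s b, h.nf_mem b, ?_⟩
    rw [← h.rl.nf_mul, hb, h.rl.nf_mul, nf_s, mul_inv_cancel_right]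

theorem sq_eq [Finite G] {t : G} (ht : t ∈ S) (e : t * t = r ^ 4) :
    t = r ^ 2 ∨ t = r ^ 6 ∨ t = r ^ 1 * s ∨ t = r ^ 3 * s ∨ t = r ^ 5 * s ∨ t = r ^ 7 * s := by
  obtain ⟨u, rfl⟩ := h.genS t ht
  have h2 : ∀ u : ZMod 8 × Bool, mu u u = (4, false) → u = (2, false) ∨ u = (6, false) ∨
    u = (1, true) ∨ u = (3, true) ∨ u = (5, true) ∨ u = (7, true) := by decide
  rcases h2 u (h.nf_inj (by rw [h.rl.nf_mul, nf_z]; exact e)) with
    rfl | rfl | rfl | rfl | rfl | rfl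
  · exact Or.inl (nf_r r s 2)
  · exact Or.inr (Or.inl (nf_r r s 6))
  · exact Or.inr (Or.inr (Or.inl (nf_rs r s 1)))
  · exact Or.inr (Or.inr (Or.inr (Or.inl (nf_rs r s 3))))
  · exact Or.inr (Or.inr (Or.inr (Or.inr (Or.inl (nf_rs r s 5)))))
  · exact Or.inr (Or.inr (Or.inr (Or.inr (Or.inr (nf_rs r s 7)))))

theorem card_cz [Finite G] (H : Hy G) : Nat.card (centralizer ({r ^ 4} : Set G)) = 48 :=
  H.c2 _ (ord2 h.rl.zz h.z1)

theorem inv_conj' [Finite G] (H : Hy G) {T : Subgroup G} (hT : T ≤ centralizer {r ^ 4})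
    (h2 : IsPGroup 2 T) {t : G} (ht : t ∈ T) (e : t * t = 1) (h1 : t ≠ 1) (hz : t ≠ r ^ 4) :
    ∃ c : G, c * r ^ 4 * c⁻¹ = r ^ 4 ∧ c * t * c⁻¹ = s ∧ ∀ u ∈ T, c * u * c⁻¹ ∈ S := by
  obtain ⟨c, hc, hc'⟩ := sylow_conj h.le_cz hT (h.card_cz H) h.cardS h2
  have hcz : c * r ^ 4 * c⁻¹ = r ^ 4 :=
    mul_inv_eq_iff_eq_mul.2 (mem_centralizer_singleton_iff.1 hc)
  obtain ⟨b, hb, hb'⟩ := h.inv_conj (hc' t ht)
    (by calc c * t * c⁻¹ * (c * t * c⁻¹) = c * (t * t) * c⁻¹ := by group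
      _ = 1 := by rw [e]; group) (by simpa using h1)
    (fun e' => hz (by rw [← hcz] at e'; simpa using e'))
  have hbz : b * r ^ 4 * b⁻¹ = r ^ 4 :=
    mul_inv_eq_iff_eq_mul.2 (mem_centralizer_singleton_iff.1 (h.le_cz hb))
  refine ⟨b * c, ?_, ?_, fun u hu => ?_⟩
  · calc b * c * r ^ 4 * (b * c)⁻¹ = b * (c * r ^ 4 * c⁻¹) * b⁻¹ := by group
      _ = _ := by rw [hcz, hbz]
  · rw [← hb']; group
  · have := S.mul_mem (S.mul_mem hb (hc' u hu)) (S.inv_mem hb)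
    rwa [show b * (c * u * c⁻¹) * b⁻¹ = b * c * u * (b * c)⁻¹ by group] at this

/-- The four group is its own centraliser. -/
theorem cent_v [Finite G] (H : Hy G) {t : G} (e1 : t * r ^ 4 = r ^ 4 * t) (e2 : t * s = s * t) :
    t = 1 ∨ t = r ^ 4 ∨ t = s ∨ t = r ^ 4 * s := by
  let T : Subgroup G := centralizer {r ^ 4} ⊓ centralizer {s}
  have hd : Nat.card T ∣ 48 := h.card_cz H ▸ card_dvd_of_le inf_le_left
  have h3 : ¬ 3 ∣ Nat.card T := fun hd3 => by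
    haveI : Fact (Nat.Prime 3) := ⟨by norm_num⟩
    obtain ⟨w, hw⟩ := exists_prime_orderOf_dvd_card' 3 hd3
    have hw3 : orderOf (w : G) = 3 := (Subgroup.orderOf_coe w).trans hw
    have hz := mem_centralizer_singleton_iff.1 w.2.1
    have hs := mem_centralizer_singleton_iff.1 w.2.2
    have hle : S ⊓ centralizer {s} ≤ centralizer {(w : G)} := fun a ha => by
      rw [mem_centralizer_singleton_iff]
      rcases h.cent_s ha.1 (mem_centralizer_singleton_iff.1 ha.2) with rfl | rfl | rfl | rfl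
      · simp
      · exact hz.symm
      · exact hs.symm
      · rw [mul_assoc, ← hs, ← mul_assoc, ← hz, mul_assoc]
    have hd1 : Nat.card (S ⊓ centralizer {s} : Subgroup G) ∣ 16 :=
      h.cardS ▸ card_dvd_of_le inf_le_left
    have hd2 : Nat.card (S ⊓ centralizer {s} : Subgroup G) ∣ 18 := H.c3 _ hw3 ▸ card_dvd_of_le hle
    have hd3 : Nat.card (S ⊓ centralizer {s} : Subgroup G) ≤ 2 :=
      Nat.le_of_dvd (by norm_num) (Nat.dvd_gcd hd1 hd2)
    have : 2 < Nat.card (S ⊓ centralizer {s} : Subgroup G) := by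
      haveI := Fintype.ofFinite (S ⊓ centralizer {s} : Subgroup G)
      rw [Nat.card_eq_fintype_card]
      exact Fintype.two_lt_card_iff.2 ⟨1, ⟨r ^ 4, S.pow_mem h.rS 4,
        mem_centralizer_singleton_iff.2 h.rl.sz.symm⟩, ⟨s, h.sS, mem_centralizer_singleton_iff.2 rfl⟩,
        fun e => h.z1 (congrArg Subtype.val e).symm, fun e => h.s1 (congrArg Subtype.val e).symm,
        fun e => h.zs (congrArg Subtype.val e)⟩
    omega
  have h2 : IsPGroup 2 T := by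
    have : Nat.card T ∣ 2 ^ 4 :=
      ((Nat.Prime.coprime_iff_not_dvd (by norm_num)).2 h3).symm.dvd_of_dvd_mul_left hd
    obtain ⟨i, -, e⟩ := (Nat.dvd_prime_pow (by norm_num)).1 this
    exact IsPGroup.of_card e
  have hsT : s ∈ T :=
    ⟨mem_centralizer_singleton_iff.2 h.rl.sz, mem_centralizer_singleton_iff.2 rfl⟩
  obtain ⟨c, c1, c2, c3⟩ := h.inv_conj' H inf_le_left h2 hsT h.rl.s2 h.s1 h.zs.symm
  have hcS : c ∈ S := by
    have := c3 c ⟨mem_centralizer_singleton_iff.2 (mul_inv_eq_iff_eq_mul.1 c1),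
      mem_centralizer_singleton_iff.2 (mul_inv_eq_iff_eq_mul.1 c2)⟩
    rwa [mul_inv_cancel_right] at this
  have := S.mul_mem (S.mul_mem (S.inv_mem hcS) (c3 t ⟨mem_centralizer_singleton_iff.2 e1,
    mem_centralizer_singleton_iff.2 e2⟩)) hcS
  rw [show c⁻¹ * (c * t * c⁻¹) * c = t by group] at this
  exact h.cent_s this e2

theorem exists_swap [Finite G] (H : Hy G) :
    ∃ g : G, g * g = 1 ∧ g * r ^ 4 * g⁻¹ = s ∧ g * s * g⁻¹ = r ^ 4 := by
  obtain ⟨a, ha⟩ := isConj_iff.1 (H.j2 s (r ^ 4) (ord2 h.rl.s2 h.s1) (ord2 h.rl.zz h.z1))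
  have h1 : a * r ^ 4 * a⁻¹ * (a * r ^ 4 * a⁻¹) = 1 := by
    calc a * r ^ 4 * a⁻¹ * (a * r ^ 4 * a⁻¹) = a * (r ^ 4 * r ^ 4) * a⁻¹ := by group
      _ = 1 := by rw [h.rl.zz]; group
  have h2 : a * r ^ 4 * a⁻¹ ≠ 1 := by simpa using h.z1
  obtain ⟨c, c1, c2, -⟩ := h.inv_conj' H (T := zpowers (a * r ^ 4 * a⁻¹))
    (zpowers_le.2 (mem_centralizer_singleton_iff.2 (by
      nth_rewrite 2 3 [← ha]
      calc a * r ^ 4 * a⁻¹ * (a * s * a⁻¹) = a * (r ^ 4 * s) * a⁻¹ := by group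
        _ = _ := by rw [← h.rl.sz]; group)))
    (IsPGroup.of_card (n := 1) (by rw [Nat.card_zpowers, ord2 h1 h2]; rfl)) (mem_zpowers _) h1 h2
    (fun e => h.zs (by nth_rewrite 2 [← ha] at e; simpa using e))
  have b1 : c * a * r ^ 4 * (c * a)⁻¹ = s := by rw [← c2]; group
  have b2 : c * a * s * (c * a)⁻¹ = r ^ 4 := by rw [← c1]; nth_rewrite 1 [← ha]; group
  generalize c * a = b at b1 b2
  have hz := h.rl.zz
  have hsz := h.rl.sz
  have hzs := h.zs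
  have hzi := h.rl.zinv
  have key := h.cent_v H (t := b * b)
  generalize r ^ 4 = z at *
  have e1 : b * z = s * b := mul_inv_eq_iff_eq_mul.1 b1
  have e2 : b * s = z * b := mul_inv_eq_iff_eq_mul.1 b2
  rcases key (by rw [mul_assoc, e1, ← mul_assoc, e2, mul_assoc])
    (by rw [mul_assoc, e2, ← mul_assoc, e1, mul_assoc]) with e | e | e | e
  · exact ⟨b, e, b1, b2⟩
  · exact absurd (by rw [← b1, ← e]; group) hzs
  · exact absurd (by rw [← b2, ← e]; group) hzs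
  · refine ⟨b * z, ?_, ?_, ?_⟩
    · rw [e1]; nth_rewrite 2 [← e1]
      rw [show s * b * (b * z) = s * (b * b) * z by group, e, ← mul_assoc, hsz, mul_assoc z,
        h.rl.s2, mul_one, hz]
    · rw [← b1]; group
    · rw [mul_inv_rev, mul_assoc b z, ← hsz]; nth_rewrite 3 [← b2]; group

theorem gd [Finite G] (H : Hy G) {g : G} (g1 : g * r ^ 4 * g⁻¹ = s) (g2 : g * s * g⁻¹ = r ^ 4) :
    (g * r ^ 2 * s) ^ 3 = 1 := by
  have d1 : r ^ 2 * s * r ^ 4 * (r ^ 2 * s)⁻¹ = r ^ 4 := by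
    rw [mul_assoc _ s, h.rl.sz]; group
  have d2 : r ^ 2 * s * s * (r ^ 2 * s)⁻¹ = r ^ 4 * s := by
    rw [mul_inv_eq_iff_eq_mul, mul_assoc (r ^ 4), ← mul_assoc s, h.rl.s_pow]
    calc r ^ 2 * s * s = r ^ 8 * r ^ 2 * s * s := by rw [h.rl.r8, one_mul]
      _ = _ := by group
  have a1 : g * r ^ 2 * s * r ^ 4 * (g * r ^ 2 * s)⁻¹ = s := by
    calc g * r ^ 2 * s * r ^ 4 * (g * r ^ 2 * s)⁻¹
        = g * (r ^ 2 * s * r ^ 4 * (r ^ 2 * s)⁻¹) * g⁻¹ := by group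
      _ = s := by rw [d1, g1]
  have a2 : g * r ^ 2 * s * s * (g * r ^ 2 * s)⁻¹ = r ^ 4 * s := by
    calc g * r ^ 2 * s * s * (g * r ^ 2 * s)⁻¹
        = g * (r ^ 2 * s * s * (r ^ 2 * s)⁻¹) * g⁻¹ := by group
      _ = (g * r ^ 4 * g⁻¹) * (g * s * g⁻¹) := by rw [d2]; group
      _ = _ := by rw [g1, g2, h.rl.sz]
  have hz := h.rl.zz
  have hsz := h.rl.sz
  have hzs := h.zs
  have hz1 := h.z1
  have hs1 := h.s1
  have key := h.cent_v H (t := (g * r ^ 2 * s) ^ 3)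
  generalize g * r ^ 2 * s = u at *
  generalize r ^ 4 = z at *
  have a3 : u * (z * s) * u⁻¹ = z := by
    calc u * (z * s) * u⁻¹ = (u * z * u⁻¹) * (u * s * u⁻¹) := by group
      _ = z := by rw [a1, a2, ← mul_assoc, hsz, mul_assoc, h.rl.s2, mul_one]
  have c1 : u ^ 3 * z * (u ^ 3)⁻¹ = z := by
    calc u ^ 3 * z * (u ^ 3)⁻¹ = u * (u * (u * z * u⁻¹) * u⁻¹) * u⁻¹ := by
          simp only [pow_succ, pow_zero, one_mul, mul_inv_rev, mul_assoc]
      _ = z := by rw [a1, a2, a3]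
  have c2 : u ^ 3 * s * (u ^ 3)⁻¹ = s := by
    calc u ^ 3 * s * (u ^ 3)⁻¹ = u * (u * (u * s * u⁻¹) * u⁻¹) * u⁻¹ := by
          simp only [pow_succ, pow_zero, one_mul, mul_inv_rev, mul_assoc]
      _ = s := by rw [a2, a3, a1]
  have c3 : u * u ^ 3 * u⁻¹ = u ^ 3 := by group
  rcases key (mul_inv_eq_iff_eq_mul.1 c1) (mul_inv_eq_iff_eq_mul.1 c2) with e | e | e | e
  · exact e
  · rw [e, a1] at c3; exact absurd c3.symm hzs
  · rw [e, a2] at c3; exact absurd (mul_eq_right.1 c3) hz1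
  · rw [e, a3] at c3; exact absurd (mul_eq_left.1 c3.symm) hs1

theorem core [Finite G] (H : Hy G) {c : G} (hc : c ∈ centralizer ({r ^ 4} : Set G)) :
    c * r ^ 2 * c⁻¹ ∈ S := by
  set C := centralizer ({r ^ 4} : Set G)
  have h3 : Nat.card (C ⧸ S.subgroupOf C) = 3 := by
    have := (S.subgroupOf C).index_mul_card
    rw [Nat.card_congr (Subgroup.subgroupOfEquivOfLe h.le_cz).toEquiv, h.cardS, h.card_cz H] at this
    show (S.subgroupOf C).index = 3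
    omega
  let ρ : C := ⟨r, h.le_cz h.rS⟩
  let σ := MulAction.toPermHom C (C ⧸ S.subgroupOf C)
  have h6 : σ ρ ^ 6 = 1 := by
    have := pow_card_eq_one' (x := σ ρ)
    rwa [Nat.card_perm, h3] at this
  have h8 : σ ρ ^ 8 = 1 := by
    rw [← map_pow, show ρ ^ 8 = 1 from Subtype.ext h.rl.r8, map_one]
  have h2 : σ (ρ ^ 2) = 1 := by
    rw [map_pow, ← h8, show σ ρ ^ 8 = σ ρ ^ 2 * σ ρ ^ 6 by group, h6, mul_one]
  have h4 : ((⟨c, hc⟩⁻¹ : C) : C ⧸ S.subgroupOf C) = (ρ ^ 2 * ⟨c, hc⟩⁻¹ : C) :=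
    (Equiv.congr_fun h2 ((⟨c, hc⟩⁻¹ : C) : C ⧸ S.subgroupOf C)).symm
  rw [QuotientGroup.eq, mem_subgroupOf] at h4
  simpa [ρ, mul_assoc] using h4

theorem exists_rg [Finite G] (H : Hy G) : ∃ g : G, g ∉ normalizer (P : Set G) ∧
    (Rg x r s g 1 ∨ Rg x r s g 3 ∨ Rg x r s g 5 ∨ Rg x r s g 7) := by
  obtain ⟨g, g0, g1, g2⟩ := h.exists_swap H
  have gi : g⁻¹ = g := inv_eq_of_mul_eq_one_right g0
  have g3 := h.gd H g1 g2
  have hu : g * x * g⁻¹ * r ^ 4 = r ^ 4 * (g * x * g⁻¹) := by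
    have : s * x = x * s := by
      nth_rewrite 2 [← h.rl.sx]; rw [mul_assoc (s * x), h.rl.s2, mul_one]
    rw [← g2]
    calc g * x * g⁻¹ * (g * s * g⁻¹) = g * (x * s) * g⁻¹ := by group
      _ = _ := by rw [← this]; group
  have hu3 : (g * x * g⁻¹) ^ 3 = 1 := by rw [conj_pow, h.rl.x3]; group
  have hu1 : g * x * g⁻¹ ≠ 1 := by simpa using h.x1
  have hR : ∀ k, g * x * g⁻¹ * r ^ 2 * (g * x * g⁻¹)⁻¹ = r ^ k * s → Rg x r s g k := fun k e =>
    ⟨g0, by rw [← g1, gi], g3, by rw [← e]; simp only [mul_inv_rev, gi, mul_assoc]⟩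
  have hP : g ∈ normalizer (P : Set G) → g * x * g⁻¹ ∈ P := fun hg => (hg x).1 h.xP
  refine ⟨g, fun hg => ?_, ?_⟩
  · obtain ⟨v, hv⟩ := h.genP _ (hP hg)
    have h3 : Commute x y := h.rl.xy
    have : r ^ 4 * ee x y v * (r ^ 4)⁻¹ = (ee x y v)⁻¹ := by
      rw [ee, (h3.pow_pow _ _).eq, mul_inv_rev, ← inv_pow x, ← inv_pow y, ← h.rl.zx, ← h.rl.zy,
        conj_pow, conj_pow, ← (h3.pow_pow _ _).eq]
      group
    rw [hv, ← hu, mul_inv_cancel_right] at this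
    generalize g * x * g⁻¹ = u at *
    apply hu1
    calc u = u ^ 3 * u⁻¹ * u⁻¹ := by group
      _ = 1 := by rw [hu3]; nth_rewrite 1 [← this]; group
  · generalize g * x * g⁻¹ = u at *
    have hn : ∀ w : G, w ^ 3 = 1 → w ≠ 1 → w * r ^ 2 * w⁻¹ ≠ r ^ 2 := fun w h3 h1 e => by
      have h4 : orderOf (r ^ 2) = 4 := by
        refine orderOf_eq_prime_pow (p := 2) (n := 1) ?_ ?_
        · rw [← pow_mul]; exact h.z1
        · rw [← pow_mul]; exact h.rl.r8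
      have := (centralizer {r ^ 2}).orderOf_dvd_natCard
        (mem_centralizer_singleton_iff.2 (mul_inv_eq_iff_eq_mul.1 e))
      rw [H.c4 _ h4, ord3 h3 h1] at this
      omega
    have hsq : u * r ^ 2 * u⁻¹ * (u * r ^ 2 * u⁻¹) = r ^ 4 := by
      calc u * r ^ 2 * u⁻¹ * (u * r ^ 2 * u⁻¹) = u * r ^ 4 * u⁻¹ := by group
        _ = _ := by rw [hu]; group
    rcases h.sq_eq (h.core H (mem_centralizer_singleton_iff.2 hu)) hsq with e | e | e | e | e | e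
    · exact absurd e (hn u hu3 hu1)
    · have h6 : r ^ 6 = (r ^ 2)⁻¹ := eq_inv_of_mul_eq_one_left (by rw [← h.rl.r8]; group)
      refine absurd ?_ (hn (u * u) ?_ ?_)
      · calc u * u * r ^ 2 * (u * u)⁻¹ = u * (u * r ^ 2 * u⁻¹) * u⁻¹ := by group
          _ = u * (r ^ 2)⁻¹ * u⁻¹ := by rw [e, h6]
          _ = (u * r ^ 2 * u⁻¹)⁻¹ := by group
          _ = _ := by rw [e, h6, inv_inv]
      · rw [← sq, ← pow_mul, mul_comm, pow_mul, hu3, one_pow]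
      · intro e2
        rw [pow_succ, sq, e2, one_mul] at hu3
        exact hu1 hu3
    · exact Or.inl (hR _ e)
    · exact Or.inr (Or.inl (hR _ e))
    · exact Or.inr (Or.inr (Or.inl (hR _ e)))
    · exact Or.inr (Or.inr (Or.inr (hR _ e)))

theorem gen [Finite G] (H : Hy G) {g : G} (hg : g ∉ normalizer (P : Set G)) (K : Subgroup G)
    (hx : x ∈ K) (hy : y ∈ K) (hr : r ∈ K) (hs : s ∈ K) (hgK : g ∈ K) : K = ⊤ := by
  haveI : Fact (Nat.Prime 3) := ⟨by norm_num⟩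
  have hP : P ≤ K := fun p hp => by
    obtain ⟨v, rfl⟩ := h.genP p hp
    exact K.mul_mem (K.pow_mem hx _) (K.pow_mem hy _)
  have hS : S ≤ K := fun a ha => by
    obtain ⟨u, rfl⟩ := h.genS a ha
    unfold nf
    split_ifs
    · exact K.mul_mem (K.pow_mem hr _) hs
    · exact K.mul_mem (K.pow_mem hr _) K.one_mem
  have hN := h.p3.card_norm H
  have hNK : normalizer (P : Set G) ≤ K := by
    have d1 : 9 ∣ Nat.card (normalizer (P : Set G) ⊓ K : Subgroup G) :=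
      h.p3.card ▸ card_dvd_of_le (le_inf le_normalizer hP)
    have d2 : 16 ∣ Nat.card (normalizer (P : Set G) ⊓ K : Subgroup G) :=
      h.cardS ▸ card_dvd_of_le (le_inf h.le hS)
    have d3 := Nat.Coprime.mul_dvd_of_dvd_of_dvd (by norm_num) d1 d2
    exact inf_eq_left.1 (eq_of_le_of_card_ge inf_le_left
      (hN ▸ Nat.le_of_dvd Nat.card_pos d3))
  have h1 := Sylow.card_normalizer_modEq_card (p := 3) (n := 2) (H := P.subgroupOf K)
    (by rw [Nat.card_congr (Subgroup.subgroupOfEquivOfLe hP).toEquiv, h.p3.card]; rfl)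
  rw [← subgroupOf_normalizer_eq hP, Nat.card_congr (Subgroup.subgroupOfEquivOfLe hNK).toEquiv,
    hN] at h1
  obtain ⟨m, hm⟩ : 144 ∣ Nat.card K := hN ▸ card_dvd_of_le hNK
  have h2 : Nat.card K ∣ 144 * 55 := by
    have := K.card_subgroup_dvd_card
    rwa [H.card] at this
  rw [hm] at h1 h2
  have h3 : m ∣ 55 := Nat.dvd_of_mul_dvd_mul_left (by norm_num) h2
  have h4 : m ∈ Nat.divisors 55 := Nat.mem_divisors.2 ⟨h3, by norm_num⟩
  have h5 : Nat.divisors 55 = {1, 5, 11, 55} := by decide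
  rw [h5] at h4
  simp only [Finset.mem_insert, Finset.mem_singleton] at h4
  rcases h4 with rfl | rfl | rfl | rfl
  · exact absurd ((eq_of_le_of_card_ge hNK (by rw [hm, hN])).symm ▸ hgK) hg
  · exact absurd h1 (by decide)
  · exact absurd h1 (by decide)
  · exact eq_top_of_card_eq K (by rw [hm, H.card])

end Cf

theorem main [Finite G] [IsSimpleGroup G] (H : Hy G) : Nonempty (G ≃* ↥Cfsg.Spor.M11) := by
  obtain ⟨P, S, x, y, r, s, h⟩ := exists_cf H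
  obtain ⟨g, hg, hR⟩ := h.exists_rg H
  have gen := h.gen H hg
  have gen' : ∀ K : Subgroup G, x⁻¹ ∈ K → y⁻¹ ∈ K → r ∈ K → s ∈ K → g ∈ K → K = ⊤ :=
    fun K hx hy => gen K (K.inv_mem_iff.1 hx) (K.inv_mem_iff.1 hy)
  have hc := H.card
  rcases hR with hR | hR | hR | hR
  · exact iso_a hc h.rl hR gen
  · have := card_le_b h.rl hR gen; omega
  · have := card_le_b h.rl.inv (hR.inv h.rl (l := 3) rfl) gen'; omega
  · exact iso_a hc h.rl.inv (hR.inv h.rl (l := 1) rfl) gen'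

end Cfsg.Agent.KC.M11E

namespace Cfsg.Agent.KC

/-- A simple group of order `7920` with the class data of `M11` is `M11`. -/
theorem o7920 {G : Type*} [Group G] [Finite G] [IsSimpleGroup G] (h : Nat.card G = 7920)
    (hp : ∀ x : G, (orderOf x, Nat.card (Subgroup.centralizer ({x} : Set G))) ∈
      [(1, 7920), (2, 48), (3, 18), (4, 8), (5, 5), (6, 6), (8, 8), (11, 11)])
    (hc : ∀ x y : G, orderOf x = orderOf y → orderOf x ∈ [2, 3, 5, 6] → IsConj x y) :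
    Nonempty (G ≃* ↥Cfsg.Spor.M11) :=
  M11E.main ⟨h, fun t e => by simpa [e] using hp t, fun t e => by simpa [e] using hp t,
    fun t e => by simpa [e] using hp t, fun t e => by simpa [e] using hp t,
    fun t u e e' => hc t u (e.trans e'.symm) (by simp [e]),
    fun t u e e' => hc t u (e.trans e'.symm) (by simp [e])⟩

end Cfsg.Agent.KC
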