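import Cfsg.Agent.KC.TwoB

/-! The prime two. -/

set_option autoImplicit false

namespace Cfsg.Agent.KC

open Subgroup Finset Cfsg.Agent.SC3

variable {G : Type*} [Group G] [Finite G]

theorem exists_syl {y : G} {a : ℕ} (h : orderOf y = 2 ^ a) : ∃ P : Sylow 2 G, y ∈ (P : Subgroup G) :=
  ((IsPGroup.of_card ((Nat.card_zpowers y).trans h)).exists_le_sylow).imp fun _ h => h (mem_zpowers y)

namespace Link

variable [IsSimpleGroup G] {D : Dat} {x : ℕ → G} {cls : G → ℕ} (L : Link G D x cls)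
include L

theorem mode2 (hG : ¬ IsMulCommutative G) (h2 : 2 ∣ D.g) {j a : ℕ} (hj : j < D.n) (ha : D.O j = 2 ^ a)
    (h : ¬ (8 ∣ D.C j ∧ 4 * D.O j ∣ D.g)) :
    ∃ c, 2 ^ (c + 2) ∣ D.g ∧ ¬ 2 ^ (c + 3) ∣ D.g ∧ (∀ i ≤ c, ∃ j < D.n, D.O j = 2 ^ (i + 1)) ∧
      (∀ j < D.n, ¬ 2 ^ (c + 2) ∣ D.O j) ∧ ∀ j < D.n, ∀ l < D.n, D.O j = 2 → D.O l = 2 → j = l := by
  rw [← L.card] at h2 h ⊢
  obtain ⟨P, hP⟩ := exists_syl ((L.ord j hj).trans ha)
  have cP : ∀ Q : Sylow 2 G, Nat.card Q = 2 ^ (Nat.card G).factorization 2 := fun Q => Q.card_eq_multiplicity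
  have nd := Nat.pow_succ_factorization_not_dvd (Nat.card_pos (α := G)).ne' Nat.prime_two
  have dd := Nat.ordProj_dvd (Nat.card G) 2
  generalize (Nat.card G).factorization 2 = s at cP nd dd
  have nc : ∀ y : G, orderOf y ≠ 2 ^ s := fun y e => by
    obtain ⟨Q, hQ⟩ := exists_syl e
    exact syl_nc hG h2 Q (eq_of_le_of_card_ge (zpowers_le_of_mem hQ) (by rw [cP, Nat.card_zpowers, e])).ge
  obtain ⟨m, hm, h1⟩ : ∃ m ∈ (P : Subgroup G), 2 ^ s ≤ 2 * orderOf m := by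
    by_cases h8 : 8 ∣ D.C j
    · refine ⟨_, hP, ?_⟩
      rw [L.ord j hj, ha, ← pow_succ']
      refine Nat.pow_le_pow_right two_pos (not_lt.1 fun e => h ⟨h8, Dvd.dvd.trans ?_ dd⟩)
      rw [ha, show 4 * 2 ^ a = 2 ^ (a + 2) by ring]
      exact pow_dvd_pow _ e
    · obtain ⟨m, hm⟩ := cyc2 _ P rfl P.isPGroup' ⟨_, hP⟩ (by
        obtain ⟨k, hk⟩ := IsPGroup.iff_card.1 (P.isPGroup'.to_subgroup (C1 ⟨_, hP⟩))
        have h3 : 2 ^ k ∣ D.C j := by
          rw [← hk, ← L.cen j hj, ← card_map_of_injective (P : Subgroup G).subtype_injective]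
          refine card_dvd_of_le ?_
          rintro _ ⟨y, hy, rfl⟩
          exact mem_C1.2 ((mem_C1.1 hy).map (P : Subgroup G).subtype)
        rw [hk]
        exact Nat.pow_le_pow_right two_pos (not_lt.1 fun e : 2 < k => h8 ((pow_dvd_pow 2 e).trans h3)))
      exact ⟨m, m.2, by rwa [cP, ← orderOf_coe] at hm⟩
  obtain ⟨b, h3, hb⟩ := (Nat.dvd_prime_pow Nat.prime_two).1 (cP P ▸ Subgroup.orderOf_dvd_natCard _ hm)
  rw [hb, ← pow_succ', Nat.pow_le_pow_iff_right one_lt_two] at h1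
  obtain rfl : s = b + 1 := by
    have : b ≠ s := fun e => nc m (e ▸ hb)
    omega
  obtain ⟨c, rfl⟩ : ∃ c, b = c + 1 := by
    obtain ⟨y, hy⟩ := exists_prime_orderOf_dvd_card' 2 h2
    exact Nat.exists_eq_add_one.2 (Nat.pos_of_ne_zero fun e => nc y (by simp [e, hy]))
  have op : ∀ (y : G) (u v : ℕ), orderOf y = u * v → orderOf (y ^ u) = v := fun y u v e => by
    have := orderOf_pos y
    rw [orderOf_pow, e, Nat.gcd_eq_right (Dvd.intro _ rfl), Nat.mul_div_cancel_left]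
    exact Nat.pos_of_mul_pos_right (e ▸ this)
  refine ⟨c, dd, nd, fun i hi => ?_, fun l hl ⟨u, hu⟩ => nc _ (op _ u _ ((L.ord l hl).trans (hu.trans (mul_comm _ _)))),
    fun i hi l hl e1 e2 => ?_⟩
  · have h4 := op m (2 ^ (c - i)) (2 ^ (i + 1)) (by rw [hb, ← pow_add]; congr 1; omega)
    have h5 : m ^ 2 ^ (c - i) ≠ 1 := fun e => by
      rw [e, orderOf_one] at h4
      exact absurd h4.symm (Nat.one_lt_two_pow (by omega)).ne'
    exact ⟨_, L.lt _ h5, (L.ordc h5).symm.trans h4⟩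
  have h4 := op m (2 ^ c) 2 (by rw [hb, pow_succ])
  have h5 : (zpowers m).relIndex P = 2 := by
    have := ((zpowers m).subgroupOf P).card_mul_index
    rw [cP, Nat.card_congr (subgroupOfEquivOfLe (zpowers_le_of_mem hm)).toEquiv, Nat.card_zpowers, hb,
      pow_succ _ (c + 1)] at this
    exact Nat.eq_of_mul_eq_mul_left (by positivity) this
  have h6 : m ^ 2 ^ c ≠ 1 := fun e => by simp [e] at h4
  have key : ∀ i < D.n, D.O i = 2 → i = cls (m ^ 2 ^ c) := fun i hi e => by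
    have a1 : x i * x i = 1 := by rw [← sq, ← e, ← L.ord i hi, pow_orderOf_eq_one]
    obtain ⟨g, hg⟩ := EP.transfer2 hG P.not_dvd_index h5 a1
    obtain ⟨k, hk⟩ := mem_powers_iff_mem_zpowers.2 hg
    simp only at hk
    have a2 : 2 ^ c ∣ k := by
      refine Nat.dvd_of_mul_dvd_mul_right two_pos ?_
      rw [← pow_succ, ← hb, orderOf_dvd_iff_pow_eq_one, pow_mul, hk, conj_pow, sq, a1]
      simp
    obtain ⟨k, rfl⟩ := a2
    rcases EP.I2.zp (t := m ^ 2 ^ c) ⟨by rw [← sq, ← orderOf_dvd_iff_pow_eq_one, h4], h6⟩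
      (show g * x i * g⁻¹ ∈ _ by rw [← hk, pow_mul]; exact pow_mem (mem_zpowers _) _) with e | e
    · exact absurd (by simpa using e) (L.ne i hi)
    · exact (L.cx i hi).symm.trans ((L.eq _ _ (L.ne i hi) h6).2 ⟨g, by rw [e]⟩)
  rw [key i hi e1, ← key l hl e2]

omit [IsSimpleGroup G] in
theorem bf2 (h0 : D.F0) : (∑ j ∈ range D.n with D.O j = 2, D.N j) ^ 2 ≤ (∑ j ∈ range D.n with D.O j = 2, D.N j) +
    (∑ j ∈ range D.n with (D.O j = 2 ∨ 2 ∣ D.E j), D.T j) * D.g := by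
  have h1 := L.sum_cls h0 (fun j => D.O j = 2) fun _ => 1
  have h2 := L.sum_cls h0 (fun j => D.O j = 2 ∨ 2 ∣ D.E j) D.C
  rw [← card_eq_sum_ones, sum_congr rfl (g := D.N) fun j hj => ?_] at h1
  swap
  · obtain ⟨a1, a2⟩ := mem_filter.1 hj
    have a3 := h0.edvd j (Finset.mem_range.1 a1)
    rw [a2, Nat.totient_two, Nat.dvd_one] at a3
    simp [Dat.T, a2, a3]
  rw [sum_congr rfl (g := fun y => Nat.card (C1 y)) fun y hy => (L.cenc ((Set.Finite.mem_toFinset _).1 hy).1).symm,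
    sum_congr rfl (g := fun j => D.T j * D.g) fun j hj => ?_] at h2
  swap
  · rw [mul_assoc, Dat.N, Nat.div_mul_cancel
      ((Dvd.intro_left _ rfl).trans (h0.ecd j (Finset.mem_range.1 (mem_filter.1 hj).1)))]
  rw [sum_mul, ← h1, ← h2]
  refine bf_count _ _ (fun u hu => ?_) fun y u hy hu h => (Set.Finite.mem_toFinset _).2 ⟨hy, ?_⟩
  · obtain ⟨a1, a2⟩ := (Set.Finite.mem_toFinset _).1 hu
    rw [← sq, ← a2, ← L.ordc a1, pow_orderOf_eq_one]
  · by_cases e : y * y = 1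
    · exact Or.inl ((L.ordc hy).symm.trans (orderOf_eq_prime (by rw [sq, e]) hy))
    · have := two_dvd_nor e hu h
      rw [L.norc hy, ← L.cenc hy] at this
      exact Or.inr (Nat.dvd_of_mul_dvd_mul_right Nat.card_pos this)

theorem f2 (h0 : D.F0) (hG : ¬ IsMulCommutative G) : D.F2 := by
  refine ⟨fun h2 => or_iff_not_imp_left.2 fun hn => ?_, L.bf2 h0, L.card ▸ ne1920 hG⟩
  simp only [not_forall] at hn
  obtain ⟨j, hj, a, ha, h⟩ := hn
  exact L.mode2 hG h2 hj ha h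

end Link

end Cfsg.Agent.KC
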