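import Cfsg.Agent.KC.Loc
import Cfsg.Agent.KC.Two
import Cfsg.Agent.KC.O1092
import Cfsg.Agent.KC.O2520
import Cfsg.Agent.KC.O7920

/-! From the class data to the recognition theorems. -/

set_option autoImplicit false

namespace Cfsg.Agent.KC

open Subgroup Finset Cfsg.Agent.SC3

variable {G : Type*} [Group G] [Finite G]

namespace Link

variable {D : Dat} {x : ℕ → G} {cls : G → ℕ} (L : Link G D x cls)
include L

theorem isConj_of_T {y z : G} (hy : y ≠ 1) (hz : z ≠ 1) (h : cls y = cls z) (hT : D.T (cls y) = 1) :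
    IsConj y z := by
  have : NeZero (Nat.card G) := ⟨Nat.card_pos.ne'⟩
  rw [L.T_eq hy, index_eq_one] at hT
  obtain ⟨g, e⟩ := (L.eq y z hy hz).1 h
  obtain ⟨r, h1, rfl⟩ := exists_cop e
  obtain ⟨w, hw⟩ := hT.ge (mem_top (ZMod.unitOfCoprime r h1.symm))
  rw [ZMod.coe_unitOfCoprime, ZMod.val_natCast, ← pow_eq_pow_mod _ pow_card_eq_one'] at hw
  exact isConj_iff.2 ⟨g * w, by rw [conj_pow, conj_conj_pow hw]⟩

omit [Finite G] in
theorem eppo (h : ∀ j < D.n, IsPrimePow (D.O j)) (g : G) (hg : g ≠ 1) : IsPrimePow (orderOf g) :=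
  L.ordc hg ▸ h _ (L.lt g hg)

omit [Finite G] in
theorem pairs {l : List (ℕ × ℕ × ℕ)} (h : D.Acc l) {l' : List (ℕ × ℕ)} (h1 : (1, D.g) ∈ l')
    (h2 : ∀ t ∈ l, (t.1, t.2.2) ∈ l') (y : G) : (orderOf y, Nat.card (centralizer ({y} : Set G))) ∈ l' := by
  by_cases hy : y = 1
  · rwa [hy, orderOf_one, (centralizer_eq_top_iff_subset).2 (by simp), card_top, L.card]
  · rw [L.ordc hy, L.cenc hy]
    exact h2 _ (h.1 _ (L.lt y hy))

theorem a7 [IsSimpleGroup G] (hg : D.g = 2520)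
    (h : D.Acc [(2, 1, 24), (3, 1, 9), (3, 1, 36), (4, 1, 4), (5, 1, 5), (6, 1, 12), (7, 2, 7)]) :
    Nonempty (G ≃* alternatingGroup (Fin 7)) :=
  o2520' (L.card.trans hg) (L.pairs h (by simp [hg]) (by decide))

theorem m11 [IsSimpleGroup G] (hg : D.g = 7920) (h : D.Acc [(2, 1, 48), (3, 1, 18), (4, 1, 8), (4, 2, 8),
    (5, 1, 5), (6, 1, 6), (8, 2, 8), (11, 2, 11)]) : Nonempty (G ≃* ↥Cfsg.Spor.M11) := by
  refine o7920 (L.card.trans hg) (L.pairs h (by simp [hg]) (by decide)) fun y z e hy => ?_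
  have h1 : y ≠ 1 := fun f => by simp [f] at hy
  have h2 : z ≠ 1 := fun f => h1 (orderOf_eq_one_iff.1 (by rw [e, f, orderOf_one]))
  have h3 := h.1 _ (L.lt y h1)
  have h4 := h.1 _ (L.lt z h2)
  rw [L.ordc h1, L.ordc h2] at e
  rw [L.ordc h1] at hy
  have h5 : (D.O (cls y), D.T (cls y), D.C (cls y)) = (D.O (cls z), D.T (cls z), D.C (cls z)) ∧
      D.T (cls y) = 1 := by
    simp only [List.mem_cons, Prod.mk.injEq, List.not_mem_nil, or_false] at h3 h4 hy ⊢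
    omega
  exact L.isConj_of_T h1 h2 (h.2 _ (L.lt y h1) _ (L.lt z h2) h5.1) h5.2

theorem l13 [IsSimpleGroup G] (hg : D.g = 1092) :
    Nonempty (G ≃* Matrix.ProjectiveSpecialLinearGroup (Fin 2) (ZMod 13)) := o1092 (L.card.trans hg)

end Link

end Cfsg.Agent.KC
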