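import Cfsg.Agent.KC.FrobT
import Cfsg.Agent.KC.Spec

set_option autoImplicit false
set_option linter.unusedSectionVars false

/-! The consequences of the theorem of Frobenius for the class data. -/

namespace Cfsg.Agent.KC
open Subgroup Finset Cfsg.Agent.SC3

variable {G : Type*} [Group G] [Finite G]

theorem zp_pow {a b : G} (h : zpowers a = zpowers b) (d : ℕ) : zpowers (a ^ d) = zpowers (b ^ d) := by
  have k : ∀ {a b : G}, zpowers a = zpowers b → zpowers (a ^ d) ≤ zpowers (b ^ d) := fun {a b} h => by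
    obtain ⟨i, rfl⟩ := h.le (mem_zpowers a)
    exact zpowers_le.2 ⟨i, by simp only [← zpow_natCast, ← zpow_mul, mul_comm]⟩
  exact le_antisymm (k h) (k h.symm)

theorem zp_cop {a : G} {r : ℕ} (h : (Nat.card G).Coprime r) : zpowers (a ^ r) = zpowers a :=
  le_antisymm (zpowers_le.2 (pow_mem (mem_zpowers a) r))
    (zpowers_le.2 (mem_zpowers_pow_iff.2 (h.coprime_dvd_left (orderOf_dvd_natCard a)).symm))

theorem exists_cop {a b : G} (h : zpowers a = zpowers b) : ∃ r, (Nat.card G).Coprime r ∧ a = b ^ r := by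
  classical
  obtain ⟨k, -, rfl⟩ := mem_image.1 (mem_zpowers_iff_mem_range_orderOf.1 (h.le (mem_zpowers a)))
  obtain ⟨r, h1, h2, h3⟩ := Nat.forall_exists_prime_gt_and_modEq (Nat.card G) (orderOf_pos b).ne'
    (mem_zpowers_pow_iff.1 (h.ge (mem_zpowers b)))
  exact ⟨r, (h2.coprime_iff_not_dvd.2 (Nat.not_dvd_of_pos_of_lt Nat.card_pos h1)).symm,
    (pow_eq_pow_iff_modEq.2 h3).symm⟩

theorem zp_conj (h y : G) : zpowers (h * y * h⁻¹) = cj h (zpowers y) := by
  rw [cj, MonoidHom.map_zpowers]; rfl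

theorem zp_part {y : G} {p v m k e d : ℕ} (hp : p.Prime) (hG : Nat.card G = p ^ v * m) (hm : ¬ p ∣ m)
    (k1 : m ∣ k) (k2 : k ≡ 1 [MOD p ^ v]) (h : orderOf y = p ^ e * d) (hd : ¬ p ∣ d) :
    zpowers (y ^ d) = zpowers (y ^ k) := by
  have h1 := orderOf_dvd_natCard y
  rw [h, hG] at h1
  have h2 : d ∣ m := (Nat.Coprime.pow_left v (hp.coprime_iff_not_dvd.2 hd)).symm.dvd_of_dvd_mul_left
    ((dvd_mul_left _ _).trans h1)
  have h3 : p ^ e ∣ p ^ v := (Nat.Coprime.pow_left e (hp.coprime_iff_not_dvd.2 hm)).dvd_of_dvd_mul_right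
    ((dvd_mul_right _ _).trans h1)
  refine le_antisymm (zpowers_le.2 ?_) (zpowers_le.2 ?_)
  · rw [← pow_of_mod (x := y ^ d) (n := p ^ e) (by rw [← pow_mul, mul_comm, ← h, pow_orderOf_eq_one]) (k2.of_dvd h3),
      ← pow_mul, mul_comm, pow_mul]
    exact pow_mem (mem_zpowers _) d
  · obtain ⟨c, rfl⟩ := h2.trans k1
    rw [pow_mul]; exact pow_mem (mem_zpowers _) c

/-- the rational class number `j` -/
noncomputable def XF (cls : G → ℕ) (j : ℕ) : Finset G := (Set.toFinite {y | y ≠ 1 ∧ cls y = j}).toFinset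

theorem mem_XF {cls : G → ℕ} {j : ℕ} {y : G} : y ∈ XF cls j ↔ y ≠ 1 ∧ cls y = j := by simp [XF]

namespace Link
variable {D : Dat} {x : ℕ → G} {cls : G → ℕ} (L : Link G D x cls)
include L

theorem memF {j : ℕ} (hj : j < D.n) {y : G} : y ∈ XF cls j ↔ ∃ h : G, zpowers y = zpowers (h * x j * h⁻¹) := by
  rw [mem_XF]
  refine ⟨fun e => (L.eq _ _ (L.ne j hj) e.1).1 ((L.cx j hj).trans e.2.symm), fun e => ?_⟩
  have h1 : y ≠ 1 := by
    rintro rfl
    obtain ⟨h, e⟩ := e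
    have := ord_of_zp e
    rw [orderOf_conj, orderOf_one, eq_comm, orderOf_eq_one_iff] at this
    exact L.ne j hj this
  exact ⟨h1, ((L.eq _ _ (L.ne j hj) h1).2 e).symm.trans (L.cx j hj)⟩

theorem ordF {j : ℕ} (hj : j < D.n) {y : G} (hy : y ∈ XF cls j) : orderOf y = D.O j := by
  obtain ⟨h, e⟩ := (L.memF hj).1 hy
  rw [ord_of_zp e, orderOf_conj, L.ord j hj]

theorem selfF {j : ℕ} (hj : j < D.n) : x j ∈ XF cls j := mem_XF.2 ⟨L.ne j hj, L.cx j hj⟩

theorem zpF {j : ℕ} (hj : j < D.n) {y z : G} (e : zpowers y = zpowers z) (hy : y ∈ XF cls j) : z ∈ XF cls j := by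
  rw [L.memF hj] at hy ⊢; rwa [← e]

theorem conjF {j : ℕ} (hj : j < D.n) {y : G} (g : G) (hy : y ∈ XF cls j) : g * y * g⁻¹ ∈ XF cls j := by
  rw [L.memF hj] at hy ⊢
  obtain ⟨h, e⟩ := hy
  exact ⟨g * h, by rw [zp_conj, e, zp_conj, zp_conj, cj_cj]⟩

theorem powF {l j : ℕ} (hl : l < D.n) (hj : j < D.n) {y : G} (hy : y ∈ XF cls l) (d : ℕ) :
    y ^ d ∈ XF cls j ↔ x l ^ d ∈ XF cls j := by
  obtain ⟨h, e⟩ := (L.memF hl).1 hy
  have e1 := zp_pow e d
  rw [conj_pow] at e1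
  refine ⟨fun a => ?_, fun a => L.zpF hj e1.symm (L.conjF hj h a)⟩
  have := L.conjF hj h⁻¹ (L.zpF hj e1 a)
  rwa [show h⁻¹ * (h * x l ^ d * h⁻¹) * h⁻¹⁻¹ = x l ^ d by group] at this

theorem cardF (h0 : D.F0) {j : ℕ} (hj : j < D.n) : (XF cls j).card = D.T j * D.N j := by
  classical
  have := Fintype.ofFinite G
  have h1 := Frob.card_fiber_mul (XF cls j) ((XF cls j).image zpowers) zpowers (D.O j).totient
    (fun a ha => mem_image_of_mem _ ha) fun b hb => by
      obtain ⟨y, hy, rfl⟩ := mem_image.1 hb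
      rw [← L.ordF hj hy, ← card_gen]
      congr 1
      ext z
      simp only [mem_filter, mem_univ, true_and]
      exact ⟨fun e => e.2, fun e => ⟨L.zpF hj e.symm hy, e⟩⟩
  have h2 := Frob.card_fib (fun g : G => cj g (zpowers (x j))) (Nm (zpowers (x j))) ⊤ (fun g g' => by
      rw [← cj_eq_iff]
      exact ⟨fun e => by rw [← cj_cj, ← e, cj_cj, inv_mul_cancel, cj_one],
        fun e => by rw [← mul_inv_cancel_left g g', ← cj_cj, e]⟩) ((XF cls j).image zpowers)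
    (fun s hs => by
      obtain ⟨y, hy, rfl⟩ := mem_image.1 hs
      obtain ⟨h, e⟩ := (L.memF hj).1 hy
      exact ⟨h, mem_top h, by rw [e, zp_conj]⟩) univ fun g => by
      simp only [mem_univ, mem_top, true_and, true_iff]
      exact mem_image.2 ⟨_, L.conjF hj g (L.selfF hj), zp_conj _ _⟩
  rw [top_inf_eq, L.nor j hj, card_univ, ← Nat.card_eq_fintype_card, L.card] at h2
  obtain ⟨t, ht⟩ := h0.edvd j hj
  have hC : 0 < D.C j := by rw [← L.cen j hj]; exact Nat.card_pos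
  rw [h1, Dat.T, Dat.N, h2, ht, Nat.mul_div_cancel_left _ (h0.epos j hj), ← mul_assoc _ (D.E j) (D.C j),
    Nat.mul_div_cancel _ hC]
  ring

theorem fibF (h0 : D.F0) {j : ℕ} (hj : j < D.n) (k : ℕ) {l : ℕ} (hl : l < D.n)
    (h : ∀ y ∈ XF cls l, y ^ k ∈ XF cls j) [DecidableEq G] :
    D.T l * D.N l = D.T j * D.N j * ((XF cls l).filter fun y => y ^ k = x j).card := by
  rw [← L.cardF h0 hl, ← L.cardF h0 hj]
  refine Frob.card_fiber_mul _ _ _ _ h fun b hb => ?_
  obtain ⟨g, e⟩ := (L.memF hj).1 hb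
  obtain ⟨r, hr, rfl⟩ := exists_cop e
  symm
  refine card_bij (fun y _ => (g * y * g⁻¹) ^ r) (fun y hy => ?_) (fun a _ b _ e => ?_) fun z hz => ?_
  · rw [mem_filter] at hy ⊢
    refine ⟨L.zpF hl (zp_cop hr).symm (L.conjF hl g hy.1), ?_⟩
    rw [← pow_mul, mul_comm r, pow_mul, conj_pow (i := k), hy.2]
  · simpa using (powCoprime hr).injective e
  · obtain ⟨w, rfl⟩ := (powCoprime hr).surjective z
    change w ^ r ∈ _ at hz
    rw [mem_filter] at hz
    refine ⟨g⁻¹ * w * g⁻¹⁻¹, mem_filter.2 ⟨L.conjF hl g⁻¹ (L.zpF hl (zp_cop hr) hz.1), ?_⟩, ?_⟩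
    · have h2 := hz.2
      rw [← pow_mul, mul_comm r, pow_mul] at h2
      rw [conj_pow, (powCoprime hr).injective h2]; group
    · show _ = w ^ r
      congr 1; group

theorem frF (h0 : D.F0) (d : ℕ) (hd : d ∣ D.g) :
    d ∣ ∑ j ∈ range D.n with D.O j ∣ d, D.T j * D.N j + 1 := by
  classical
  have h1 := frobenius (⊤ : Subgroup G) (d := d) (by rwa [card_top, L.card])
  rwa [← card_erase_add_one (a := 1) (by simp [mem_sol]), card_eq_sum_card_fiberwise (f := cls)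
    (t := (range D.n).filter fun j => D.O j ∣ d) (fun y hy => by
      simp only [coe_erase, Set.mem_sdiff, mem_coe, mem_sol, Set.mem_singleton_iff, coe_filter, mem_range,
        Set.mem_ofPred_eq] at hy ⊢
      refine ⟨L.lt y hy.2, ?_⟩
      rw [← L.ordF (L.lt y hy.2) (mem_XF.2 ⟨hy.2, rfl⟩)]
      exact orderOf_dvd_of_pow_eq_one hy.1.2), sum_congr (g := fun j => D.T j * D.N j) rfl fun j hj => by
      rw [mem_filter, mem_range] at hj
      rw [← L.cardF h0 hj.1]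
      congr 1
      ext y
      simp only [mem_filter, mem_erase, mem_sol, mem_top, true_and]
      exact ⟨fun e => mem_XF.2 ⟨e.1.1, e.2⟩, fun e => ⟨⟨(mem_XF.1 e).1,
        orderOf_dvd_iff_pow_eq_one.1 (L.ordF hj.1 e ▸ hj.2)⟩, (mem_XF.1 e).2⟩⟩] at h1

theorem secF (h0 : D.F0) (h1 : D.F1) {j : ℕ} (hj : j < D.n) {p a m b : ℕ} (hp : p.Prime) (ho : D.O j = p ^ a)
    (hc : D.C j = p ^ b * m) (hm : ¬ p ∣ m) :
    ∑ l ∈ range D.n with (D.A l j ∧ ¬ p ∣ D.O l / D.O j), D.T l / D.T j * (D.C j / D.C l) + 1 =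
      (sol (C1 (x j)) m).card := by
  classical
  obtain ⟨v, m0, hm0, hG⟩ := Nat.exists_eq_pow_mul_and_not_dvd (Nat.card_pos (α := G)).ne' p hp.one_lt.ne'
  obtain ⟨k, k1, k2⟩ := exists_crt (Nat.Coprime.pow_left v (hp.coprime_iff_not_dvd.2 hm0)).symm
  have xo : orderOf (x j) = p ^ a * 1 := by rw [L.ord j hj, ho, mul_one]
  have pv : ∀ {y : G} {e : ℕ}, orderOf y = p ^ e → y ^ p ^ v = 1 := fun {y e} h => by
    have h2 := orderOf_dvd_natCard y
    rw [hG, h] at h2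
    exact orderOf_dvd_iff_pow_eq_one.1 (h ▸ (Nat.Coprime.pow_left e
      (hp.coprime_iff_not_dvd.2 hm0)).dvd_of_dvd_mul_right h2)
  have xk : x j ^ k = x j := pow_of_mod (pv (xo.trans (mul_one _))) k2
  have := Fintype.ofFinite G
  have a1 : (sol (C1 (x j)) m).card = (univ.filter fun y => y ^ k = x j).card := by
    refine card_bij (fun z _ => x j * z) (fun z hz => ?_) (fun a _ b _ e => mul_left_cancel e) fun y hy => ?_
    · rw [mem_sol, memC] at hz
      have b1 := orderOf_dvd_natCard z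
      rw [hG] at b1
      have b2 := (Nat.Coprime.pow_left v (hp.coprime_iff_not_dvd.2 fun e =>
        hm (e.trans (orderOf_dvd_of_pow_eq_one hz.2)))).symm.dvd_of_dvd_mul_left b1
      simp only [mem_filter, mem_univ, true_and]
      rw [hz.1.mul_pow, xk, orderOf_dvd_iff_pow_eq_one.1 (b2.trans k1), mul_one]
    · simp only [mem_filter, mem_univ, true_and] at hy
      have c : Commute (x j) y := hy ▸ (Commute.refl y).pow_left k
      have b0 : (x j)⁻¹ * y ∈ C1 (x j) := memC.2 ((Commute.refl _).inv_right.mul_right c)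
      refine ⟨(x j)⁻¹ * y, mem_sol.2 ⟨b0, ?_⟩, by simp⟩
      have b1 : ((x j)⁻¹ * y) ^ m0 = 1 := by
        rw [c.inv_left.mul_pow, ← hy, inv_pow, ← pow_mul, mul_comm k, pow_mul, pow_of_mod (n := p ^ v)
          (by rw [← pow_mul, mul_comm, ← hG, pow_card_eq_one']) k2, inv_mul_cancel]
      have b2 := Subgroup.orderOf_dvd_natCard _ b0
      rw [L.cen j hj, hc] at b2
      exact orderOf_dvd_iff_pow_eq_one.1 ((Nat.Coprime.pow_left b (hp.coprime_iff_not_dvd.2 fun e =>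
        hm0 (e.trans (orderOf_dvd_of_pow_eq_one b1)))).symm.dvd_of_dvd_mul_left b2)
  have opos : 0 < D.O j := by have := h0.two j hj; omega
  rw [a1, ← card_erase_add_one (a := x j) (by simp [xk]), card_eq_sum_card_fiberwise (f := cls)
    (t := (range D.n).filter fun l => D.A l j ∧ ¬ p ∣ D.O l / D.O j) fun y hy => ?_]
  · congr 1
    refine sum_congr rfl fun l hl => ?_
    rw [mem_filter, mem_range] at hl
    obtain ⟨hl, ⟨d, d1, d2, d3, d4⟩, d5⟩ := hl
    rw [mem_range] at d1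
    obtain ⟨-, e1, e2, e3, -⟩ := h1.pw l hl d d3 d1.ne
    rw [d4] at e1 e2 e3
    rw [← e1, Nat.mul_div_cancel_left _ opos] at d5
    have e4 : x l ^ d ∈ XF cls j := mem_XF.2 ⟨fun e => by
      have := Nat.le_of_dvd (by omega) (orderOf_dvd_of_pow_eq_one e)
      rw [L.ord l hl] at this; omega, (L.pw l hl d).symm.trans d4⟩
    have e5 := L.fibF h0 hj k hl fun y hy => L.zpF hj (zp_part hp hG hm0 k1 k2
      (by rw [L.ordF hl hy, ← e1, ho]) d5) ((L.powF hl hj hy d).2 e4)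
    rw [show ((univ.filter fun y => y ^ k = x j).erase (x j)).filter (fun y => cls y = l) =
        (XF cls l).filter fun y => y ^ k = x j by
      ext y
      simp only [mem_filter, mem_erase, mem_univ, true_and]
      refine ⟨fun e => ⟨mem_XF.2 ⟨?_, e.2⟩, e.1.2⟩, fun e => ⟨⟨?_, e.2⟩, (mem_XF.1 e.1).2⟩⟩
      · rintro rfl
        exact e.1.1 (by simpa using e.1.2)
      · rintro rfl
        have := L.ordF hl e.1
        rw [L.ord j hj, ← e1] at this
        nlinarith]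
    obtain ⟨t, ht⟩ := e2
    obtain ⟨c, hc'⟩ := e3
    have n0 : 0 < D.T j * D.N j := by rw [← L.cardF h0 hj]; exact card_pos.2 ⟨_, L.selfF hj⟩
    have c0 : 0 < D.C l := by rw [← L.cen l hl]; exact Nat.card_pos
    have c1 : 0 < D.C j := by rw [← L.cen j hj]; exact Nat.card_pos
    have n1 : D.N l = c * D.N j := by
      obtain ⟨u, hu⟩ := (dvd_mul_left _ _).trans (h0.ecd j hj)
      rw [Dat.N, Dat.N, hu, Nat.mul_div_cancel_left _ c1, hc', mul_assoc, Nat.mul_div_cancel_left _ c0]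
    rw [ht, hc', Nat.mul_div_cancel_left _ (Nat.pos_of_mul_pos_right n0), Nat.mul_div_cancel_left _ c0]
    refine Nat.eq_of_mul_eq_mul_left n0 ?_
    rw [← e5, ht, n1]; ring
  · simp only [coe_erase, Set.mem_sdiff, Set.mem_singleton_iff, coe_filter, mem_range,
      Set.mem_ofPred_eq, mem_univ, true_and] at hy ⊢
    have y1 : y ≠ 1 := by rintro rfl; exact hy.2 (by simpa using hy.1)
    have hl := L.lt y y1
    have hy' : y ∈ XF cls (cls y) := mem_XF.2 ⟨y1, rfl⟩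
    obtain ⟨e, d, d1, d2⟩ := Nat.exists_eq_pow_mul_and_not_dvd (orderOf_pos y).ne' p hp.one_lt.ne'
    have e1 := zp_part hp hG hm0 k1 k2 d2 d1
    rw [hy.1] at e1
    have d0 : 0 < d := Nat.pos_of_ne_zero fun e => d1 (e ▸ dvd_zero p)
    have e2 := ord_of_zp e1
    rw [orderOf_pow_of_dvd d0.ne' (d2 ▸ dvd_mul_left _ _), d2, Nat.mul_div_cancel _ d0, L.ord j hj] at e2
    have e3 := L.ordF hl hy'
    have e4 := h0.two j hj
    refine ⟨hl, ⟨d, mem_range.2 ?_, ?_, ?_, ?_⟩, ?_⟩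
    · rw [← e3, d2, e2]; nlinarith
    · by_contra e5
      obtain rfl : d = 1 := by omega
      exact hy.2 (hy.1 ▸ (pow_of_mod (pv (d2.trans (mul_one _))) k2).symm)
    · rw [← e3, d2]; exact dvd_mul_left _ _
    · rw [L.pw _ hl]
      exact (mem_XF.1 ((L.powF hl hj hy' d).1 (L.zpF hj e1.symm (L.selfF hj)))).2
    · rwa [← e3, d2, e2, Nat.mul_div_cancel_left _ opos]

theorem f3 (h0 : D.F0) (h1 : D.F1) : D.F3 := by
  classical
  refine ⟨L.frF h0, fun j hj p a m b hp ho hc hm => ?_⟩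
  rw [L.secF h0 h1 hj hp ho hc hm]
  refine ⟨frobenius _ (by rw [L.cen j hj, hc]; exact dvd_mul_left _ _), ?_⟩
  have cp := Nat.Coprime.pow_left b (hp.coprime_iff_not_dvd.2 hm)
  have h2 := card_sol_mul (C1 (x j)) cp
  rw [Frob.card_sub' (C1 (x j)) (sol _ _) fun g => by
    rw [mem_sol, ← hc, ← L.cen j hj]
    exact ⟨fun e => e.1, fun e => ⟨e, orderOf_dvd_iff_pow_eq_one.1 (Subgroup.orderOf_dvd_natCard _ e)⟩⟩,
    L.cen j hj] at h2
  rw [h2, ← smul_eq_mul]
  refine card_nsmul_le_sum _ _ _ fun y hy => ?_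
  have := Fintype.ofFinite G
  rw [← L.ord j hj, ← Nat.card_zpowers, ← Frob.card_sub]
  refine card_le_card fun g hg => ?_
  obtain ⟨i, rfl⟩ := (mem_filter.1 hg).2
  rw [mem_sol] at hy ⊢
  have h3 := h0.odvd j hj
  rw [ho, hc] at h3
  refine ⟨⟨memC.2 ((Commute.refl _).zpow_right i), memC.2 ((memC.1 hy.1).symm.zpow_right i)⟩, ?_⟩
  have h4 : x j ^ p ^ b = 1 := orderOf_dvd_iff_pow_eq_one.1 (by
    rw [L.ord j hj, ho]
    exact (Nat.Coprime.pow_left a (hp.coprime_iff_not_dvd.2 hm)).dvd_of_dvd_mul_right h3)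
  show (x j ^ i) ^ p ^ b = 1
  rw [← zpow_natCast, ← zpow_mul, mul_comm, zpow_mul, zpow_natCast, h4, one_zpow]

end Link

end Cfsg.Agent.KC
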