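import Cfsg.Agent.SC3.Base
import Cfsg.Agent.Frob.Count

set_option autoImplicit false
set_option linter.unusedSectionVars false

/-! The theorem of Frobenius on the number of solutions of `x ^ d = 1`. -/

namespace Cfsg.Agent.KC
open Subgroup Finset Cfsg.Agent.SC3

variable {G : Type*} [Group G] [Finite G]

/-- the solutions of `x ^ n = 1` in `U` -/
noncomputable def sol (U : Subgroup G) (n : ℕ) : Finset G := (Set.toFinite {x | x ∈ U ∧ x ^ n = 1}).toFinset

theorem mem_sol {U : Subgroup G} {n : ℕ} {x : G} : x ∈ sol U n ↔ x ∈ U ∧ x ^ n = 1 := by simp [sol]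

theorem memC {x y : G} : y ∈ C1 x ↔ Commute x y := by
  rw [mem_centralizer_singleton_iff]; exact ⟨fun h => h.symm, fun h => h.symm⟩

theorem pow_of_mod {x : G} {n k : ℕ} (hx : x ^ n = 1) (h : k ≡ 1 [MOD n]) : x ^ k = x := by
  nth_rewrite 2 [← pow_one x]
  exact pow_eq_pow_iff_modEq.2 (h.of_dvd (orderOf_dvd_of_pow_eq_one hx))

theorem pow_of_dvd {x : G} {n k : ℕ} (hx : x ^ n = 1) (h : n ∣ k) : x ^ k = 1 := by
  obtain ⟨c, rfl⟩ := h; rw [pow_mul, hx, one_pow]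

theorem exists_crt {q m : ℕ} (h : q.Coprime m) : ∃ k, q ∣ k ∧ k ≡ 1 [MOD m] := by
  obtain ⟨k, h1, h2⟩ := Nat.chineseRemainder h 0 1
  exact ⟨k, Nat.modEq_zero_iff_dvd.1 h1, h2⟩

theorem card_sol_mul (U : Subgroup G) {q m : ℕ} (h : q.Coprime m) :
    (sol U (q * m)).card = ∑ y ∈ sol U m, (sol (U ⊓ C1 y) q).card := by
  classical
  obtain ⟨k, k1, k2⟩ := exists_crt h
  rw [← card_sigma]
  symm
  have key : ∀ x y : G, x ^ q = 1 → y ^ m = 1 → Commute y x → (x * y) ^ k = y := fun x y h1 h2 c => by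
    rw [c.symm.mul_pow, pow_of_dvd h1 k1, pow_of_mod h2 k2, one_mul]
  refine card_bij (fun a _ => a.2 * a.1) (fun a ha => ?_) (fun a ha b hb e => ?_) fun z hz => ?_
  · simp only [mem_sigma, mem_sol, Subgroup.mem_inf, memC] at ha ⊢
    refine ⟨U.mul_mem ha.2.1.1 ha.1.1, ?_⟩
    rw [ha.2.1.2.symm.mul_pow, pow_of_dvd ha.2.2 (dvd_mul_right _ _), pow_of_dvd ha.1.2 (dvd_mul_left _ _), one_mul]
  · simp only [mem_sigma, mem_sol, Subgroup.mem_inf, memC] at ha hb e
    have e1 : a.1 = b.1 := by rw [← key _ _ ha.2.2 ha.1.2 ha.2.1.2, e, key _ _ hb.2.2 hb.1.2 hb.2.1.2]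
    rw [e1] at e
    exact Sigma.ext e1 (heq_of_eq (mul_right_cancel e))
  · rw [mem_sol] at hz
    refine ⟨⟨z ^ k, z * (z ^ k)⁻¹⟩, ?_, by simp⟩
    simp only [mem_sigma, mem_sol, Subgroup.mem_inf, memC]
    refine ⟨⟨U.pow_mem hz.1 k, ?_⟩, ⟨U.mul_mem hz.1 (U.inv_mem (U.pow_mem hz.1 k)),
      ((Commute.refl z).pow_left k).mul_right (Commute.refl _).inv_right⟩, ?_⟩
    · rw [← pow_mul]; exact pow_of_dvd hz.2 (Nat.mul_dvd_mul_right k1 m)
    · rw [((Commute.refl z).pow_right k).inv_right.mul_pow, inv_pow, ← pow_mul, mul_comm k q, pow_mul,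
        pow_of_mod (n := m) (by rw [← pow_mul]; exact hz.2) k2, mul_inv_cancel]

theorem dvd_class_sum (U : Subgroup G) (f : G → ℕ) (q : ℕ) (S : Finset G)
    (hS : ∀ g ∈ U, ∀ y ∈ S, g * y * g⁻¹ ∈ S) (hf : ∀ g ∈ U, ∀ y ∈ S, f (g * y * g⁻¹) = f y)
    (h : ∀ y ∈ S, ∀ c, Nat.card U = c * Nat.card (U ⊓ C1 y : Subgroup G) → q ∣ c * f y) :
    q ∣ ∑ y ∈ S, f y := by
  classical
  induction S using Finset.strongInduction with
  | H S ih =>
  rcases S.eq_empty_or_nonempty with rfl | ⟨y, hy⟩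
  · simp
  set O := S.filter fun s => ∃ g ∈ U, g * y * g⁻¹ = s with hO
  have h1 := Frob.card_orbit_conj U y O fun s => by
    simp only [hO, mem_filter]
    exact ⟨fun e => e.2, fun ⟨g, hg, e⟩ => ⟨e ▸ hS g hg y hy, g, hg, e⟩⟩
  rw [← sum_filter_add_sum_filter_not S fun s => ∃ g ∈ U, g * y * g⁻¹ = s]
  refine dvd_add ?_ (ih _ (filter_ssubset.2 ⟨y, hy, not_not.2 ⟨1, U.one_mem, by simp⟩⟩) (fun g hg s hs => ?_)
    (fun g hg s hs => hf g hg s (mem_filter.1 hs).1) fun s hs => h s (mem_filter.1 hs).1)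
  · rw [sum_const_nat (m := f y) fun s hs => by
      obtain ⟨g, hg, rfl⟩ := (mem_filter.1 hs).2; exact hf g hg y hy]
    exact h y hy _ h1
  · rw [mem_filter] at hs ⊢
    refine ⟨hS g hg s hs.1, fun ⟨a, ha, e⟩ => hs.2 ⟨g⁻¹ * a, U.mul_mem (U.inv_mem hg) ha, ?_⟩⟩
    calc _ = g⁻¹ * (a * y * a⁻¹) * g := by group
      _ = s := by rw [e]; group

theorem card_sol_conj {U : Subgroup G} {g : G} (hg : g ∈ U) (y : G) (q : ℕ) :
    (sol (U ⊓ C1 (g * y * g⁻¹)) q).card = (sol (U ⊓ C1 y) q).card := by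
  symm
  refine card_bij (fun a _ => g * a * g⁻¹) (fun a ha => ?_) (fun a _ b _ e => by simpa using e) fun z hz => ?_
  · simp only [mem_sol, Subgroup.mem_inf, memC] at ha ⊢
    exact ⟨⟨U.mul_mem (U.mul_mem hg ha.1.1) (U.inv_mem hg), commute_conj.2 ha.1.2⟩, by
      rw [conj_pow, ha.2]; simp⟩
  · simp only [mem_sol, Subgroup.mem_inf, memC] at hz ⊢
    refine ⟨g⁻¹ * z * g, ⟨⟨U.mul_mem (U.mul_mem (U.inv_mem hg) hz.1.1) hg, ?_⟩, ?_⟩, by group⟩
    · rw [← commute_conj (g := g)]; convert hz.1.2 using 1; group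
    · have := conj_pow (a := g⁻¹) (b := z) (i := q); rw [inv_inv] at this; rw [this, hz.2]; simp

theorem sol_conj {U : Subgroup G} {m : ℕ} (g : G) (hg : g ∈ U) (y : G) (hy : y ∈ sol U m) :
    g * y * g⁻¹ ∈ sol U m := by
  rw [mem_sol] at hy ⊢
  exact ⟨U.mul_mem (U.mul_mem hg hy.1) (U.inv_mem hg), by rw [conj_pow, hy.2]; simp⟩

theorem gdiv {p a c n s : ℕ} (hp : p.Prime) (hn : n ≠ 0) (h : ∀ b ≤ a, p ^ b ∣ n → p ^ b ∣ s)
    (h1 : p ^ a ∣ c * n) : p ^ a ∣ c * s := by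
  obtain ⟨b, r, h2, rfl⟩ := Nat.exists_eq_pow_mul_and_not_dvd hn p hp.one_lt.ne'
  rcases le_total b a with e | e
  · rw [← mul_assoc] at h1
    exact (Nat.Coprime.dvd_of_dvd_mul_right (Nat.Coprime.pow_left a (hp.coprime_iff_not_dvd.2 h2)) h1).trans
      (Nat.mul_dvd_mul_left c (h b e (dvd_mul_right _ _)))
  · exact (h a le_rfl ((pow_dvd_pow p e).mul_right r)).mul_left c

theorem frob_top {p v m : ℕ} (hp : p.Prime) (hm : ¬ p ∣ m) (hG : Nat.card G = p ^ v * m) (U : Subgroup G) :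
    ∀ b, p ^ b ∣ Nat.card U → p ^ b ∣ (sol U (p ^ v)).card := by
  classical
  induction hn : Nat.card U using Nat.strong_induction_on generalizing U with
  | _ n ih =>
  subst hn
  intro b hb
  have cp : (p ^ v).Coprime m := Nat.Coprime.pow_left v (hp.coprime_iff_not_dvd.2 hm)
  have h1 := card_sol_mul U cp
  rw [Frob.card_sub' U (sol U _) fun g => by
    rw [mem_sol, ← hG]; exact ⟨fun e => e.1, fun e => ⟨e, pow_card_eq_one'⟩⟩,
    ← sum_filter_add_sum_filter_not _ fun y => U ≤ C1 y] at h1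
  let Z : Subgroup G :=
    { carrier := {y | (y ∈ U ∧ y ^ m = 1) ∧ U ≤ C1 y}
      one_mem' := ⟨⟨U.one_mem, one_pow _⟩, fun g _ => memC.2 (Commute.one_left g)⟩
      mul_mem' := fun {a b} ha hb => ⟨⟨U.mul_mem ha.1.1 hb.1.1, by
        rw [(memC.1 (ha.2 hb.1.1)).mul_pow, ha.1.2, hb.1.2, one_mul]⟩,
        fun g hg => memC.2 ((memC.1 (ha.2 hg)).mul_left (memC.1 (hb.2 hg)))⟩
      inv_mem' := fun {a} ha => ⟨⟨U.inv_mem ha.1.1, by rw [inv_pow, ha.1.2, inv_one]⟩,
        fun g hg => memC.2 (memC.1 (ha.2 hg)).inv_left⟩ }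
  have hZ : ¬ p ∣ Nat.card Z := fun e => by
    obtain ⟨z, hz, h2⟩ := exists_ord hp e
    exact hm (h2 ▸ orderOf_dvd_of_pow_eq_one hz.1.2)
  rw [sum_const_nat (m := (sol U (p ^ v)).card) fun s hs => by rw [inf_eq_left.2 (mem_filter.1 hs).2],
    Frob.card_sub' Z _ fun g => by rw [mem_filter, mem_sol]; rfl] at h1
  have h2 : p ^ b ∣ ∑ y ∈ (sol U m).filter fun y => ¬ U ≤ C1 y, (sol (U ⊓ C1 y) (p ^ v)).card := by
    refine dvd_class_sum U _ _ _ (fun g hg y hy => ?_) (fun g hg y _ => card_sol_conj hg y _) fun y hy c e => ?_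
    · rw [mem_filter] at hy ⊢
      refine ⟨sol_conj g hg y hy.1, fun e => hy.2 fun a ha => memC.2 ((commute_conj (g := g)).1 (memC.1 (e ?_)))⟩
      exact U.mul_mem (U.mul_mem hg ha) (U.inv_mem hg)
    · exact gdiv hp (card_pos' _).ne' (fun b' _ => ih _ (card_lt inf_le_left fun e' =>
        (mem_filter.1 hy).2 (inf_eq_left.1 e')) _ rfl b') (e ▸ hb)
  rw [h1, Nat.dvd_add_left h2] at hb
  exact (Nat.Coprime.pow_left b (hp.coprime_iff_not_dvd.2 hZ)).dvd_of_dvd_mul_left hb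

open Classical in
theorem card_gen [Fintype G] (x : G) : (univ.filter fun y => zpowers y = zpowers x).card = (orderOf x).totient := by
  rw [Nat.totient_eq_card_coprime]
  symm
  refine card_bij (fun k _ => x ^ k) (fun k hk => ?_) (fun a ha b hb e => ?_) fun z hz => ?_
  · simp only [mem_filter, mem_univ, true_and] at hk ⊢
    exact le_antisymm (zpowers_le.2 (pow_mem (mem_zpowers x) k))
      (zpowers_le.2 (mem_zpowers_pow_iff.2 hk.2.symm))
  · simp only [mem_filter, mem_range] at ha hb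
    exact pow_injOn_Iio_orderOf ha.1 hb.1 e
  · simp only [mem_filter, mem_univ, true_and] at hz
    obtain ⟨k, hk, rfl⟩ := mem_image.1 (mem_zpowers_iff_mem_range_orderOf.1 (hz.le (mem_zpowers z)))
    exact ⟨k, mem_filter.2 ⟨hk, (Nat.Coprime.symm (mem_zpowers_pow_iff.1 (hz.ge (mem_zpowers x))))⟩, rfl⟩

theorem ord_of_zp {x y : G} (h : zpowers x = zpowers y) : orderOf x = orderOf y := by
  rw [← Nat.card_zpowers, h, Nat.card_zpowers]

open Classical in
theorem totient_dvd [Fintype G] (U : Subgroup G) (n : ℕ) :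
    n.totient ∣ (univ.filter fun y => y ∈ U ∧ orderOf y = n).card := by
  rw [Frob.card_fiber_mul _ ((univ.filter fun y => y ∈ U ∧ orderOf y = n).image zpowers) zpowers n.totient
    (fun a ha => mem_image_of_mem _ ha) fun b hb => ?_]
  · exact dvd_mul_left _ _
  · obtain ⟨x, hx, rfl⟩ := mem_image.1 hb
    simp only [mem_filter, mem_univ, true_and] at hx
    rw [← hx.2, ← card_gen]
    congr 1
    ext y
    simp only [mem_filter, mem_univ, true_and]
    exact ⟨fun e => e.2, fun e => ⟨⟨zpowers_le.2 hx.1 (e.le (mem_zpowers y)), ord_of_zp e⟩, e⟩⟩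

theorem frob_pp {p : ℕ} (hp : p.Prime) (U : Subgroup G) (a : ℕ) :
    ∀ b ≤ a, p ^ b ∣ Nat.card U → p ^ b ∣ (sol U (p ^ a)).card := by
  classical
  have := Fintype.ofFinite G
  obtain ⟨v, m, hm, hG⟩ := Nat.exists_eq_pow_mul_and_not_dvd (Nat.card_pos (α := G)).ne' p hp.one_lt.ne'
  rcases le_total v a with e | e
  · intro b _ hb
    rw [show sol U (p ^ a) = sol U (p ^ v) by
      ext g
      simp only [mem_sol]
      refine and_congr_right fun _ => ⟨fun h => ?_, fun h => pow_of_dvd h (pow_dvd_pow p e)⟩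
      obtain ⟨i, -, hi⟩ := (Nat.dvd_prime_pow hp).1 (orderOf_dvd_of_pow_eq_one h)
      have h1 := orderOf_dvd_natCard g
      rw [hG, hi] at h1
      exact orderOf_dvd_iff_pow_eq_one.1 (hi ▸ (Nat.Coprime.pow_left i
        (hp.coprime_iff_not_dvd.2 hm)).dvd_of_dvd_mul_right h1)]
    exact frob_top hp hm hG U b hb
  induction e using Nat.decreasingInduction with
  | self => exact fun b _ => frob_top hp hm hG U b
  | of_succ a _ ih =>
    intro b hb h1
    have h2 := ih b (by omega) h1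
    have h3 := totient_dvd U (p ^ (a + 1))
    rw [Nat.totient_prime_pow_succ hp] at h3
    rw [← card_filter_add_card_filter_not (p := fun g => g ^ p ^ a = 1),
      show (sol U (p ^ (a + 1))).filter (fun g => g ^ p ^ a = 1) = sol U (p ^ a) by
        ext g
        simp only [mem_filter, mem_sol]
        exact ⟨fun h => ⟨h.1.1, h.2⟩, fun h => ⟨⟨h.1, pow_of_dvd h.2 (pow_dvd_pow p (by omega))⟩, h.2⟩⟩,
      show (sol U (p ^ (a + 1))).filter (fun g => ¬ g ^ p ^ a = 1) =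
          univ.filter fun y => y ∈ U ∧ orderOf y = p ^ (a + 1) by
        have : Fact p.Prime := ⟨hp⟩
        ext g
        simp only [mem_filter, mem_sol, mem_univ, true_and]
        refine ⟨fun h => ⟨h.1.1, orderOf_eq_prime_pow h.2 h.1.2⟩, fun h => ⟨⟨h.1, h.2 ▸ pow_orderOf_eq_one g⟩,
          fun e => ?_⟩⟩
        have := (Nat.pow_dvd_pow_iff_le_right hp.one_lt).1 (h.2 ▸ orderOf_dvd_of_pow_eq_one e)
        omega,
      Nat.dvd_add_left (((pow_dvd_pow p hb).mul_right _).trans h3)] at h2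
    exact h2

/-- the theorem of Frobenius -/
theorem frobenius (U : Subgroup G) {d : ℕ} (hd : d ∣ Nat.card U) : d ∣ (sol U d).card := by
  refine (Nat.dvd_iff_prime_pow_dvd_dvd _ _).2 fun p k hp hk => ?_
  obtain ⟨a, m, hm, rfl⟩ := Nat.exists_eq_pow_mul_and_not_dvd
    (ne_zero_of_dvd_ne_zero (card_pos' U).ne' hd) p hp.one_lt.ne'
  refine ((Nat.Coprime.pow_left k (hp.coprime_iff_not_dvd.2 hm)).dvd_of_dvd_mul_right hk).trans ?_
  rw [card_sol_mul U (Nat.Coprime.pow_left a (hp.coprime_iff_not_dvd.2 hm))]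
  exact dvd_class_sum U _ _ _ sol_conj (fun g hg y _ => card_sol_conj hg y _) fun y _ c e =>
    gdiv hp (card_pos' _).ne' (frob_pp hp _ a) (e ▸ (dvd_mul_right _ _).trans hd)

end Cfsg.Agent.KC
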