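import Cfsg.Agent.KC.Ex
import Cfsg.Agent.KC.Frob

/-! Power maps and local facts for the class data. -/

set_option autoImplicit false
set_option linter.unusedSectionVars false

namespace Cfsg.Agent.KC

open Subgroup Finset Cfsg.Agent.SC3

variable {G : Type*} [Group G] [Finite G]

theorem pow_val_mul (z : G) (a b : ZMod (Nat.card G)) : z ^ (a * b).val = (z ^ b.val) ^ a.val := by
  have : NeZero (Nat.card G) := ⟨Nat.card_pos.ne'⟩
  rw [ZMod.val_mul, ← pow_eq_pow_mod _ pow_card_eq_one', mul_comm, pow_mul]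

theorem pow_val_one (z : G) : z ^ (1 : ZMod (Nat.card G)).val = z := by
  rw [← Nat.cast_one, ZMod.val_natCast, ← pow_eq_pow_mod _ pow_card_eq_one', pow_one]

theorem conj_conj_pow {v y w : G} {n : ℕ} (e : v * y * v⁻¹ = y ^ n) :
    w * v * y * (w * v)⁻¹ = w * y ^ n * w⁻¹ := by rw [← e]; group

/-- the units whose power of `y` is conjugate to `y` -/
def HU (y : G) : Subgroup (ZMod (Nat.card G))ˣ where
  carrier := {u | ∃ w : G, w * y * w⁻¹ = y ^ u.1.val}
  one_mem' := ⟨1, by simp [pow_val_one]⟩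
  mul_mem' := fun {a b} ⟨v, e⟩ ⟨w, f⟩ => ⟨w * v, by
    rw [Units.val_mul, pow_val_mul, ← f, conj_pow, ← conj_conj_pow e]⟩
  inv_mem' := fun {a} ⟨v, e⟩ => ⟨v⁻¹, by
    have h : v * y ^ a⁻¹.1.val * v⁻¹ = y := by
      rw [← conj_pow, e, ← pow_val_mul, Units.inv_mul, pow_val_one]
    generalize y ^ a⁻¹.1.val = z at h ⊢
    rw [← h]; group⟩

/-- power automorphisms -/
noncomputable def pA (y : G) : (ZMod (Nat.card G))ˣ →* MulAut (zpowers y) where
  toFun u :=
    { toFun := fun z => z ^ u.1.val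
      invFun := fun z => z ^ u⁻¹.1.val
      left_inv := fun z => Subtype.ext (by
        simp only [SubmonoidClass.coe_pow]; rw [← pow_val_mul, Units.inv_mul, pow_val_one])
      right_inv := fun z => Subtype.ext (by
        simp only [SubmonoidClass.coe_pow]; rw [← pow_val_mul, Units.mul_inv, pow_val_one])
      map_mul' := fun a b => (show Commute a b from mul_comm' a b).mul_pow _ }
  map_one' := MulEquiv.ext fun z => Subtype.ext (pow_val_one z.1)
  map_mul' a b := MulEquiv.ext fun z => Subtype.ext (pow_val_mul z.1 a.1 b.1)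

omit [Finite G] in
theorem aut_ext {y : G} {φ ψ : MulAut (zpowers y)} (h : φ ⟨y, mem_zpowers y⟩ = ψ ⟨y, mem_zpowers y⟩) : φ = ψ :=
  MulEquiv.ext fun ⟨_, i, e⟩ => by
    subst e
    exact (map_zpow φ (⟨y, mem_zpowers y⟩ : zpowers y) i).trans
      (h ▸ (map_zpow ψ (⟨y, mem_zpowers y⟩ : zpowers y) i).symm)

theorem pA_surj (y : G) : Function.Surjective (pA y) := fun φ => by
  have : NeZero (Nat.card G) := ⟨Nat.card_pos.ne'⟩
  obtain ⟨r, h1, h2⟩ := exists_cop (a := (φ ⟨y, mem_zpowers y⟩).1) (b := y) (eq_of_le_of_card_ge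
    (zpowers_le.2 (φ _).2) (by
      rw [Nat.card_zpowers, Nat.card_zpowers, orderOf_coe, φ.orderOf_eq, ← orderOf_coe]))
  refine ⟨ZMod.unitOfCoprime r h1.symm, aut_ext (Subtype.ext ?_)⟩
  rw [h2]
  show y ^ (ZMod.unitOfCoprime r h1.symm).1.val = _
  rw [ZMod.coe_unitOfCoprime, ZMod.val_natCast, ← pow_eq_pow_mod _ pow_card_eq_one']

theorem HU_eq (y : G) : HU y = (zpowers y).normalizerMonoidHom.range.comap (pA y) := by
  have : NeZero (Nat.card G) := ⟨Nat.card_pos.ne'⟩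
  ext u
  refine ⟨fun ⟨w, e⟩ => ⟨⟨w, cj_eq_iff.1 ?_⟩, aut_ext (Subtype.ext e)⟩, fun ⟨w, e⟩ =>
    ⟨w, congrArg (fun φ : MulAut (zpowers y) => (φ ⟨y, mem_zpowers y⟩).1) e⟩⟩
  rw [← zp_cj, e, zp_cop (ZMod.val_coe_unit_coprime u).symm]

theorem index_HU (y : G) :
    (HU y).index = (orderOf y).totient / Nat.card (zpowers y).normalizerMonoidHom.range := by
  rw [HU_eq, index_comap_of_surjective _ (pA_surj y), ← Nat.card_zpowers, ← IsCyclic.card_mulAut,
    ← card_mul_index (zpowers y).normalizerMonoidHom.range, Nat.mul_div_cancel_left _ Nat.card_pos]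

theorem HU_le (y : G) (d : ℕ) : HU y ≤ HU (y ^ d) := fun u ⟨w, e⟩ =>
  ⟨w, by rw [← conj_pow, e, ← pow_mul, ← pow_mul, mul_comm]⟩

theorem exists_central (U : Subgroup G) {q a : ℕ} (hq : q.Prime) (h : q ^ (a + 1) ∣ Nat.card U) :
    ∃ y ∈ U, orderOf y = q ∧ q ^ (a + 1) ∣ Nat.card (U ⊓ C1 y : Subgroup G) := by
  have := Fact.mk hq
  obtain ⟨P, hP⟩ := Sylow.exists_subgroup_card_pow_prime q h
  have h1 : IsPGroup q P := IsPGroup.of_card hP
  have : Nontrivial P := Finite.one_lt_card_iff_nontrivial.1 (hP ▸ Nat.one_lt_pow a.succ_ne_zero hq.one_lt)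
  have := h1.center_nontrivial
  obtain ⟨z, hz⟩ := exists_prime_orderOf_dvd_card' (G := center P) q
    (((h1.to_subgroup _).card_eq_or_dvd).resolve_left Finite.one_lt_card.ne')
  refine ⟨z.1.1.1, z.1.1.2, by simpa only [orderOf_coe] using hz, ?_⟩
  rw [← hP, ← card_map_of_injective U.subtype_injective]
  refine card_dvd_of_le ?_
  rintro _ ⟨v, hv, rfl⟩
  exact ⟨v.2, mem_centralizer_singleton_iff.2
    (congrArg (fun w : P => w.1.1) (mem_center_iff.1 z.2 ⟨v, hv⟩))⟩

namespace Link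

variable {D : Dat} {x : ℕ → G} {cls : G → ℕ} (L : Link G D x cls)
include L

theorem T_eq {y : G} (hy : y ≠ 1) : D.T (cls y) = (HU y).index := by
  have h := card_Nm_eq y
  rw [L.norc hy, L.cenc hy] at h
  rw [index_HU, Dat.T, L.ordc hy, Nat.eq_of_mul_eq_mul_right (L.cenc hy ▸ Nat.card_pos) h]

omit [Finite G] in
theorem cls_zp {y z : G} (hy : y ≠ 1) {h : G} (e : zpowers z = cj h (zpowers y)) : cls y = cls z :=
  (L.eq y z hy fun f => hy (by
    rw [f, zpowers_one_eq_bot, ← zp_cj, eq_comm, zpowers_eq_bot] at e; simpa using e)).2 ⟨h, e.trans (zp_cj h y).symm⟩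

theorem pow_ne {j d : ℕ} (hj : j < D.n) (h1 : d ∣ D.O j) (h2 : d ≠ D.O j) : x j ^ d ≠ 1 := fun e =>
  h2 (Nat.dvd_antisymm h1 (L.ord j hj ▸ orderOf_dvd_of_pow_eq_one e))

theorem cls_pow {y : G} {d : ℕ} (hy : y ^ d ≠ 1) : D.Q (cls y) d = cls (y ^ d) := by
  have h1 : y ≠ 1 := fun e => hy (by simp [e])
  obtain ⟨h, e⟩ := L.rep h1
  rw [L.pw _ (L.lt y h1), eq_comm]
  refine L.cls_zp hy (h := h⁻¹) ?_
  rw [zp_pow (e.trans (zp_cj h _).symm) d, conj_pow, zp_cj, cj_cj, inv_mul_cancel, cj_one]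

theorem f1 [IsSimpleGroup G] (_h0 : D.F0) (hG : ¬ IsMulCommutative G) : D.F1 := by
  classical
  refine ⟨fun j hj hp => ?_, fun j hj d h1 h2 => ?_, fun j hj a b h1 h2 => ?_, fun j hj q a hq h1 h2 => ?_,
    fun p a hp h => ?_, fun p hp h j hj a ha => ?_, fun p hp h j hj ho => ⟨fun e => ?_, fun l hl hl' => ?_⟩⟩
  · have : IsCyclic (MulAut (zpowers (x j))) := by
      rw [(IsCyclic.mulAutMulEquiv _).isCyclic, Nat.card_zpowers, L.ord j hj]
      exact ZMod.isCyclic_units_prime hp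
    obtain ⟨⟨_, w, rfl⟩, hw⟩ := IsCyclic.exists_ofOrder_eq_natCard (α := (zpowers (x j)).normalizerMonoidHom.range)
    rw [← L.E_eq hj, ← orderOf_coe] at hw
    have h1 : D.E j ∣ orderOf w := hw ▸ orderOf_map_dvd _ w
    have h2 := orderOf_pow_orderOf_div (orderOf_pos w).ne' h1
    rw [← orderOf_coe] at h2
    refine or_iff_not_imp_left.2 fun h3 => ?_
    have h4 := mt orderOf_eq_one_iff.2 (h2 ▸ h3)
    exact ⟨_, L.lt _ h4, (L.ordc h4).symm.trans h2⟩
  · have h3 := L.pow_ne hj h1 h2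
    rw [L.pw j hj]
    refine ⟨L.lt _ h3, ?_, ?_, ?_, ?_⟩
    · rw [← L.ordc h3, orderOf_pow, L.ord j hj, Nat.gcd_eq_right h1, Nat.div_mul_cancel h1]
    · rw [L.T_eq h3, ← L.cx j hj, L.T_eq (L.ne j hj), L.cx j hj]
      exact index_dvd_of_le (HU_le _ d)
    · rw [← L.cenc h3, ← L.cen j hj]
      exact card_dvd_of_le fun g hg => memC.2 ((memC.1 hg).pow_left d)
    · rw [← L.norc h3, ← L.nor j hj]
      refine card_dvd_of_le fun g hg => cj_eq_iff.1 ?_
      rw [← zp_cj, ← conj_pow]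
      exact zp_pow ((zp_cj g _).trans (cj_eq_iff.2 hg)) d
  · rw [L.pw j hj, L.pw j hj, L.cls_pow (by rw [← pow_mul]; exact L.pow_ne hj h1 h2), pow_mul]
  · obtain ⟨y, hy, h3, h4⟩ := exists_central (C1 (x j)) hq (L.cen j hj ▸ h2)
    have hc := memC.1 hy
    have h5 : (orderOf (x j)).Coprime q := by rw [L.ord j hj]; exact (hq.coprime_iff_not_dvd.2 h1).symm
    have h6 : orderOf (x j * y) = q * D.O j := by
      rw [hc.orderOf_mul_eq_mul_orderOf_of_coprime (h3 ▸ h5), h3, L.ord j hj, mul_comm]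
    have h7 : (x j * y) ^ q = x j ^ q := by rw [hc.mul_pow, ← h3, pow_orderOf_eq_one, mul_one]
    have h8 : zpowers (x j ^ q) = zpowers (x j) := le_antisymm (zpowers_le.2 (pow_mem (mem_zpowers _) q))
      (zpowers_le.2 (mem_zpowers_pow_iff.2 h5.symm))
    have h9 : x j ^ q ≠ 1 := fun e => L.ne j hj (by rwa [e, zpowers_one_eq_bot, eq_comm, zpowers_eq_bot] at h8)
    have h10 : x j * y ≠ 1 := fun e => h9 (by rw [← h7, e, one_pow])
    refine ⟨_, L.lt _ h10, (L.ordc h10).symm.trans h6, ?_, ?_⟩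
    · rw [L.cls_pow (h7 ▸ h9), h7, ← L.cls_zp (L.ne j hj) (h8.trans (cj_one _).symm), L.cx j hj]
    · rw [← L.cenc h10]
      exact h4.trans (card_dvd_of_le fun g hg => memC.2 ((memC.1 hg.1).mul_left (memC.1 hg.2)))
  · obtain ⟨y, -, h3, h4⟩ := exists_central (⊤ : Subgroup G) hp (by rwa [card_top, L.card])
    have h5 : y ≠ 1 := fun e => hp.one_lt.ne' (by rw [← h3, e, orderOf_one])
    exact ⟨_, L.lt _ h5, (L.ordc h5).symm.trans h3, by rwa [top_inf_eq, L.cenc h5] at h4⟩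
  · have := Fact.mk hp
    obtain ⟨P, hP⟩ := (IsPGroup.of_card (p := p) (G := zpowers (x j))
      (by rw [Nat.card_zpowers, L.ord j hj, ha])).exists_le_sylow
    have h1 : x j ∈ (P : Subgroup G) := hP (mem_zpowers _)
    have h2 : p ^ 2 ∣ Nat.card P := by
      rw [P.card_eq_multiplicity]
      exact pow_dvd_pow p ((hp.pow_dvd_iff_le_factorization Nat.card_pos.ne').1 (by rwa [L.card, sq]))
    by_contra h3
    obtain ⟨k, hk⟩ := (P.2.to_le (inf_le_left : (P : Subgroup G) ⊓ C1 (x j) ≤ P)).exists_card_eq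
    have h4 : p ^ k ∣ D.C j := by rw [← hk, ← L.cen j hj]; exact card_dvd_of_le inf_le_right
    have h5 : k ≤ 1 := by
      by_contra h6
      exact h3 ((sq p ▸ pow_dvd_pow p (by omega : 2 ≤ k)).trans h4)
    have h6 : ∀ y ∈ (P : Subgroup G) ⊓ C1 (x j), y ≠ 1 → zpowers y = (P : Subgroup G) ⊓ C1 (x j) := fun y hy hy1 => by
      refine eq_of_le_of_card_ge (zpowers_le.2 hy) ?_
      have h7 : orderOf y ∣ p ^ k := by rw [← hk, ← Nat.card_zpowers]; exact card_dvd_of_le (zpowers_le.2 hy)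
      rw [hk, Nat.card_zpowers]
      interval_cases k
      · exact orderOf_pos y
      · rw [pow_one] at h7 ⊢
        exact ((hp.eq_one_or_self_of_dvd _ h7).resolve_left (mt orderOf_eq_one_iff.1 hy1)).ge
    obtain ⟨y, hy, h7, h8⟩ := exists_central (P : Subgroup G) hp (a := (Nat.card G).factorization p - 1) (by
      rw [P.card_eq_multiplicity]
      have := (hp.pow_dvd_iff_le_factorization (k := 2) (Nat.card_pos (α := G)).ne').1 (by rwa [L.card, sq])
      exact pow_dvd_pow p (by omega))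
    have h9 : (P : Subgroup G) ⊓ C1 y = P := eq_of_le_of_card_ge inf_le_left (Nat.le_of_dvd Nat.card_pos (by
      rw [P.card_eq_multiplicity]; exact (pow_dvd_pow p (by omega)).trans h8))
    have h10 : y ∈ (P : Subgroup G) ⊓ C1 (x j) := ⟨hy, memC.2 (memC.1 (h9.ge h1).2).symm⟩
    have h11 : zpowers y = zpowers (x j) := (h6 y h10 fun e => hp.one_lt.ne' (by rw [← h7, e, orderOf_one])).trans
      (h6 _ ⟨h1, memC.2 (Commute.refl _)⟩ (L.ne j hj)).symm
    rw [C1_eq_Ce, h11, ← C1_eq_Ce] at h9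
    rw [h9] at hk
    exact h3 ((sq p ▸ h2).trans (hk ▸ h4))
  · have := Fact.mk hp
    have h1 : Nat.card (zpowers (x j)) = p ^ (Nat.card G).factorization p := by
      have h2 : p ∣ Nat.card G := ho ▸ L.ord j hj ▸ orderOf_dvd_natCard _
      have h3 := (hp.pow_dvd_iff_le_factorization (k := 1) (Nat.card_pos (α := G)).ne').1 (by rwa [pow_one])
      have h4 := mt (hp.pow_dvd_iff_le_factorization (k := 2) (Nat.card_pos (α := G)).ne').2 (by rwa [L.card, sq])
      rw [Nat.card_zpowers, L.ord j hj, ho, show (Nat.card G).factorization p = 1 by omega, pow_one]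
    let P := Sylow.ofCard _ h1
    have h2 : C1 (x j) = Nm (zpowers (x j)) := eq_of_le_of_card_ge (C1_le_Nm _) (by
      rw [L.nor j hj, L.cen j hj, e, one_mul])
    have h3 : normalizer ((P : Subgroup G) : Set G) ≤ centralizer ((P : Subgroup G) : Set G) :=
      (h2.symm.trans (C1_eq_Ce _)).le
    have h4 := MonoidHom.ker_transferSylow_isComplement' P h3
    rcases (MonoidHom.normal_ker (MonoidHom.transferSylow P h3)).eq_bot_or_eq_top with h5 | h5
    · rw [h5, isComplement'_bot_left] at h4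
      have h6 : zpowers (x j) = ⊤ := h4
      refine hG ⟨⟨fun a b => ?_⟩⟩
      obtain ⟨i, rfl⟩ := h6.ge (mem_top a)
      obtain ⟨k, rfl⟩ := h6.ge (mem_top b)
      exact (Commute.refl _).zpow_zpow i k
    · rw [h5, isComplement'_top_left] at h4
      exact L.ne j hj (zpowers_eq_bot.1 h4)
  · have := Fact.mk hp
    have h1 : ∀ j < D.n, D.O j = p → Nat.card (zpowers (x j)) = p ^ (Nat.card G).factorization p := fun j hj ho => by
      have h2 : p ∣ Nat.card G := ho ▸ L.ord j hj ▸ orderOf_dvd_natCard _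
      have h3 := (hp.pow_dvd_iff_le_factorization (k := 1) (Nat.card_pos (α := G)).ne').1 (by rwa [pow_one])
      have h4 := mt (hp.pow_dvd_iff_le_factorization (k := 2) (Nat.card_pos (α := G)).ne').2 (by rwa [L.card, sq])
      rw [Nat.card_zpowers, L.ord j hj, ho, show (Nat.card G).factorization p = 1 by omega, pow_one]
    obtain ⟨g, hg⟩ := MulAction.exists_smul_eq G (Sylow.ofCard _ (h1 l hl hl')) (Sylow.ofCard _ (h1 j hj ho))
    rw [← L.cx l hl, ← L.cx j hj]
    exact L.cls_zp (L.ne l hl) (h := g) (congrArg Sylow.toSubgroup hg).symm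

end Link

end Cfsg.Agent.KC
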