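import Cfsg.Agent.KC.M11P

set_option autoImplicit false

/-! The normaliser of a Sylow 3-subgroup in a group with the local data of `M11`. -/

namespace Cfsg.Agent.KC.M11E

open Subgroup

variable {G : Type*} [Group G]

/-- The local data. -/
structure Hy (G : Type*) [Group G] : Prop where
  card : Nat.card G = 7920
  c2 : ∀ t : G, orderOf t = 2 → Nat.card (centralizer ({t} : Set G)) = 48
  c3 : ∀ t : G, orderOf t = 3 → Nat.card (centralizer ({t} : Set G)) = 18
  c4 : ∀ t : G, orderOf t = 4 → Nat.card (centralizer ({t} : Set G)) = 8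
  no9 : ∀ t : G, orderOf t ≠ 9
  j2 : ∀ t u : G, orderOf t = 2 → orderOf u = 2 → IsConj t u
  j3 : ∀ t u : G, orderOf t = 3 → orderOf u = 3 → IsConj t u

theorem card_orb (K : Subgroup G) (x : G) :
    Nat.card K = {j | ∃ a ∈ K, a * x * a⁻¹ = j}.ncard *
      Nat.card (K ⊓ centralizer {x} : Subgroup G) := by
  letI : MulAction K G := MulAction.compHom G (MulAut.conj.comp K.subtype)
  have h1 : MulAction.stabilizer K x = (K ⊓ centralizer {x}).subgroupOf K := by
    ext ⟨a, ha⟩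
    rw [MulAction.mem_stabilizer_iff, Subgroup.mem_subgroupOf]
    show a * x * a⁻¹ = x ↔ a ∈ K ⊓ centralizer {x}
    rw [mem_inf, mem_centralizer_singleton_iff, mul_inv_eq_iff_eq_mul]; simp [ha]
  have h2 : MulAction.orbit K x = {j | ∃ a ∈ K, a * x * a⁻¹ = j} := by
    ext j; constructor
    · rintro ⟨⟨a, ha⟩, rfl⟩; exact ⟨a, ha, rfl⟩
    · rintro ⟨a, ha, rfl⟩; exact ⟨⟨a, ha⟩, rfl⟩
  rw [← h2, ← MulAction.index_stabilizer, h1,
    ← Nat.card_congr (Subgroup.subgroupOfEquivOfLe inf_le_left).toEquiv, Subgroup.index_mul_card]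

/-- An elementary abelian subgroup of order nine. -/
structure P3 (P : Subgroup G) : Prop where
  card : Nat.card P = 9
  cube : ∀ p ∈ P, p ^ 3 = 1
  comm : ∀ p ∈ P, ∀ q ∈ P, p * q = q * p

theorem ord3 {u : G} (h : u ^ 3 = 1) (h1 : u ≠ 1) : orderOf u = 3 :=
  haveI : Fact (Nat.Prime 3) := ⟨by norm_num⟩
  orderOf_eq_prime h h1

theorem ord2 {u : G} (h : u * u = 1) (h1 : u ≠ 1) : orderOf u = 2 :=
  orderOf_eq_prime (by rw [sq, h]) h1

theorem exists_p3 [Finite G] (H : Hy G) : ∃ P : Subgroup G, P3 P := by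
  haveI : Fact (Nat.Prime 3) := ⟨by norm_num⟩
  obtain ⟨P, hP⟩ := Sylow.exists_subgroup_card_pow_prime (G := G) 3 (n := 2)
    (by rw [H.card]; norm_num)
  refine ⟨P, hP, fun p hp => ?_, fun p hp q hq => ?_⟩
  · have h1 : orderOf p ∣ 3 ^ 2 := hP ▸ P.orderOf_dvd_natCard hp
    obtain ⟨i, hi, e⟩ := (Nat.dvd_prime_pow (by norm_num)).1 h1
    have := H.no9 p
    rw [← orderOf_dvd_iff_pow_eq_one, e]
    interval_cases i <;> simp_all
  · have := (IsPGroup.isMulCommutative_of_card_eq_prime_sq hP).is_comm.comm ⟨p, hp⟩ ⟨q, hq⟩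
    exact congrArg Subtype.val this

theorem P3.le_cent {P : Subgroup G} (hP : P3 P) {u : G} (hu : u ∈ P) : P ≤ centralizer {u} :=
  fun p hp => mem_centralizer_singleton_iff.2 (hP.comm p hp u hu)

theorem P3.mem_of_comm [Finite G] (H : Hy G) {P : Subgroup G} (hP : P3 P) {u w : G} (hu : u ∈ P)
    (h1 : u ≠ 1) (hw : w ^ 3 = 1) (hc : w * u = u * w) : w ∈ P := by
  have hC := H.c3 u (ord3 (hP.cube u hu) h1)
  have h2 : (P.subgroupOf (centralizer {u})).index = 2 := by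
    have := (P.subgroupOf (centralizer {u})).index_mul_card
    rw [Nat.card_congr (Subgroup.subgroupOfEquivOfLe (hP.le_cent hu)).toEquiv, hP.card, hC] at this
    omega
  have h3 : w * w ∈ P :=
    mul_self_mem_of_index_two h2 ⟨w, mem_centralizer_singleton_iff.2 hc⟩
  have : w = w * w * (w * w) := by
    rw [show w * w * (w * w) = w * w ^ 3 by simp only [pow_succ, pow_zero, one_mul, mul_assoc],
      hw, mul_one]
  exact this ▸ P.mul_mem h3 h3

theorem P3.ti [Finite G] (H : Hy G) {P : Subgroup G} (hP : P3 P) {x a : G} (hx : x ∈ P)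
    (h1 : x ≠ 1) (ha : a * x * a⁻¹ ∈ P) : a ∈ normalizer (P : Set G) :=
  mem_normalizer_fintype fun p hp => hP.mem_of_comm H ha (by simpa using h1)
    (by rw [conj_pow, hP.cube p hp]; group)
    (by
      have := hP.comm p hp x hx
      calc a * p * a⁻¹ * (a * x * a⁻¹) = a * (p * x) * a⁻¹ := by group
        _ = a * x * a⁻¹ * (a * p * a⁻¹) := by rw [this]; group)

theorem P3.ncard {P : Subgroup G} (hP : P3 P) : ((P : Set G) \ {1}).ncard = 8 := by
  rw [Set.ncard_sdiff_singleton_of_mem (show (1 : G) ∈ (P : Set G) from P.one_mem),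
    ← Nat.card_coe_set_eq]
  exact congrArg (· - 1) hP.card

theorem P3.exists_ne {P : Subgroup G} (hP : P3 P) : ∃ x ∈ P, x ≠ 1 := by
  obtain ⟨x, hx⟩ := Set.nonempty_of_ncard_ne_zero (s := (P : Set G) \ {1}) (by rw [hP.ncard]; omega)
  exact ⟨x, hx.1, hx.2⟩

theorem P3.card_norm [Finite G] (H : Hy G) {P : Subgroup G} (hP : P3 P) :
    Nat.card (normalizer (P : Set G)) = 144 := by
  obtain ⟨x, hx, h1⟩ := hP.exists_ne
  have h2 : {j | ∃ a ∈ normalizer (P : Set G), a * x * a⁻¹ = j} = (P : Set G) \ {1} := by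
    ext j; constructor
    · rintro ⟨a, ha, rfl⟩
      exact ⟨(ha x).1 hx, by simpa using h1⟩
    · rintro ⟨hj, hj1⟩
      obtain ⟨a, rfl⟩ := isConj_iff.1 (H.j3 x j (ord3 (hP.cube x hx) h1) (ord3 (hP.cube j hj) hj1))
      exact ⟨a, hP.ti H hx h1 hj, rfl⟩
  have h3 : normalizer (P : Set G) ⊓ centralizer {x} = centralizer {x} :=
    inf_eq_right.2 fun a ha => hP.ti H hx h1 (by
      rw [mem_centralizer_singleton_iff.1 ha, mul_inv_cancel_right]; exact hx)
  rw [card_orb _ x, h2, h3, hP.ncard, H.c3 x (ord3 (hP.cube x hx) h1)]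

/-! ### Coordinates -/

/-- Vectors. -/
abbrev V3 : Type := ZMod 3 × ZMod 3

/-- The coordinates of the subgroup of order nine. -/
def ee (x y : G) (v : V3) : G := x ^ v.1.val * y ^ v.2.val

theorem pow_val_add {n : ℕ} [NeZero n] {x : G} (h : x ^ n = 1) (a b : ZMod n) :
    x ^ (a + b).val = x ^ a.val * x ^ b.val := by
  rw [ZMod.val_add, ← pow_eq_pow_mod _ h, pow_add]

section
variable {x y : G} (hx : x ^ 3 = 1) (hy : y ^ 3 = 1) (hc : x * y = y * x)
include hx hy hc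

theorem ee_add (u v : V3) : ee x y (u + v) = ee x y u * ee x y v := by
  have : Commute x y := hc
  simp only [ee, Prod.fst_add, Prod.snd_add, pow_val_add hx, pow_val_add hy, mul_assoc]
  rw [← mul_assoc (y ^ _), ← mul_assoc (x ^ v.1.val), (this.pow_pow _ _).eq]

theorem ee_nsmul (n : ℕ) (v : V3) : ee x y (n • v) = ee x y v ^ n := by
  induction n with
  | zero => simp [ee]
  | succ n ih => rw [succ_nsmul, ee_add hx hy hc, ih, pow_succ]

end

/-- A matrix applied to a vector. -/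
def apM (M : V3 × V3) (v : V3) : V3 := v.1.val • M.1 + v.2.val • M.2

/-- The product of matrices. -/
def mmM (M M' : V3 × V3) : V3 × V3 := (apM M M'.1, apM M M'.2)

/-- The powers of a matrix. -/
def mpM (M : V3 × V3) : ℕ → V3 × V3
  | 0 => ((1, 0), (0, 1))
  | n + 1 => mmM (mpM M n) M

/-- The matrix of a conjugation. -/
def Act (x y a : G) (M : V3 × V3) : Prop := a * x * a⁻¹ = ee x y M.1 ∧ a * y * a⁻¹ = ee x y M.2

theorem ee_10 (x y : G) : ee x y (1, 0) = x := by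
  show x ^ 1 * y ^ 0 = x; simp
theorem ee_01 (x y : G) : ee x y (0, 1) = y := by
  show x ^ 0 * y ^ 1 = y; simp
theorem ee_11 (x y : G) : ee x y (1, 1) = x * y := by
  show x ^ 1 * y ^ 1 = x * y; simp
theorem ee_02 (x y : G) : ee x y (0, 2) = y ^ 2 := by
  show x ^ 0 * y ^ 2 = y ^ 2; simp
theorem ee_21 (x y : G) : ee x y (2, 1) = x ^ 2 * y := by
  show x ^ 2 * y ^ 1 = x ^ 2 * y; simp
theorem ee_00 (x y : G) : ee x y 0 = 1 := by simp [ee]

theorem act_one (x y : G) : Act x y 1 ((1, 0), (0, 1)) := by simp [Act, ee_10, ee_01]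

section
variable {x y : G} (hx : x ^ 3 = 1) (hy : y ^ 3 = 1) (hc : x * y = y * x)
include hx hy hc

theorem Act.ap {a : G} {M : V3 × V3} (h : Act x y a M) (v : V3) :
    a * ee x y v * a⁻¹ = ee x y (apM M v) := by
  rw [apM, ee_add hx hy hc, ee_nsmul hx hy hc, ee_nsmul hx hy hc, ← h.1, ← h.2, conj_pow, conj_pow,
    ee]
  group

theorem Act.mul {a b : G} {M M' : V3 × V3} (h : Act x y a M) (h' : Act x y b M') :
    Act x y (a * b) (mmM M M') := by
  constructor
  · rw [mmM, ← h.ap hx hy hc, ← h'.1]; group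
  · rw [mmM, ← h.ap hx hy hc, ← h'.2]; group

theorem Act.pow {a : G} {M : V3 × V3} (h : Act x y a M) (n : ℕ) : Act x y (a ^ n) (mpM M n) := by
  induction n with
  | zero => rw [pow_zero]; exact act_one x y
  | succ n ih => rw [pow_succ]; exact ih.mul hx hy hc h

theorem ee_inj (h1 : x ≠ 1) (h2 : y ≠ 1) {s : G} (hs : Act x y s ((1, 0), (0, 2))) :
    Function.Injective (ee x y) := by
  have key : ∀ v, ee x y v = 1 → v = 0 := by
    intro v hv
    have h3 := hs.ap hx hy hc v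
    rw [hv, mul_one, mul_inv_cancel] at h3
    have h4 := ee_add hx hy hc v (apM ((1, 0), (0, 2)) v)
    have h5 := ee_add hx hy hc (v + apM ((1, 0), (0, 2)) v) v
    rw [h4, ← h3, hv, mul_one, mul_one] at h5
    rw [← h3, hv, mul_one] at h4
    have h6 : ∀ n : ℕ, ∀ w, ee x y w = 1 → ee x y (n • w) = 1 := fun n w hw => by
      rw [ee_nsmul hx hy hc, hw, one_pow]
    have h7 : ∀ v : V3, v = 0 ∨ (∃ n < 3, n • (v + apM ((1, 0), (0, 2)) v) = (1, 0)) ∨
      (∃ n < 3, n • (v + apM ((1, 0), (0, 2)) v + v) = (0, 1)) := by decide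
    rcases h7 v with h | ⟨n, -, h⟩ | ⟨n, -, h⟩
    · exact h
    · have := h6 n _ h4; rw [h, ee_10] at this; exact absurd this h1
    · have := h6 n _ h5; rw [h, ee_01] at this; exact absurd this h2
  intro u v e
  have := ee_add hx hy hc (u - v) v
  rw [sub_add_cancel, e, right_eq_mul] at this
  exact sub_eq_zero.1 (key _ this)

end

theorem Act.unique {x y a : G} (hi : Function.Injective (ee x y)) {M M' : V3 × V3}
    (h : Act x y a M) (h' : Act x y a M') : M = M' :=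
  Prod.ext (hi (h.1.symm.trans h'.1)) (hi (h.2.symm.trans h'.2))

theorem ee_surj [Finite G] {P : Subgroup G} (hP : P3 P) {x y : G} (hx : x ∈ P) (hy : y ∈ P)
    (hi : Function.Injective (ee x y)) {p : G} (hp : p ∈ P) : ∃ v, ee x y v = p := by
  let f : V3 → P := fun v => ⟨ee x y v, P.mul_mem (P.pow_mem hx _) (P.pow_mem hy _)⟩
  have hf : Function.Injective f := fun u v e => hi (congrArg Subtype.val e)
  have := (Nat.bijective_iff_injective_and_card f).2 ⟨hf, by rw [hP.card]; simp⟩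
  obtain ⟨v, hv⟩ := this.2 ⟨p, hp⟩
  exact ⟨v, congrArg Subtype.val hv⟩

/-- Normal forms in the semidihedral group. -/
def nf (r s : G) (a : ZMod 8 × Bool) : G := r ^ a.1.val * (if a.2 then s else 1)

/-- The complete local configuration at the prime three. -/
structure Cf (P S : Subgroup G) (x y r s : G) : Prop where
  p3 : P3 P
  cardS : Nat.card S = 16
  le : S ≤ normalizer (P : Set G)
  rl : Rl x y r s
  xP : x ∈ P
  yP : y ∈ P
  x1 : x ≠ 1
  rS : r ∈ S
  sS : s ∈ S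
  genP : ∀ p ∈ P, ∃ v, ee x y v = p
  genS : ∀ a ∈ S, ∃ u, nf r s u = a

theorem exists_cf [Finite G] (H : Hy G) : ∃ (P S : Subgroup G) (x y r s : G), Cf P S x y r s := by
  obtain ⟨P, hP⟩ := exists_p3 H
  have hN := hP.card_norm H
  obtain ⟨S0, hS0⟩ := Sylow.exists_subgroup_card_pow_prime (G := normalizer (P : Set G)) 2 (n := 4)
    (by rw [hN]; norm_num)
  obtain ⟨S, hS, hSN⟩ : ∃ S : Subgroup G, Nat.card S = 16 ∧ S ≤ normalizer (P : Set G) :=
    ⟨S0.map (Subgroup.subtype _), by rw [card_map_of_injective (Subgroup.subtype_injective _), hS0]; rfl,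
      map_subtype_le _⟩
  obtain ⟨x, hx, h1⟩ := hP.exists_ne
  have hx3 := hP.cube x hx
  have hsub : {j | ∃ a ∈ S, a * x * a⁻¹ = j} ⊆ (P : Set G) \ {1} := by
    rintro _ ⟨a, ha, rfl⟩
    exact ⟨(hSN ha x).1 hx, by simpa using h1⟩
  have hle := Set.ncard_le_ncard hsub
  have hd1 : Nat.card (S ⊓ centralizer {x} : Subgroup G) ∣ 16 := hS ▸ card_dvd_of_le inf_le_left
  have hd2 : Nat.card (S ⊓ centralizer {x} : Subgroup G) ∣ 18 :=
    H.c3 x (ord3 hx3 h1) ▸ card_dvd_of_le inf_le_right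
  have hd3 : Nat.card (S ⊓ centralizer {x} : Subgroup G) ≤ 2 :=
    Nat.le_of_dvd (by norm_num) (Nat.dvd_gcd hd1 hd2)
  have ho := card_orb S x
  rw [hP.ncard] at hle
  rw [hS] at ho
  have hst : Nat.card (S ⊓ centralizer {x} : Subgroup G) = 2 := by nlinarith
  have horb : {j | ∃ a ∈ S, a * x * a⁻¹ = j} = (P : Set G) \ {1} :=
    Set.eq_of_subset_of_ncard_le hsub (by rw [hP.ncard]; rw [hst] at ho; omega)
  obtain ⟨⟨s, hsS, hsx⟩, hs1, hsu⟩ := (Nat.card_eq_two_iff' (1 : (S ⊓ centralizer {x} : Subgroup G))).1 hst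
  have hs1' : s ≠ 1 := fun e => hs1 (Subtype.ext e)
  have hstab : ∀ a ∈ S, a * x * a⁻¹ = x → a = 1 ∨ a = s := fun a ha e => by
    by_cases h : a = 1
    · exact Or.inl h
    · exact Or.inr (congrArg Subtype.val (hsu ⟨a, ha, mem_centralizer_singleton_iff.2
        (mul_inv_eq_iff_eq_mul.1 e)⟩ fun e' => h (congrArg Subtype.val e')))
  have hsx' : s * x = x * s := mem_centralizer_singleton_iff.1 hsx
  have hs2 : s * s = 1 := by
    rcases hstab (s * s) (S.mul_mem hsS hsS) (by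
      rw [mul_assoc s s, hsx', ← mul_assoc, hsx']; group) with h | h
    · exact h
    · exact absurd (mul_eq_left.1 h) hs1'
  have hsi : s⁻¹ = s := inv_eq_of_mul_eq_one_right hs2
  obtain ⟨w, hw, hw'⟩ : ∃ w ∈ P, s * w * s⁻¹ ≠ w := by
    by_contra! hcon
    have : P ≤ centralizer {s} := fun w hw =>
      mem_centralizer_singleton_iff.2 (mul_inv_eq_iff_eq_mul.1 (hcon w hw)).symm
    have := card_dvd_of_le this
    rw [hP.card, H.c2 s (ord2 hs2 hs1')] at this
    omega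
  obtain ⟨y, hy, hy1, hsy⟩ : ∃ y ∈ P, y ≠ 1 ∧ s * y * s = y⁻¹ := by
    refine ⟨w⁻¹ * (s * w * s⁻¹), P.mul_mem (P.inv_mem hw) ((hSN hsS w).1 hw),
      fun e => hw' (inv_mul_eq_one.1 e).symm, ?_⟩
    rw [hsi]
    calc s * (w⁻¹ * (s * w * s)) * s = s * w⁻¹ * s * w * (s * s) := by group
      _ = s⁻¹ * w⁻¹ * s⁻¹ * w := by rw [hs2, hsi, mul_one]
      _ = _ := by group
  have hy3 := hP.cube y hy
  have hc := hP.comm x hx y hy
  have hyi : y⁻¹ = y ^ 2 := inv_eq_of_mul_eq_one_right (by rw [← hy3]; group)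
  have hxi : x⁻¹ = x ^ 2 := inv_eq_of_mul_eq_one_right (by rw [← hx3]; group)
  have aS : Act x y s ((1, 0), (0, 2)) :=
    ⟨by rw [ee_10, hsx']; group, by rw [ee_02, hsi, hsy, hyi]⟩
  have hi := ee_inj hx3 hy3 hc h1 hy1 aS
  have hfaith : ∀ a ∈ S, Act x y a ((1, 0), (0, 1)) → a = 1 := fun a ha h =>
    (hstab a ha (h.1.trans (ee_10 x y))).resolve_right fun e => by
      subst e; exact absurd (h.unique hi aS) (by decide)
  have h16 : ∀ a ∈ S, ∀ M, Act x y a M → mpM M 16 = ((1, 0), (0, 1)) := fun a ha M h => by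
    have h2 := h.pow hx3 hy3 hc 16
    have h3 : a ^ 16 = 1 := by
      rw [← orderOf_dvd_iff_pow_eq_one, ← hS]; exact S.orderOf_dvd_natCard ha
    rw [h3] at h2
    exact h2.unique hi (act_one x y)
  obtain ⟨r, hrS, aR⟩ : ∃ r ∈ S, Act x y r ((1, 1), (2, 1)) := by
    have : x * y ∈ (P : Set G) \ {1} := ⟨P.mul_mem hx hy, fun e => by
      have := hi (((ee_11 x y).trans e).trans (ee_00 x y).symm)
      exact absurd this (by decide)⟩
    rw [← horb] at this
    obtain ⟨k, hk, e⟩ := this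
    obtain ⟨v, hv⟩ := ee_surj hP hx hy hi ((hSN hk y).1 hy)
    have aK : Act x y k ((1, 1), v) := ⟨e.trans (ee_11 x y).symm, hv.symm⟩
    have aKS := aK.mul hx3 hy3 hc aS
    have h7 : ∀ v : V3, mpM ((1, 1), v) 16 = ((1, 0), (0, 1)) →
        mpM (mmM ((1, 1), v) ((1, 0), (0, 2))) 16 = ((1, 0), (0, 1)) →
        v = (2, 1) ∨ mmM ((1, 1), v) ((1, 0), (0, 2)) = ((1, 1), (2, 1)) := by decide +kernel
    rcases h7 v (h16 _ hk _ aK) (h16 _ (S.mul_mem hk hsS) _ aKS) with h | h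
    · exact ⟨k, hk, h ▸ aK⟩
    · exact ⟨k * s, S.mul_mem hk hsS, h ▸ aKS⟩
  have hr8 : r ^ 8 = 1 := hfaith _ (S.pow_mem hrS 8) (by
    have := aR.pow hx3 hy3 hc 8
    rwa [show mpM ((1, 1), (2, 1)) 8 = ((1, 0), (0, 1)) by decide +kernel] at this)
  have hsrs : s * r * s * r ^ 5 = 1 :=
    hfaith _ (S.mul_mem (S.mul_mem (S.mul_mem hsS hrS) hsS) (S.pow_mem hrS 5)) (by
      have := ((aS.mul hx3 hy3 hc aR).mul hx3 hy3 hc aS).mul hx3 hy3 hc (aR.pow hx3 hy3 hc 5)
      rwa [show mmM (mmM (mmM ((1, 0), (0, 2)) ((1, 1), (2, 1))) ((1, 0), (0, 2)))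
        (mpM ((1, 1), (2, 1)) 5) = ((1, 0), (0, 1)) by decide +kernel] at this)
  refine ⟨P, S, x, y, r, s, hP, hS, hSN, ⟨hx3, hy3, hc, hr8, hs2, ?_, ?_, hsy, ?_, ?_⟩, hx, hy, h1,
    hrS, hsS, fun p hp => ee_surj hP hx hy hi hp, fun a ha => ?_⟩
  · rw [eq_inv_of_mul_eq_one_left hsrs]
    exact inv_eq_of_mul_eq_one_right (by rw [← hr8]; group)
  · rw [hsx', mul_assoc, hs2, mul_one]
  · exact aR.1.trans (ee_11 x y)
  · rw [aR.2, hxi]; exact ee_21 x y
  · obtain ⟨v, hv⟩ := ee_surj hP hx hy hi ((hSN ha x).1 hx)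
    have h7 : ∀ v : V3, v = 0 ∨ ∃ i : ZMod 8, (mpM ((1, 1), (2, 1)) i.val).1 = v := by
      decide +kernel
    rcases h7 v with rfl | ⟨i, rfl⟩
    · rw [ee_00] at hv; exact absurd hv.symm (by simpa using h1)
    · rw [← (aR.pow hx3 hy3 hc i.val).1] at hv
      rcases hstab ((r ^ i.val)⁻¹ * a) (S.mul_mem (S.inv_mem (S.pow_mem hrS _)) ha) (by
        calc (r ^ i.val)⁻¹ * a * x * ((r ^ i.val)⁻¹ * a)⁻¹
            = (r ^ i.val)⁻¹ * (a * x * a⁻¹) * r ^ i.val := by group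
          _ = x := by rw [← hv]; group) with h | h
      · exact ⟨(i, false), by rw [nf, ← inv_mul_eq_one.1 h]; simp⟩
      · exact ⟨(i, true), by rw [nf, ← h]; simp⟩

end Cfsg.Agent.KC.M11E
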