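import Cfsg.Agent.KC.M11E
import Cfsg.Agent.CGT.Mat3
import Cfsg.Agent.Gol.Cert

set_option autoImplicit false

/-! A presentation of `M11` over `3² : SD16`, and the companion presentation of order at most
`5616`. -/

namespace Cfsg.Agent.KC.M11E

open Cfsg.Agent.CGT

/-- The relations of `3² : SD16`. -/
structure Rl {G : Type*} [Group G] (x y r s : G) : Prop where
  x3 : x ^ 3 = 1
  y3 : y ^ 3 = 1
  xy : x * y = y * x
  r8 : r ^ 8 = 1
  s2 : s * s = 1
  srs : s * r * s = r ^ 3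
  sx : s * x * s = x
  sy : s * y * s = y⁻¹
  rx : r * x * r⁻¹ = x * y
  ry : r * y * r⁻¹ = x⁻¹ * y

/-- The relations of the further involution. -/
structure Rg {G : Type*} [Group G] (x r s g : G) (k : ℕ) : Prop where
  g2 : g * g = 1
  gz : g * r ^ 4 * g = s
  gd : (g * r ^ 2 * s) ^ 3 = 1
  gx : g * x * g * r ^ 2 * (g * x⁻¹ * g) = r ^ k * s

variable {G : Type*} [Group G]

/-- The generators. -/
def gam (x y r s g : G) (j : ℕ) : G := [x, y, r, s, g].getD j 1

theorem ext_gam (x y r s g : G) :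
    ext (gam x y r s g) 0 = x ∧ ext (gam x y r s g) 1 = x⁻¹ ∧ ext (gam x y r s g) 2 = y ∧
    ext (gam x y r s g) 3 = y⁻¹ ∧ ext (gam x y r s g) 4 = r ∧ ext (gam x y r s g) 5 = r⁻¹ ∧
    ext (gam x y r s g) 6 = s ∧ ext (gam x y r s g) 8 = g :=
  ⟨ext_two_mul _ 0, ext_two_mul_add_one _ 0, ext_two_mul _ 1, ext_two_mul_add_one _ 1,
    ext_two_mul _ 2, ext_two_mul_add_one _ 2, ext_two_mul _ 3, ext_two_mul _ 4⟩

theorem holds_n {x y r s : G} (g : G) (h : Rl x y r s) : Holds (ext (gam x y r s g)) mn_R := by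
  obtain ⟨e0, e1, e2, e3, e4, e5, e6, e8⟩ := ext_gam x y r s g
  intro w hw
  simp only [mn_R, List.mem_cons, List.not_mem_nil, or_false] at hw
  rcases hw with rfl | rfl | rfl | rfl | rfl | rfl | rfl | rfl | rfl | rfl <;>
    simp only [ev_cons, ev_nil, e0, e1, e2, e3, e4, e5, e6, mul_one]
  · exact h.s2
  · rw [← h.x3]; simp only [pow_succ, pow_zero, one_mul, mul_assoc]
  · rw [← h.y3]; simp only [pow_succ, pow_zero, one_mul, mul_assoc]
  · rw [← mul_assoc, h.xy]; group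
  · rw [← h.r8]; simp only [pow_succ, pow_zero, one_mul, mul_assoc]
  · rw [← mul_assoc, ← mul_assoc, h.srs]; group
  · rw [← mul_assoc, ← mul_assoc, h.sx]; group
  · rw [← mul_assoc, ← mul_assoc, h.sy]; group
  · rw [← mul_assoc, ← mul_assoc, h.rx]; group
  · rw [← mul_assoc, ← mul_assoc, h.ry]; group

theorem holds_g {x y r s g : G} {k : ℕ} (hg : Rg x r s g k) (hs : s * s = 1) :
    Holds (ext (gam x y r s g)) [[8, 8], [8, 4, 4, 4, 4, 8, 6],
      [8, 4, 4, 6, 8, 4, 4, 6, 8, 4, 4, 6]] ∧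
      ev (ext (gam x y r s g)) [8, 0, 8, 4, 4, 8, 1, 8, 6] = r ^ k := by
  obtain ⟨e0, e1, e2, e3, e4, e5, e6, e8⟩ := ext_gam x y r s g
  refine ⟨fun w hw => ?_, ?_⟩
  · simp only [List.mem_cons, List.not_mem_nil, or_false] at hw
    rcases hw with rfl | rfl | rfl <;> simp only [ev_cons, ev_nil, e4, e6, e8, mul_one]
    · exact hg.g2
    · rw [← hs]; nth_rewrite 2 [← hg.gz]; simp only [pow_succ, pow_zero, one_mul, mul_assoc]
    · rw [← hg.gd]; simp only [pow_succ, pow_zero, one_mul, mul_assoc]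
  · simp only [ev_cons, ev_nil, e0, e1, e4, e6, e8, mul_one]
    have : r ^ k = g * x * g * r ^ 2 * (g * x⁻¹ * g) * s := by
      rw [hg.gx, mul_assoc, hs, mul_one]
    rw [this]; simp only [pow_succ, pow_zero, one_mul, mul_assoc]

theorem holds_a {x y r s g : G} (h : Rl x y r s) (hg : Rg x r s g 1) :
    Holds (ext (gam x y r s g)) ma_R := by
  have h1 := holds_n g h
  obtain ⟨h2, h3⟩ := holds_g (y := y) hg h.s2
  intro w hw
  simp only [ma_R, List.mem_cons, List.not_mem_nil, or_false] at hw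
  rcases hw with rfl | rfl | rfl | rfl | rfl | rfl | rfl | rfl | rfl | rfl | rfl | rfl | rfl | rfl
  all_goals first
    | (refine h1 _ ?_; simp [mn_R]; done)
    | (refine h2 _ ?_; simp; done)
    | skip
  have := ev_append (ext (gam x y r s g)) [8, 0, 8, 4, 4, 8, 1, 8, 6] [5]
  rw [h3, ev_singleton, (ext_gam x y r s g).2.2.2.2.2.1] at this
  exact this.trans (by group)

theorem holds_b {x y r s g : G} (h : Rl x y r s) (hg : Rg x r s g 3) :
    Holds (ext (gam x y r s g)) mb_R := by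
  have h1 := holds_n g h
  obtain ⟨h2, h3⟩ := holds_g (y := y) hg h.s2
  intro w hw
  simp only [mb_R, List.mem_cons, List.not_mem_nil, or_false] at hw
  rcases hw with rfl | rfl | rfl | rfl | rfl | rfl | rfl | rfl | rfl | rfl | rfl | rfl | rfl | rfl
  all_goals first
    | (refine h1 _ ?_; simp [mn_R]; done)
    | (refine h2 _ ?_; simp; done)
    | skip
  have := ev_append (ext (gam x y r s g)) [8, 0, 8, 4, 4, 8, 1, 8, 6] [5, 5, 5]
  rw [h3] at this
  simp only [ev_cons, ev_nil, (ext_gam x y r s g).2.2.2.2.2.1] at this ⊢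
  exact this.trans (by group)

theorem bd_n {γ : ℕ → G} (h : Holds (ext γ) mn_R) : Bd (gp γ [0, 2, 4, 6]) 144 := by
  have h1 : Bd (gp γ [4, 6]) 16 :=
    Bd.step (ms_fin (H := ⊥) (fun w hw => h w (by
      simp only [ms_R, List.mem_cons, List.not_mem_nil, or_false] at hw
      rcases hw with rfl | rfl | rfl <;> simp [mn_R])) (by simp [ms_S0])) Bd.bot rfl
  exact Bd.step (mn_fin h (wordsIn_sound γ (by decide +kernel))) h1 rfl

theorem sub_a {γ : ℕ → G} (h : Holds (ext γ) ma_R) : Holds (ext γ) mn_R := fun w hw => h w (by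
  simp only [mn_R, List.mem_cons, List.not_mem_nil, or_false] at hw
  rcases hw with rfl | rfl | rfl | rfl | rfl | rfl | rfl | rfl | rfl | rfl <;> simp [ma_R])

theorem sub_b {γ : ℕ → G} (h : Holds (ext γ) mb_R) : Holds (ext γ) mn_R := fun w hw => h w (by
  simp only [mn_R, List.mem_cons, List.not_mem_nil, or_false] at hw
  rcases hw with rfl | rfl | rfl | rfl | rfl | rfl | rfl | rfl | rfl | rfl <;> simp [mb_R])

theorem bd_a {γ : ℕ → G} (h : Holds (ext γ) ma_R) : Bd (gp γ [0, 2, 4, 6, 8]) 7920 :=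
  Bd.step (ma_fin h (wordsIn_sound γ (by decide +kernel))) (bd_n (sub_a h)) rfl

theorem bd_b {γ : ℕ → G} (h : Holds (ext γ) mb_R) : Bd (gp γ [0, 2, 4, 6, 8]) 5616 :=
  Bd.step (mb_fin h (wordsIn_sound γ (by decide +kernel))) (bd_n (sub_b h)) rfl

theorem gp_top {x y r s g : G}
    (gen : ∀ H : Subgroup G, x ∈ H → y ∈ H → r ∈ H → s ∈ H → g ∈ H → H = ⊤) :
    gp (gam x y r s g) [0, 2, 4, 6, 8] = ⊤ := by
  obtain ⟨e0, e1, e2, e3, e4, e5, e6, e8⟩ := ext_gam x y r s g
  refine gen _ ?_ ?_ ?_ ?_ ?_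
  · exact e0 ▸ ext_mem_gp _ (by simp)
  · exact e2 ▸ ext_mem_gp _ (by simp)
  · exact e4 ▸ ext_mem_gp _ (by simp)
  · exact e6 ▸ ext_mem_gp _ (by simp)
  · exact e8 ▸ ext_mem_gp _ (by simp)

/-- The second case bounds the order by `5616`. -/
theorem card_le_b {x y r s g : G} (h : Rl x y r s) (hg : Rg x r s g 3)
    (gen : ∀ H : Subgroup G, x ∈ H → y ∈ H → r ∈ H → s ∈ H → g ∈ H → H = ⊤) :
    Nat.card G ≤ 5616 := ((bd_b (holds_b h hg)).top (gp_top gen)).2

/-- Words in the generators of `M11`. -/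
def mW : List (List ℕ) := [[0, 8, 2, 4, 6, 4], [8, 2, 6, 1, 4], [0, 6], [4, 6, 4], [0, 0]]

theorem holds_m : Holds (ext (wg Gol.m11_γ mW)) ma_R :=
  relsD_sound Gol.m11_cert.M Gol.m11_cert.base (by decide +kernel) (fun _ _ => trivial)
    (by decide +kernel)

theorem m_ne : wg Gol.m11_γ mW 4 ≠ 1 := fun e => by
  have h1 := Gol.m11_cert.M.ap [0, 0] (i := 5) (by norm_num)
  have h2 : ev (ext Gol.m11_γ) [0, 0] = 1 := e
  rw [h2, map_one] at h1
  exact absurd h1 (by decide +kernel)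

/-- The first case gives `M11`. -/
theorem iso_a [Finite G] [IsSimpleGroup G] (hG : Nat.card G = 7920) {x y r s g : G}
    (h : Rl x y r s) (hg : Rg x r s g 1)
    (gen : ∀ H : Subgroup G, x ∈ H → y ∈ H → r ∈ H → s ∈ H → g ∈ H → H = ⊤) :
    Nonempty (G ≃* ↥Cfsg.Spor.M11) := by
  obtain ⟨f, hf⟩ := hom_of_bound (gp_top gen) hG (bd_a ((holds_a h hg).pair holds_m)) (m := 5)
    (fun j hj => List.getD_eq_default _ _ hj)
    (fun j hj => by rw [wg, nth_eq, List.getD_eq_default _ _ hj]; rfl) (by decide +kernel)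
  have hi : Function.Injective f := by
    rw [← MonoidHom.ker_eq_bot_iff]
    refine (IsSimpleGroup.eq_bot_or_eq_top_of_normal f.ker inferInstance).resolve_right fun e => ?_
    have : gam x y r s g 4 ∈ f.ker := e ▸ Subgroup.mem_top _
    rw [MonoidHom.mem_ker, hf] at this
    exact m_ne this
  haveI := Gol.m11_cert.fin
  exact ⟨MulEquiv.ofBijective f ((Nat.bijective_iff_injective_and_card f).2
    ⟨hi, hG.trans Gol.m11_card.symm⟩)⟩

end Cfsg.Agent.KC.M11E
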