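import Cfsg.Agent.KC.Sem

/-! Small facts on lists of primes. -/

set_option autoImplicit false

namespace Cfsg.Agent.KC

theorem phi_aux {pc : PL} {o : ℕ} (hn : (pc.l.map Prod.fst).Nodup) (hp : ∀ x ∈ pc.l, x.1.Prime ∧ x.1 ∣ o) :
    phi pc o * ∏ p ∈ (pc.l.map Prod.fst).toFinset, p = o * ∏ p ∈ (pc.l.map Prod.fst).toFinset, (p - 1) := by
  induction pc with
  | nil => simp [PL.l, phi]
  | cons p c r ih =>
    obtain ⟨h1, h2⟩ := List.nodup_cons.1 hn
    have h3 := ih h2 fun x hx => hp x (List.mem_cons_of_mem _ hx)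
    obtain ⟨h4, h5⟩ := hp (p, c) List.mem_cons_self
    have h6 : p ∉ (r.l.map Prod.fst).toFinset := fun h => h1 (List.mem_toFinset.1 h)
    have h7 : p ∣ phi r o := by
      refine Nat.Coprime.dvd_of_dvd_mul_right (Nat.Coprime.prod_right fun q hq => ?_) (h3 ▸ h5.mul_right _)
      obtain ⟨x, hx, rfl⟩ := List.mem_map.1 (List.mem_toFinset.1 hq)
      exact (Nat.coprime_primes h4 (hp x (List.mem_cons_of_mem _ hx)).1).2 fun e => h6 ((show p = x.1 from e) ▸ hq)
    change phi r o / p * (p - 1) * ∏ p ∈ (p :: r.l.map Prod.fst).toFinset, p =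
      o * ∏ p ∈ (p :: r.l.map Prod.fst).toFinset, (p - 1)
    rw [List.toFinset_cons, Finset.prod_insert h6, Finset.prod_insert h6, mul_left_comm o, ← h3]
    obtain ⟨u, hu⟩ := h7
    rw [hu, Nat.mul_div_cancel_left _ h4.pos]
    ring

theorem phi_t {pc : PL} {o : ℕ} (hn : (pc.l.map Prod.fst).Nodup) (hp : ∀ x ∈ pc.l, x.1.Prime ∧ x.1 ∣ o)
    (ha : ∀ q, q.Prime → q ∣ o → ∃ c, (q, c) ∈ pc.l) (h0 : o ≠ 0) : phi pc o = o.totient := by
  have h1 : (pc.l.map Prod.fst).toFinset = o.primeFactors := by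
    ext q
    rw [List.mem_toFinset, List.mem_map, Nat.mem_primeFactors]
    exact ⟨fun ⟨x, hx, e⟩ => e ▸ ⟨(hp x hx).1, (hp x hx).2, h0⟩, fun h => (ha q h.1 h.2.1).elim fun c hc => ⟨_, hc, rfl⟩⟩
  have h2 := phi_aux hn hp
  rw [h1, ← Nat.totient_mul_prod_primeFactors] at h2
  exact Nat.eq_of_mul_eq_mul_right (Finset.prod_pos fun q hq => (Nat.prime_of_mem_primeFactors hq).pos) h2

theorem flt_l (PR : PL) (o : ℕ) : (flt PR o).l = PR.l.filter (fun x => x.1 ∣ o) := by
  induction PR with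
  | nil => rfl
  | cons p c r ih =>
    change (Bool.rec (motive := fun _ => PL) (flt r o) (.cons p c (flt r o)) (Nat.beq (Nat.mod o p) 0)).l = _
    psimp
    by_cases h : p ∣ o <;> simp [h, PL.l, ih]

theorem lenP_eq {PR : PL} : lenP PR = PR.l.length := by
  induction PR with
  | nil => rfl
  | cons p c r ih => exact congrArg Nat.succ ih

theorem le_mxP {PR : PL} {x : ℕ × ℕ} (h : x ∈ PR.l) : x.1 ≤ mxP PR := by
  induction PR with
  | nil => simp [PL.l] at h
  | cons p c r ih =>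
    change x.1 ≤ p + (mxP r - p)
    rcases List.mem_cons.1 h with e | e
    · rw [e]; omega
    · have := ih e; omega

end Cfsg.Agent.KC
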