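import Cfsg.Agent.KC.Prog

/-! The search split into chunks. -/

set_option autoImplicit false

namespace Cfsg.Agent.KC

/-- the gate of a chunk -/
noncomputable def gate (n1 i1 n2 i2 n3 i3 : ℕ) (bit h : ℕ) : Bool :=
  Bool.rec (Bool.rec (Bool.rec true (Nat.beq (Nat.mod h n3) i3) (Nat.beq bit (nat_lit 256)))
    (Nat.beq (Nat.mod h n2) i2) (Nat.beq bit (nat_lit 64))) (Nat.beq (Nat.mod h n1) i1) (Nat.beq bit (nat_lit 16))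

/-- one chunk -/
noncomputable def run3 (kk : ℕ) (acc : List (ℕ × List (ℕ × ℕ × ℕ))) (n1 i1 n2 i2 n3 i3 : ℕ) : Bool :=
  p1 (fin kk acc) (gate n1 i1 n2 i2 n3 i3) (nat_lit 12) (nat_lit 1) kk (nat_lit 2) (nat_lit 0) (nat_lit 0)
    (nat_lit 2) (nat_lit 0) EL.nil PL.nil

/-- all chunks succeed -/
def Done (kk : ℕ) (acc : List (ℕ × List (ℕ × ℕ × ℕ))) : Prop :=
  ∃ n1, 0 < n1 ∧ ∀ i1, i1 < n1 → ∃ n2, 0 < n2 ∧ ∀ i2, i2 < n2 → ∃ n3, 0 < n3 ∧ ∀ i3, i3 < n3 →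
    run3 kk acc n1 i1 n2 i2 n3 i3 = true

/-- the surviving class lists -/
def acc9 : List (ℕ × List (ℕ × ℕ × ℕ)) :=
  [(1092, [(2,1,12),(3,1,6),(6,1,6),(7,3,7),(13,2,13)]),
   (2520, [(2,1,24),(3,1,9),(3,1,36),(4,1,4),(5,1,5),(6,1,12),(7,2,7)])]

/-- the surviving class lists -/
def acc10 : List (ℕ × List (ℕ × ℕ × ℕ)) :=
  [(7920, [(2,1,48),(3,1,18),(4,1,8),(4,2,8),(5,1,5),(6,1,6),(8,2,8),(11,2,11)])]

end Cfsg.Agent.KC
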