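import Cfsg.Agent.KC.Leaf
import Cfsg.Agent.KC.Run
import Cfsg.Agent.KC.Phi

/-! Soundness of the search over element orders. -/

set_option autoImplicit false

namespace Cfsg.Agent.KC

open Finset

/-- invariant of the first phase -/
structure I1 (D : Dat) (s : St) (f : ℕ → ℕ) (j last lt c2 w : ℕ) (PR : PL) : Prop where
  le : j ≤ D.n
  st : ∀ i < j, StOK D s i ∧ f i ∣ D.C i ∧ D.O i ≤ last
  nx : j < D.n → last ≤ D.O j ∧ (D.O j = last → lt ≤ D.T j)
  two : 2 ≤ last
  ok : ∀ x ∈ PR.l, CapOK D x.1 x.2 ∧ ∃ i < j, D.O i = x.1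
  nd : (PR.l.map Prod.fst).Nodup
  all : ∀ i < j, (D.O i).Prime → ∃ c, (D.O i, c) ∈ PR.l
  w1 : ∃ a, w = 2 ^ (a + 1)
  w2 : ∀ i < j, D.O i ≠ w
  c2 : ∀ a, 2 ^ (a + 1) * 2 ≤ c2 → ∃ l < D.n, D.O l = 2 ^ (a + 1)

/-- the number of remaining classes -/
def rm (D : Dat) (j : ℕ) : ℕ := ∑ i ∈ Ico j D.n, D.T i

/-- a valid state on level `j` is reached -/
def Nx (D : Dat) (j : ℕ) (X : K1 → Prop) : Prop :=
  ∃ s f last lt c2 w h PR, I1 D s f j last lt c2 w PR ∧
    ∀ ih, X ih → ih (2 ^ j) (rm D j) last lt c2 w h (mE D s f (List.range j).reverse) PR = true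

variable {D : Dat} {s : St} {f : ℕ → ℕ} {j last lt c2 w : ℕ} {PR : PL}

theorem Nx.mono {X Y : K1 → Prop} (h : Nx D j X) (hy : ∀ ih, Y ih → X ih) : Nx D j Y := by
  obtain ⟨s, f, last, lt, c2, w, h, PR, I, e⟩ := h
  exact ⟨s, f, last, lt, c2, w, h, PR, I, fun ih y => e ih (hy ih y)⟩

theorem rm_succ (hj : j < D.n) : rm D j = D.T j + rm D (j + 1) := sum_eq_sum_Ico_succ_bot hj _

theorem add_t (H : All D) (I : I1 D s f j last lt c2 w PR) (hj : j < D.n) {lb an bp c2' : ℕ} {pc PR' : PL}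
    (h1 : lb ∣ D.C j) (h2 : StOK D ⟨fun _ => an, fun _ => bp, fun _ => pc⟩ j)
    (h3 : ∀ x ∈ PR'.l, CapOK D x.1 x.2 ∧ ∃ i < j + 1, D.O i = x.1) (h4 : (PR'.l.map Prod.fst).Nodup)
    (h5 : ∀ i < j + 1, (D.O i).Prime → ∃ c, (D.O i, c) ∈ PR'.l)
    (h6 : ∀ a, 2 ^ (a + 1) * 2 ≤ c2' → ∃ l < D.n, D.O l = 2 ^ (a + 1)) (h : ℕ) :
    Nx D (j + 1) fun ih => add ih (2 ^ j) (rm D j) c2' w h (mE D s f (List.range j).reverse) (D.O j) (D.T j)
      (D.E j) lb an bp pc PR' = true := by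
  have hl := (I.nx hj).1
  refine ⟨⟨Function.update s.an j an, Function.update s.bp j bp, Function.update s.pc j pc⟩,
    Function.update (fun i => if an.testBit i = true then (f i).lcm lb else f i) j lb, D.O j, D.T j, c2',
    if D.O j = w then w * 2 else w, h * 31 + D.O j + 7 * D.T j + lb + 3 * an, PR',
    ⟨hj, fun i hi => ?_, fun h => ?_, H.f0.two j hj, h3, h4, h5, ?_, fun i hi => ?_, h6⟩, fun ih h => ?_⟩
  · rcases Nat.lt_succ_iff_lt_or_eq.1 hi with e | rfl
    · obtain ⟨⟨a1, a2, a3, a4⟩, a5, a6⟩ := I.st i e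
      refine ⟨⟨?_, ?_, ?_, ?_⟩, ?_, a6.trans hl⟩ <;> simp only [Function.update_of_ne e.ne]
      exacts [a1, a2, a3, a4, by
        split_ifs with e1
        exacts [Nat.lcm_dvd a5 (h1.trans (H.f1.anc hj ((h2.an i).1 e1)).2.2.1), a5]]
    · obtain ⟨a1, a2, a3, a4⟩ := h2
      refine ⟨⟨?_, ?_, ?_, ?_⟩, ?_, le_rfl⟩ <;> simp only [Function.update_self]
      exacts [a1, a2, a3, a4, h1]
  · have := H.f0.srt j (j + 1) (Nat.le_succ j) h
    omega
  · obtain ⟨a, rfl⟩ := I.w1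
    split_ifs
    exacts [⟨a + 1, (pow_succ _ _).symm⟩, ⟨a, rfl⟩]
  · have h7 : D.O i ≤ D.O j := by have := H.f0.srt i j (by omega) hj; omega
    have h8 := H.f0.two j hj
    split_ifs with e
    · omega
    · rcases Nat.lt_succ_iff_lt_or_eq.1 hi with e1 | rfl
      exacts [I.w2 i e1, e]
  · unfold add at h
    rw [brec, updM_mk] at h
    simp only [Nat.beq_eq] at h
    rw [List.range_succ, List.reverse_append, List.reverse_singleton, List.singleton_append, mE, pow_succ,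
      show rm D (j + 1) = rm D j - D.T j by rw [rm_succ hj]; omega, mk_congr (s' := s)
        (f' := fun i => if an.testBit i = true then (f i).lcm lb else f i) fun i hi => by
          simp only [Function.update_of_ne (List.mem_range.1 (List.mem_reverse.1 hi)).ne, and_self]]
    simp only [Function.update_self]
    exact h

theorem parl_t {js : List ℕ} {o t p an i : ℕ} {ih : ℕ → Bool} (hi : i ∈ js) (h1 : D.O i * p = o) (h2 : D.T i ∣ t)
    (h : parl o t p an ih (mE D s f js) = true) : ih (an ||| (2 ^ i ||| s.an i)) = true := by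
  induction js with
  | nil => simp at hi
  | cons x js iv =>
    have h' : (Bool.rec (motive := fun _ => Bool) false (parl o t p an ih (mE D s f js)) _) = true := h
    psimp at h'
    rcases List.mem_cons.1 hi with e | e
    exacts [e ▸ h'.1 (e ▸ h1) (e ▸ h2), iv e h'.2]

theorem par_t {js : List ℕ} {o t : ℕ} {Q : ℕ → ℕ} (pc : PL)
    (hq : ∀ x ∈ pc.l, Q x.1 ∈ js ∧ D.O (Q x.1) * x.1 = o ∧ D.T (Q x.1) ∣ t) (a0 : ℕ) :
    ∃ an : ℕ, (∀ i, an.testBit i = true ↔ a0.testBit i = true ∨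
      ∃ x ∈ pc.l, Q x.1 = i ∨ (s.an (Q x.1)).testBit i = true) ∧
      ∀ k, par (mE D s f js) o t k pc a0 = true → k an = true := by
  induction pc generalizing a0 with
  | nil => exact ⟨a0, by simp [PL.l], fun k h => h⟩
  | cons p c r ih =>
    obtain ⟨h1, h2, h3⟩ := hq (p, c) List.mem_cons_self
    obtain ⟨an, h4, h5⟩ := ih (fun x hx => hq x (List.mem_cons_of_mem _ hx)) (a0 ||| (2 ^ Q p ||| s.an (Q p)))
    refine ⟨an, fun i => ?_, fun k h => h5 k (parl_t (ih := par (mE D s f js) o t k r) h1 h2 h3 h)⟩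
    rw [h4]
    simp only [PL.l, Nat.testBit_or, Nat.testBit_two_pow, Bool.or_eq_true, decide_eq_true_eq,
      List.exists_mem_cons_iff, or_assoc]

theorem sub_lt (H : All D) (hj : j < D.n) {d : ℕ} (h1 : d ∣ D.O j) (h2 : d ≠ D.O j) (h3 : d ≠ 1) :
    D.Q j d < j := by
  obtain ⟨h4, h5, -⟩ := H.f1.pw j hj d h1 h2
  have h6 := H.f0.two _ h4
  have h7 := H.f0.two _ hj
  refine H.f0.lt h4 ?_
  rw [← h5] at h7 ⊢
  refine (Nat.lt_mul_iff_one_lt_right (by omega)).2 ?_
  rcases d with _ | d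
  · simp at h7
  · omega

theorem I1.listed (I : I1 D s f j last lt c2 w PR) (H : All D) (hj : j < D.n) {q : ℕ} (hq : q.Prime)
    (h1 : q ∣ D.O j) (h2 : q ≠ D.O j) : ∃ c, (q, c) ∈ PR.l := by
  obtain ⟨d, hd⟩ := h1
  have h3 := H.f0.two j hj
  have h0 : 0 < d := Nat.pos_of_ne_zero fun e => by simp [e] at hd; omega
  have h4 : d ≠ D.O j := (hd ▸ (Nat.lt_mul_iff_one_lt_left h0).2 hq.one_lt).ne
  have h5 := (H.f1.pw j hj d ⟨q, by rw [hd, mul_comm]⟩ h4).2.1
  rw [hd, Nat.mul_left_inj h0.ne'] at h5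
  have := I.all _ (sub_lt H hj ⟨q, by rw [hd, mul_comm]⟩ h4 fun e => h2 (by rw [hd, e, mul_one])) (h5 ▸ hq)
  rwa [h5] at this

theorem mem_flt {o : ℕ} {x : ℕ × ℕ} : x ∈ (flt PR o).l ↔ x ∈ PR.l ∧ x.1 ∣ o := by simp [flt_l]

theorem I1.ok' (I : I1 D s f j last lt c2 w PR) : ∀ x ∈ PR.l, CapOK D x.1 x.2 ∧ ∃ i < j + 1, D.O i = x.1 :=
  fun x hx => ⟨(I.ok x hx).1, (I.ok x hx).2.imp fun _ h => ⟨h.1.trans (Nat.lt_succ_self _), h.2⟩⟩

theorem tlt (H : All D) (hj : j < D.n) : D.T j - 1 < rm D j ∧ D.T j - 1 + 1 = D.T j := by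
  have := H.f0.tpos hj
  rw [rm_succ hj]
  omega

theorem cmp_t (H : All D) (I : I1 D s f j last lt c2 w PR) (hj : j < D.n) (hp : ¬ (D.O j).Prime) {lb bp : ℕ}
    (h1 : lb ∣ D.C j) (h2 : bp = 1 ∨ bp.Prime ∧ ∃ a, D.O j = bp ^ a) (h : ℕ) :
    Nx D (j + 1) fun ih => cmp ih (2 ^ j) (rm D j) last lt c2 w h (mE D s f (List.range j).reverse) PR (D.O j)
      (flt PR (D.O j)) lb bp = true := by
  have hne : ∀ q, q.Prime → q ≠ D.O j := fun q hq e => hp (e ▸ hq)
  have hal : ∀ q, q.Prime → q ∣ D.O j → ∃ c, (q, c) ∈ (flt PR (D.O j)).l := fun q hq hd =>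
    (I.listed H hj hq hd (hne q hq)).imp fun c hc => mem_flt.2 ⟨hc, hd⟩
  have hpr : ∀ x ∈ (flt PR (D.O j)).l, x.1.Prime ∧ x.1 ∣ D.O j := fun x hx =>
    ⟨(I.ok x (mem_flt.1 hx).1).1.pr, (mem_flt.1 hx).2⟩
  have h0 := H.f0.two j hj
  obtain ⟨an, h3, h4⟩ := par_t (D := D) (s := s) (f := f) (js := (List.range j).reverse) (o := D.O j) (t := D.T j)
    (Q := D.Q j) (flt PR (D.O j)) (fun x hx => by
      obtain ⟨a1, a2⟩ := hpr x hx
      obtain ⟨-, a3, a4, -⟩ := H.f1.pw j hj _ a2 (hne _ a1)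
      exact ⟨List.mem_reverse.2 (List.mem_range.2 (sub_lt H hj a2 (hne _ a1) a1.one_lt.ne')), a3, a4⟩) 0
  refine (add_t H I hj (an := an) (bp := bp) (pc := flt PR (D.O j)) h1 ⟨fun i => ?_, h2,
    fun x hx => (I.ok x (mem_flt.1 hx).1).1, hal⟩ I.ok' I.nd (fun i hi hq => I.all i ?_ hq) I.c2 h).mono
    fun ih h => ?_
  · simp only [h3, Nat.zero_testBit, Bool.false_eq_true, false_or]
    constructor
    · rintro ⟨x, hx, h5⟩
      obtain ⟨a1, a2⟩ := hpr x hx
      have a3 := (H.f1.pw j hj _ a2 (hne _ a1)).2.1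
      rcases h5 with h5 | h5
      · exact ⟨x.1, mem_range.2 ((Nat.le_of_dvd (by omega) a2).lt_of_ne (hne _ a1)), a1.one_lt, a2, h5⟩
      · obtain ⟨d, b1, b2, b3, b4⟩ := ((I.st _ (sub_lt H hj a2 (hne _ a1) a1.one_lt.ne')).1.an i).1 h5
        have b5 : x.1 * d < D.O j := by
          rw [← a3, mul_comm]; exact Nat.mul_lt_mul_of_pos_right (mem_range.1 b1) a1.pos
        have b6 : x.1 * d ∣ D.O j := by rw [← a3, mul_comm]; exact Nat.mul_dvd_mul_right b3 _
        exact ⟨x.1 * d, mem_range.2 b5, one_lt_mul'' a1.one_lt b2, b6, (H.f1.pp j hj _ _ b6 b5.ne).symm.trans b4⟩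
    · rintro ⟨d, b1, b2, b3, b4⟩
      obtain ⟨q, hq, u, rfl⟩ := Nat.exists_prime_and_dvd b2.ne'
      have a2 := (Dvd.intro _ rfl).trans b3
      obtain ⟨c, hc⟩ := hal q hq a2
      have a3 := (H.f1.pw j hj _ a2 (hne _ hq)).2.1
      refine ⟨(q, c), hc, ?_⟩
      by_cases e : u = 1
      · exact Or.inl (by rw [← b4, e, mul_one])
      · refine Or.inr (((I.st _ (sub_lt H hj a2 (hne _ hq) hq.one_lt.ne')).1.an i).2 ⟨u, mem_range.2 ?_, ?_, ?_,
          (H.f1.pp j hj _ _ b3 (mem_range.1 b1).ne).trans b4⟩)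
        · have := mem_range.1 b1
          rw [← a3, mul_comm] at this
          exact Nat.lt_of_mul_lt_mul_right this
        · rcases u with _ | u
          · simp at b2
          · omega
        · rw [← a3, mul_comm] at b3
          exact Nat.dvd_of_mul_dvd_mul_right hq.pos b3
  · exact (Nat.lt_succ_iff_lt_or_eq.1 hi).resolve_right fun e => hp (e ▸ hq)
  · unfold cmp at h
    have h5 := allLt_t h (tlt H hj).1
    rw [phi_t ?_ hpr hal (by omega)] at h5
    · psimp at h5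
      rw [(tlt H hj).2, ← H.f0.te hj, Nat.mul_div_cancel_left _ (H.f0.tpos hj)] at h5
      exact h4 _ (h5 (Dvd.intro _ rfl) (by have := I.nx hj; omega))
    · rw [flt_l]
      exact I.nd.sublist (List.filter_sublist.map _)

theorem prm (H : All D) (hj : j < D.n) (hp : (D.O j).Prime) : D.T j ∣ D.O j - 1 ∧ (D.O j - 1) / D.T j = D.E j ∧
    (D.E j = 1 ∨ ∃ l < j, D.O l = D.E j) ∧ ∀ i, (Nat.testBit 0 i = true ↔ D.A j i) := by
  have h1 := H.f0.te hj
  rw [Nat.totient_prime hp] at h1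
  refine ⟨Dvd.intro _ h1, by rw [← h1, Nat.mul_div_cancel_left _ (H.f0.tpos hj)],
    (H.f1.eo j hj hp).imp_right fun ⟨l, h2, h3⟩ => ⟨l, H.f0.lt h2 (by
      have := Nat.le_of_dvd (by have := hp.two_le; omega) (Dvd.intro_left _ h1)
      have := hp.two_le
      omega), h3⟩, fun i => ?_⟩
  simp only [Nat.zero_testBit, Bool.false_eq_true, false_iff]
  rintro ⟨d, b1, b2, b3, -⟩
  have := mem_range.1 b1
  rcases (Nat.dvd_prime hp).1 b3 with e | e <;> omega

theorem has (h : D.E j = 1 ∨ ∃ l < j, D.O l = D.E j) :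
    D.E j = 1 ∨ hasO (mE D s f (List.range j).reverse) (D.E j) = true :=
  h.imp_right fun ⟨_, h1, h2⟩ => h2 ▸ hasO_mk (List.mem_reverse.2 (List.mem_range.2 h1))

theorem new_t (H : All D) (I : I1 D s f j last lt c2 w PR) (hj : j < D.n) (hp : (D.O j).Prime)
    (hn : ∀ x ∈ PR.l, x.1 ≠ D.O j) {cap lb c2' : ℕ} (hc : CapOK D (D.O j) cap) (h1 : lb ∣ D.C j)
    (h6 : ∀ a, 2 ^ (a + 1) * 2 ≤ c2' → ∃ l < D.n, D.O l = 2 ^ (a + 1)) (h : ℕ) :
    Nx D (j + 1) fun ih => add ih (2 ^ j) (rm D j) c2' w h (mE D s f (List.range j).reverse) (D.O j) (D.T j)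
      (D.E j) lb 0 (D.O j) (.cons (D.O j) cap .nil) (.cons (D.O j) cap PR) = true := by
  refine add_t H I hj (PR' := .cons (D.O j) cap PR) h1 ⟨(prm H hj hp).2.2.2, Or.inr ⟨hp, 1, (pow_one _).symm⟩, by simpa [PL.l] using hc,
    fun q hq hd => ⟨cap, by simp [PL.l, (Nat.prime_dvd_prime_iff_eq hq hp).1 hd]⟩⟩
    (List.forall_mem_cons.2 ⟨⟨hc, j, Nat.lt_succ_self _, rfl⟩, I.ok'⟩) ?_ (fun i hi hq => ?_) h6 h
  · refine List.nodup_cons.2 ⟨fun h => ?_, I.nd⟩
    obtain ⟨x, hx, e⟩ := List.mem_map.1 h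
    exact hn x hx e
  · rcases Nat.lt_succ_iff_lt_or_eq.1 hi with e | rfl
    exacts [(I.all i e hq).imp fun c hc => List.mem_cons_of_mem _ hc, ⟨cap, List.mem_cons_self⟩]

theorem sq_eq (p : ℕ) : sq p = if p = 2 then 8 else p * p := by
  unfold sq; rw [brec]; simp only [Nat.beq_eq]; rfl

theorem I1.ple (I : I1 D s f j last lt c2 w PR) (H : All D) (hj : j < D.n) (hp : (D.O j).Prime) :
    D.O j ≤ rm D j * last + 1 := by
  obtain ⟨-, -, h1, -⟩ := prm H hj hp
  have h2 := H.f0.te hj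
  rw [Nat.totient_prime hp] at h2
  have h3 : D.E j ≤ last := by
    rcases h1 with e | ⟨l, h3, e⟩
    exacts [by have := I.two; omega, e ▸ (I.st l h3).2.2]
  have := Nat.mul_le_mul (show D.T j ≤ rm D j by have := tlt H hj; omega) h3
  omega

theorem newP_t (H : All D) (I : I1 D s f j last lt c2 w PR) (hj : j < D.n) (hp : (D.O j).Prime)
    (hn : ∀ x ∈ PR.l, x.1 ≠ D.O j) (h : ℕ) :
    Nx D (j + 1) fun ih => newP ih (2 ^ j) (rm D j) last c2 w h (mE D s f (List.range j).reverse) PR (D.O j) = true := by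
  obtain ⟨h1, h2, h3, -⟩ := prm H hj hp
  have hg : D.O j ∣ D.g := (H.f0.odvd j hj).trans (H.f0.cd hj)
  have key : ∀ ih, newP ih (2 ^ j) (rm D j) last c2 w h (mE D s f (List.range j).reverse) PR (D.O j) = true →
      add ih (2 ^ j) (rm D j) c2 w h (mE D s f (List.range j).reverse) (D.O j) (D.T j) (D.E j) (sq (D.O j)) 0
        (D.O j) (.cons (D.O j) 0 .nil) (.cons (D.O j) 0 PR) = true ∧
      (if D.O j = 2 then allLt (rm D j) fun z => add ih (2 ^ j) (rm D j) (2 ^ (z + 2)) w h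
        (mE D s f (List.range j).reverse) (D.O j) (D.T j) (D.E j) (2 ^ (z + 2)) 0 (D.O j)
        (.cons (D.O j) (2 ^ (z + 2)) .nil) (.cons (D.O j) (2 ^ (z + 2)) PR) else
      if D.E j = 1 then true else add ih (2 ^ j) (rm D j) c2 w h (mE D s f (List.range j).reverse) (D.O j)
        (D.T j) (D.E j) (D.O j) 0 (D.O j) (.cons (D.O j) (D.O j) .nil) (.cons (D.O j) (D.O j) PR)) = true :=
    fun ih h => by
      unfold newP at h
      rw [brec, imp_t, brec, imp_t] at h
      have h4 := allLt_t (h (by psimp; exact I.ple H hj hp) (by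
        psimp
        refine or_iff_not_imp_right.2 fun e => ?_
        have := Nat.ModEq.pow_totient ((Nat.coprime_primes Nat.prime_two hp).2 (Ne.symm e))
        rw [Nat.totient_prime hp, Nat.ModEq, Nat.mod_eq_of_lt hp.one_lt] at this
        exact this)) (tlt H hj).1
      simp only [brec, dv, md, pw, and_t, or_t, imp_t, Nat.add_eq, Nat.sub_eq, Nat.beq_eq,
        Nat.succ_eq_add_one, mod0, (tlt H hj).2] at h4
      have h5 := h4 h1
      rw [show (D.O j - nat_lit 1) / D.T j = D.E j from h2] at h5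
      exact h5 (has h3)
  by_cases e : D.O j = 2
  · rcases H.f2.mode (e ▸ hg) with m | ⟨c, m1, m2, m3, m4, m5⟩
    · exact (new_t H I hj hp hn ⟨hp, hg, fun _ l hl a ha => by rw [sq_eq, if_pos e]; exact (m l hl a (e ▸ ha)).1,
        fun _ _ l hl a ha => (m l hl a ha).2, by simp, by simp, by simp, by simp⟩
        (by rw [sq_eq, if_pos e]; exact (m j hj 1 e).1) I.c2 h).mono fun ih h => (key ih h).1
    · have h0 : (2 : ℕ) ^ (c + 2) ≠ 0 := by positivity
      refine (new_t H I hj hp hn (cap := 2 ^ (c + 2)) (lb := 2 ^ (c + 2)) (c2' := 2 ^ (c + 2))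
        ⟨hp, hg, fun h => absurd h h0, fun h => absurd h h0, fun _ => m1, fun _ => by rw [e, ← pow_succ]; exact m2,
          fun _ => e ▸ m5, fun _ l hl _ _ _ => m4 l hl⟩ ?_ (fun a ha => m3 a ?_) h).mono fun ih h => ?_
      · obtain ⟨l, b1, b2, b3⟩ := H.f1.cen 2 (c + 1) Nat.prime_two m1
        exact m5 l b1 j hj b2 e ▸ b3
      · rw [← pow_succ, Nat.pow_le_pow_iff_right one_lt_two] at ha
        omega
      · have h5 := (key ih h).2
        rw [if_pos e] at h5
        refine allLt_t h5 ?_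
        have j0 : j = 0 := by
          by_contra j0
          have b1 := (I.st 0 (by omega)).2.2
          have b2 := (I.nx hj).1
          have b3 := H.f0.two 0 (by omega)
          have b4 : D.O 0 = D.O j := by omega
          obtain ⟨c, hc⟩ := I.all 0 (by omega) (b4 ▸ hp)
          exact hn _ hc b4
        have b1 : (range (c + 1)).image (fun i => 2 ^ (i + 1)) ⊆ (range D.n).image D.O := fun x hx => by
          obtain ⟨i, hi, rfl⟩ := mem_image.1 hx
          obtain ⟨l, hl, e⟩ := m3 i (Nat.lt_succ_iff.1 (mem_range.1 hi))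
          exact mem_image.2 ⟨l, mem_range.2 hl, e⟩
        have b2 := (card_le_card b1).trans card_image_le
        rw [card_image_of_injective _ fun a b h => by simpa using h, card_range, card_range] at b2
        have b3 := card_nsmul_le_sum (Ico j D.n) D.T 1 fun i hi => H.f0.tpos (mem_Ico.1 hi).2
        rw [Nat.card_Ico, smul_eq_mul] at b3
        change _ ≤ rm D j at b3
        omega
  · by_cases e1 : D.O j * D.O j ∣ D.g
    · have b1 := H.f1.big _ hp e1
      exact (new_t H I hj hp hn ⟨hp, hg, fun _ l hl a ha => by rw [sq_eq, if_neg e]; exact b1 l hl a ha,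
        fun _ h => absurd h e, by simp, by simp, by simp, by simp⟩
        (by rw [sq_eq, if_neg e]; exact b1 j hj 1 (pow_one _).symm) I.c2 h).mono fun ih h => (key ih h).1
    · have b1 := H.f1.small _ hp e1
      refine (new_t H I hj hp hn (cap := D.O j) ⟨hp, hg, fun h => absurd h hp.ne_zero, fun h => absurd h hp.ne_zero,
        fun _ => hg, fun _ => e1, fun _ l hl m hm b2 b3 => ((b1 m hm b3).2 l hl b2), fun _ l hl a b2 b3 b4 => e1 ?_⟩
        (H.f0.odvd j hj) I.c2 h).mono fun ih h => ?_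
      · refine Dvd.dvd.trans ?_ ((H.f0.odvd l hl).trans (H.f0.cd hl))
        rw [b2, ← pow_two] at *
        refine pow_dvd_pow _ ?_
        rcases a with _ | _ | a
        · exact absurd (Nat.dvd_one.1 b4) hp.one_lt.ne'
        · exact absurd (pow_one _) b3
        · omega
      · have h5 := (key ih h).2
        rwa [if_neg e, if_neg (b1 j hj rfl).1] at h5

theorem cand_t (H : All D) (I : I1 D s f j last lt c2 w PR) (hj : j < D.n) (h : ℕ) :
    Nx D (j + 1) fun ih => cand ih (2 ^ j) (rm D j) last lt c2 w h (mE D s f (List.range j).reverse) PR (D.O j)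
      (flt PR (D.O j)) = true := by
  have h0 := H.f0.two j hj
  have hm : ∀ x, x ∈ (flt PR (D.O j)).l ↔ x ∈ PR.l ∧ x.1 ∣ D.O j := fun x => mem_flt
  have hc := fun hp lb bp => cmp_t H I hj hp (lb := lb) (bp := bp)
  have ha := fun lb an bp => add_t H I hj (lb := lb) (an := an) (bp := bp) (c2' := c2) (pc := flt PR (D.O j))
    (PR' := PR)
  generalize flt PR (D.O j) = pc at hm hc ha
  rcases pc with _ | ⟨p, cap, r⟩
  · have hn : ∀ x ∈ PR.l, ¬ x.1 ∣ D.O j := fun x hx hd => by simpa [PL.l] using (hm x).2 ⟨hx, hd⟩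
    refine newP_t H I hj ?_ (fun x hx e => hn x hx (e ▸ dvd_rfl)) h
    by_contra hp
    obtain ⟨q, hq, hd⟩ := Nat.exists_prime_and_dvd (show D.O j ≠ 1 by omega)
    obtain ⟨c, hc⟩ := I.listed H hj hq hd fun e => hp (e ▸ hq)
    exact hn _ hc hd
  obtain ⟨h1, h2⟩ := (hm (p, cap)).1 List.mem_cons_self
  obtain ⟨h3, i, hi, h4⟩ := I.ok _ h1
  simp only at h2 h3 h4
  by_cases e : p = D.O j
  · subst e
    have hp := h3.pr
    obtain ⟨b1, b2, b3, b4⟩ := prm H hj hp
    have e0 : cap = 0 := by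
      by_contra e0
      exact hi.ne (h3.c3 e0 i (by omega) j hj h4 rfl)
    refine (ha (sq (D.O j)) 0 (D.O j) (h3.z1 e0 j hj 1 (pow_one _).symm) ⟨b4, Or.inr ⟨hp, 1, (pow_one _).symm⟩,
      fun x hx => (I.ok x ((hm x).1 hx).1).1, fun q hq hd => ⟨cap, ?_⟩⟩ I.ok' I.nd (fun l hl hq => ?_) I.c2 h).mono
      fun ih h => ?_
    · rw [(Nat.prime_dvd_prime_iff_eq hq hp).1 hd]; exact List.mem_cons_self
    · rcases Nat.lt_succ_iff_lt_or_eq.1 hl with e | rfl
      exacts [I.all l e hq, ⟨cap, h1⟩]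
    · unfold cand at h
      simp only [] at h
      rw [brec, if_pos (by simp), brec, imp_t] at h
      have h5 := allLt_t (h (by simp [e0])) (tlt H hj).1
      psimp at h5
      rw [(tlt H hj).2] at h5
      have h6 := h5 b1 (by have := I.nx hj; have := (I.st i hi).2.2; omega)
      rw [show (D.O j - nat_lit 1) / D.T j = D.E j from b2] at h6
      exact h6 (has b3)
  have hp : ¬ (D.O j).Prime := fun hp => e ((Nat.prime_dvd_prime_iff_eq h3.pr hp).1 h2)
  rcases r with _ | ⟨p', cap', r⟩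
  · have h5 : ∃ a, D.O j = p ^ a := ⟨_, Nat.eq_prime_pow_of_unique_prime_dvd (by omega) fun {q} hq hd => by
      obtain ⟨c, hc⟩ := I.listed H hj hq hd fun e => hp (e ▸ hq)
      have := (hm _).2 ⟨hc, hd⟩
      simp only [PL.l, List.mem_singleton, Prod.mk.injEq] at this
      exact this.1⟩
    by_cases e0 : cap = 0
    · refine (hc hp (lc (D.O j) (sq p)) p ?_ (Or.inr ⟨h3.pr, h5⟩) h).mono fun ih h => ?_
      · rw [lc_eq]
        exact Nat.lcm_dvd (H.f0.odvd j hj) (h5.elim fun a => h3.z1 e0 j hj a)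
      · unfold cand at h
        simp only [] at h
        rwa [brec, if_neg (by simpa using e), brec, if_pos (by simp [e0])] at h
    · refine (hc hp (D.O j) p (H.f0.odvd j hj) (Or.inr ⟨h3.pr, h5⟩) h).mono fun ih h => ?_
      unfold cand at h
      simp only [] at h
      rw [brec, if_neg (by simpa using e), brec, if_neg (by simpa using e0)] at h
      psimp at h
      exact h.resolve_left (h5.elim fun a ha => h3.c4 e0 j hj a ha (Ne.symm e))
  · refine (hc hp (D.O j) 1 (H.f0.odvd j hj) (Or.inl rfl) h).mono fun ih h => ?_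
    unfold cand at h
    simp only [] at h
    rwa [brec, if_neg (by simpa using e)] at h

theorem I1.sum (I : I1 D s f j last lt c2 w PR) (H : All D) :
    (1 - ∑ i ∈ Ico j D.n, (D.T i : ℚ) / D.C i) * 1152921504606846976 ≤
      (19215358410114117 + sumB (mE D s f (List.range j).reverse) 0 : ℕ) := by
  have h1 := sumB_mk (D := D) (s := s) (f := f) (js := (List.range j).reverse) (l1 := 0) fun i hi => by
    have := List.mem_range.1 (List.mem_reverse.1 hi)
    exact ⟨(I.st i this).2.1, H.f0.cpos (this.trans_le I.le)⟩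
  rw [sum_perm (List.reverse_perm _)] at h1
  have h2 := H.f0.frac
  rw [← sum_range_add_sum_Ico _ I.le] at h2
  have h3 : (1 : ℚ) / D.g ≤ 1 / 60 := one_div_le_one_div_of_le (by norm_num) (by exact_mod_cast H.f4.sixty)
  rw [Nat.cast_add, Nat.cast_ofNat]
  linarith

theorem mn_eq (a b : ℕ) : mn a b = min a b := by
  simp only [mn, Nat.sub_eq]; omega

theorem body_t (H : All D) (I : I1 D s f j last lt c2 w PR) (hj : j < D.n) {fn : EL → PL → Bool} {ih : K1} {h : ℕ}
    (e : body fn ih (2 ^ j) (rm D j) last lt c2 w h (mE D s f (List.range j).reverse) PR = true) :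
    cand ih (2 ^ j) (rm D j) last lt c2 w h (mE D s f (List.range j).reverse) PR (D.O j) (flt PR (D.O j)) = true := by
  unfold body at e
  simp only [brec, dv, Nat.add_eq, Nat.sub_eq, Nat.mul_eq, Nat.beq_eq, Nat.ble_eq, Nat.succ_eq_add_one,
    mn_eq] at e
  have h0 := tlt H hj
  have h1 := (I.nx hj).1
  have h2 := H.f0.two j hj
  rw [if_neg (by omega)] at e
  have h3 := allLt_t e (i := D.O j - last) (by
    have b1 : D.O j ≤ rm D j * last + 1 ∨ D.O j ≤ last * mxP PR := by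
      refine or_iff_not_imp_left.2 fun b1 => ?_
      have hp : ¬ (D.O j).Prime := fun hp => b1 (I.ple H hj hp)
      obtain ⟨q, hq, hd⟩ := Nat.exists_prime_and_dvd (show D.O j ≠ 1 by omega)
      have hne : q ≠ D.O j := fun e => hp (e ▸ hq)
      obtain ⟨c, hc⟩ := I.listed H hj hq hd hne
      rw [← (H.f1.pw j hj q hd hne).2.1]
      exact Nat.mul_le_mul (I.st _ (sub_lt H hj hd hne hq.one_lt.ne')).2.2 (le_mxP hc)
    have b2 := I.sum H
    generalize 19215358410114117 + sumB (mE D s f (List.range j).reverse) 0 = s0 at b2 ⊢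
    have b3 : ¬ 1152921504606846976 ≤ s0 → D.O j ≤ 1152921504606846976 * rm D j / (1152921504606846976 - s0) :=
      fun b3 => by
      rw [Nat.le_div_iff_mul_le (by omega)]
      have b4 : (0 : ℚ) < D.O j := by exact_mod_cast (by omega : 0 < D.O j)
      have b5 : ∑ i ∈ Ico j D.n, (D.T i : ℚ) / D.C i ≤ (rm D j : ℕ) / D.O j := by
        rw [rm, Nat.cast_sum, sum_div]
        refine sum_le_sum fun i hi => div_le_div_of_nonneg_left (by positivity) b4 ?_
        obtain ⟨c1, c2⟩ := mem_Ico.1 hi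
        have := H.f0.srt j i c1 c2
        have := Nat.le_of_dvd (H.f0.cpos c2) (H.f0.odvd i c2)
        exact_mod_cast (by omega : D.O j ≤ D.C i)
      have b6 : (D.O j : ℚ) * (1152921504606846976 - s0) ≤ 1152921504606846976 * (rm D j : ℕ) := by
        rw [← le_div_iff₀' b4, mul_div_assoc]
        linarith
      rw [← Nat.cast_ofNat, ← Nat.cast_sub (by omega)] at b6
      exact_mod_cast b6
    have b4 : w * 2 ≤ c2 → D.O j ≤ w := fun b4 => by
      obtain ⟨a, ha⟩ := I.w1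
      obtain ⟨l, c1, c2⟩ := I.c2 a (ha ▸ b4)
      have := H.f0.srt j l (by
        by_contra c3
        exact I.w2 l (by omega) (c2.trans ha.symm)) c1
      omega
    generalize 1152921504606846976 * rm D j / (1152921504606846976 - s0) = y at b3 ⊢
    split_ifs with c1 c2 c2
    · have := b4 c1; omega
    · have := b4 c1; have := b3 c2; omega
    · omega
    · have := b3 c2; omega)
  rwa [Nat.add_sub_cancel' h1] at h3

theorem fin_t (H : All D) (I : I1 D s f D.n last lt c2 w PR) {kk : ℕ} (hk : kk + 1 = D.k)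
    {acc : List (ℕ × List (ℕ × ℕ × ℕ))} {ih : K1} {h : ℕ} (e : body (fin kk acc) ih (2 ^ D.n) (rm D D.n) last lt c2 w h
      (mE D s f (List.range D.n).reverse) PR = true) :
    (∀ j < D.n, IsPrimePow (D.O j)) ∨ ∃ x ∈ acc, D.g = x.1 ∧ D.Acc x.2 := by
  unfold body at e
  simp only [brec, Nat.add_eq, Nat.mul_eq, Nat.beq_eq, Nat.ble_eq] at e
  rw [if_pos (by simp [rm]), imp_t, or_t] at e
  have h1 := I.sum H
  rw [Ico_self, sum_empty, sub_zero, one_mul] at h1
  have hP : PROK D PR := ⟨fun x hx => (I.ok x hx).1, fun q hq hd => by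
    obtain ⟨l, h1, h2, -⟩ := H.f1.cen q 0 hq (by simpa using hd)
    exact h2 ▸ I.all l h1 (h2 ▸ hq)⟩
  replace e := (e (by exact_mod_cast h1)).resolve_left fun b => by
    obtain ⟨a, ha⟩ := I.w1
    obtain ⟨l, c1, c2⟩ := I.c2 a (ha ▸ b)
    exact I.w2 l c1 (c2.trans ha.symm)
  unfold fin at e
  psimp at e
  rcases e with e | e | e
  · have h2 : D.g.primeFactors ⊆ (PR.l.map Prod.fst).toFinset := fun q hq => by
      obtain ⟨c, hc⟩ := hP.all q (Nat.prime_of_mem_primeFactors hq) (Nat.dvd_of_mem_primeFactors hq)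
      exact List.mem_toFinset.2 (List.mem_map_of_mem (f := Prod.fst) hc)
    have h3 := H.f4.three.trans ((card_le_card h2).trans (List.toFinset_card_le _))
    rw [List.length_map, ← lenP_eq] at h3
    omega
  · refine Or.inl fun j hj => ?_
    obtain ⟨hp, a, ha⟩ := (I.st j hj).1.bp.resolve_left fun b =>
      e (anyE_mk.2 ⟨j, List.mem_reverse.2 (List.mem_range.2 hj), by simp [b]⟩)
    have := H.f0.two j hj
    rw [ha] at this ⊢
    exact hp.isPrimePow.pow fun e => by simp [e] at this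
  · rw [show rev (mE D s f (List.range D.n).reverse) .nil = _ from rev_mk _ [], List.append_nil,
      List.reverse_reverse] at e
    obtain ⟨as, h2, h3⟩ := node_t H (fun j hj => (I.st j hj).1) (as := []) (a := 1) (b := 1) (last := 1) (lo := 0)
      ⟨by simp, List.pairwise_lt_range, fun j hj => (I.st j (List.mem_range.1 hj)).2.1, by simp,
        by rw [sum_perm (List.Perm.refl _), H.f0.frac]; simp, one_pos, fun j hj => Or.inl
          ((H.f0.two j (List.mem_range.1 hj)).trans (Nat.le_of_dvd (H.f0.cpos (List.mem_range.1 hj))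
            (H.f0.odvd j (List.mem_range.1 hj)))), le_rfl⟩ e
    exact Or.inr (leaf_t H (fun j hj => (I.st j hj).1) hP h2 hk h3)

theorem p1_t (H : All D) {kk : ℕ} (hk : kk + 1 = D.k) {acc : List (ℕ × List (ℕ × ℕ × ℕ))} (u : ℕ)
    (I : I1 D s f j last lt c2 w PR) {h : ℕ} {S : Set (ℕ → ℕ → Bool)}
    (h1 : ∀ gt ∈ S, p1 (fin kk acc) gt u (2 ^ j) (rm D j) last lt c2 w h (mE D s f (List.range j).reverse) PR = true)
    (h2 : ∀ F : ℕ → ℕ, ∃ gt ∈ S, ∀ b, 2 ^ j ≤ b → gt b (F b) = true) :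
    (∀ j < D.n, IsPrimePow (D.O j)) ∨ ∃ x ∈ acc, D.g = x.1 ∧ D.Acc x.2 := by
  induction u generalizing s f j last lt c2 w PR h S with
  | zero =>
    obtain ⟨gt, hg, -⟩ := h2 id
    exact absurd (h1 gt hg) (by simp [p1])
  | succ u ih =>
    have h3 : ∀ gt ∈ S, gt (2 ^ j) h = true → body (fin kk acc) (p1 (fin kk acc) gt u) (2 ^ j) (rm D j) last lt c2
        w h (mE D s f (List.range j).reverse) PR = true := fun gt hg => by
      have h' : (Bool.rec (motive := fun _ => Bool) true (body (fin kk acc) (p1 (fin kk acc) gt u) (2 ^ j) (rm D j)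
        last lt c2 w h (mE D s f (List.range j).reverse) PR) (gt (2 ^ j) h)) = true := h1 gt hg
      rwa [brec, imp_t] at h'
    rcases I.le.lt_or_eq with hj | rfl
    · obtain ⟨s', f', last', lt', c2', w', h', PR', I', e⟩ := cand_t H I hj h
      refine ih I' (S := {gt ∈ S | gt (2 ^ j) h = true}) (fun gt hg => e _ (body_t H I hj (h3 gt hg.1 hg.2)))
        fun F => ?_
      obtain ⟨gt, b1, b2⟩ := h2 (Function.update F (2 ^ j) h)
      refine ⟨gt, ⟨b1, by simpa using b2 _ le_rfl⟩, fun b hb => ?_⟩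
      have b3 : 2 ^ j < b := (Nat.pow_lt_pow_succ one_lt_two).trans_le hb
      simpa [Function.update_of_ne b3.ne'] using b2 b b3.le
    · obtain ⟨gt, b1, b2⟩ := h2 fun _ => h
      exact fin_t H I hk (h3 gt b1 (b2 _ le_rfl))

/-- soundness of the search -/
theorem search (H : All D) {kk : ℕ} (hk : kk + 1 = D.k) {acc : List (ℕ × List (ℕ × ℕ × ℕ))} (h : Done kk acc) :
    (∀ j < D.n, IsPrimePow (D.O j)) ∨ ∃ x ∈ acc, D.g = x.1 ∧ D.Acc x.2 := by
  have h0 : rm D 0 = kk := by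
    have := H.f0.sumT
    rw [rm, ← range_eq_Ico]
    omega
  refine p1_t H hk 12 (s := ⟨fun _ => 0, fun _ => 0, fun _ => .nil⟩) (f := fun _ => 0) (j := 0) (last := 2) (lt := 0)
    (c2 := 0) (w := 2) (PR := .nil) ⟨Nat.zero_le _, by simp, fun h => ⟨H.f0.two 0 h, fun _ => Nat.zero_le _⟩, le_rfl,
      by simp [PL.l], by simp [PL.l], by simp, ⟨0, rfl⟩, by simp, by simp⟩ (h := 0)
    (S := {gt | p1 (fin kk acc) gt 12 1 kk 2 0 0 2 0 .nil .nil = true}) (fun gt hg => by rw [h0]; exact hg) fun F => ?_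
  obtain ⟨n1, a1, h⟩ := h
  obtain ⟨n2, a2, h⟩ := h _ (Nat.mod_lt (F 16) a1)
  obtain ⟨n3, a3, h⟩ := h _ (Nat.mod_lt (F 64) a2)
  refine ⟨_, h _ (Nat.mod_lt (F 256) a3), fun b _ => ?_⟩
  unfold gate
  simp only [brec, md, Nat.beq_eq]
  split_ifs with e1 e2 e3
  · simp [e1]
  · simp [e2]
  · simp [e3]
  · rfl

end Cfsg.Agent.KC
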