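import Mathlib.Data.Nat.Notation

/-! The search program (written with recursors and primitive operations, for kernel evaluation). -/

set_option autoImplicit false

namespace Cfsg.Agent.KC

/-- primes with caps -/
inductive PL : Type
  | nil : PL
  | cons (p c : ℕ) (r : PL) : PL

/-- class entries -/
inductive EL : Type
  | nil : EL
  | cons (b o t e m an bp : ℕ) (pc : PL) (r : EL) : EL

/-- a row of values -/
inductive ZL : Type
  | nil : ZL
  | cons (b o e an sp sn : ℕ) (r : ZL) : ZL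

/-- a list of rows -/
inductive RL : Type
  | nil : RL
  | cons (d : ℕ) (z : ZL) (r : RL) : RL

/-- remaining column sums -/
inductive GL : Type
  | nil : GL
  | cons (x yp yn : ℕ) (r : GL) : GL

local infixl:65 " +. " => Nat.add
local infixl:65 " -. " => Nat.sub
local infixl:70 " *. " => Nat.mul
local infixl:70 " /. " => Nat.div
local infixl:70 " %. " => Nat.mod
local infix:50 " =. " => Nat.beq
local infix:50 " ≤. " => Nat.ble
local notation "n0" => nat_lit 0
local notation "n1" => nat_lit 1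
local notation "n2" => nat_lit 2
local notation "n6" => nat_lit 6
local notation "n64" => nat_lit 64
local notation "SC" => nat_lit 1152921504606846976
local notation:10 "IF " c " THEN " a " ELSE " b:10 => Bool.rec b a c
local notation:35 a:36 " &. " b:35 => Bool.rec (motive := fun _ => Bool) false b a
local notation:30 a:31 " |. " b:30 => Bool.rec (motive := fun _ => Bool) b true a
local notation:30 a:31 " →. " b:30 => Bool.rec (motive := fun _ => Bool) true b a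

noncomputable section

def lc (a b : ℕ) : ℕ := a /. Nat.gcd a b *. b
def ad (a b : ℕ) : ℕ := (a -. b) +. (b -. a)

def allLt (n : ℕ) (k : ℕ → Bool) : Bool := Nat.rec true (fun f ih => k f &. ih) n

/-! ### character rows -/

def zsum (z : ZL) (mask : ℕ) (k : ℕ → ℕ → Bool) : ℕ → ℕ → Bool :=
  ZL.rec k (fun b _ e _ sp sn _ ih p n =>
    IF Nat.land b mask =. n0 THEN ih p n ELSE ih (p +. e *. sp) (n +. e *. sn)) z

def zok (d : ℕ) (z : ZL) : Bool :=
  ZL.rec true (fun b o _ an _ _ _ ih =>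
    zsum z (Nat.lor b an) (fun p n => n ≤. p &. (p -. n) %. o =. n0) d n0 &. ih) z

def vl (g d b o t e c an bp nn st nrm lp ln rn : ℕ) (z : ZL) (acc : RL)
    (ih : ℕ → ℕ → ℕ → ℕ → ZL → RL → RL) (f : ℕ) : ℕ → RL :=
  Nat.rec (fun _ => acc) (fun _ lo s =>
    IF s *. s +. t *. t ≤. t *. c &. nrm +. s *. s *. nn /. t ≤. g THEN
      (fun rest : RL =>
        IF s %. bp =. t *. d %. bp THEN
          ih (nrm +. s *. s *. nn /. t) (lp +. s *. nn) ln (rn -. t *. nn) (ZL.cons b o e an s n0 z) rest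
        ELSE rest)
      ((fun rest : RL =>
        IF (s +. t *. d) %. bp =. n0 &. n1 ≤. s THEN
          ih (nrm +. s *. s *. nn /. t) lp (ln +. s *. nn) (rn -. t *. nn) (ZL.cons b o e an n0 s z) rest
        ELSE rest) (lo (s +. st)))
    ELSE acc) f

def rg (g d : ℕ) (cols : EL) : ℕ → ℕ → ℕ → ℕ → ZL → RL → RL :=
  EL.rec (fun _ lp ln _ z acc => IF lp =. ln &. zok d z THEN RL.cons d z acc ELSE acc)
    (fun b o t e c an bp _ _ ih nrm lp ln rn z acc =>
      IF ad lp ln *. ad lp ln ≤. (g -. nrm) *. rn THEN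
        (fun nn => (fun h => vl g d b o t e c an bp nn (d /. h) nrm lp ln rn z acc ih
          (IF h =. n1 THEN n1 ELSE t *. h) n0) (Nat.gcd d nn)) (g /. c)
      ELSE acc) cols

def rd (g : ℕ) (cols : EL) (d : ℕ) : RL := rg g d cols (d *. d) d n0 (g -. n1) ZL.nil RL.nil

def dvs (g f : ℕ) : ℕ → List ℕ → List ℕ :=
  Nat.rec (fun _ acc => acc) (fun _ ih d acc =>
    IF g ≤. d *. d THEN acc ELSE IF g %. d =. n0 THEN ih (Nat.succ d) (d :: acc) ELSE ih (Nat.succ d) acc) f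

def RL.isNil (r : RL) : Bool := RL.rec true (fun _ _ _ _ => false) r
def RL.app (r s : RL) : RL := RL.rec s (fun d z _ ih => RL.cons d z ih) r
def RL.srt (r : RL) : ℕ → Bool := RL.rec (fun _ => true) (fun d _ _ ih m => d ≤. m &. ih d) r

def gok (d dd : ℕ) (z : ZL) : GL → Bool :=
  ZL.rec (fun _ => true) (fun _ _ _ _ sp sn _ ih G => GL.rec true (fun x yp yn r _ =>
    (sp +. sn) *. (sp +. sn) ≤. x &.
    ad (yp +. d *. sn) (yn +. d *. sp) *. ad (yp +. d *. sn) (yn +. d *. sp) ≤.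
      dd *. (x -. (sp +. sn) *. (sp +. sn)) &. ih r) G) z

def gup (d : ℕ) (z : ZL) : GL → GL :=
  ZL.rec (fun _ => GL.nil) (fun _ _ _ _ sp sn _ ih G => GL.rec GL.nil (fun x yp yn r _ =>
    GL.cons (x -. (sp +. sn) *. (sp +. sn)) (yp +. d *. sn) (yn +. d *. sp) (ih r)) G) z

def gz (G : GL) : Bool := GL.rec true (fun x _ _ _ ih => x =. n0 &. ih) G

def ntl (r : ℕ) (ih : RL → ℕ → GL → Bool) (dd : ℕ) (G : GL) (rows : RL) : Bool :=
  RL.rec true (fun d z rest ih2 => dd ≤. d *. d *. Nat.succ r →.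
    (d *. d ≤. dd →. gok d (dd -. d *. d) z G →. ih (RL.cons d z rest) (dd -. d *. d) (gup d z G)) &. ih2) rows

def nt (r : ℕ) : RL → ℕ → GL → Bool :=
  Nat.rec (fun _ dd G => dd =. n0 →. gz G →. false) (fun r ih rows dd G => ntl r ih dd G rows) r

def g0 (A : EL) : GL := EL.rec GL.nil (fun _ _ t _ c _ _ _ _ ih => GL.cons (t *. c -. t *. t) n0 t ih) A

def rev (A : EL) : EL → EL :=
  EL.rec (fun acc => acc) (fun b o t e m an bp pc _ ih acc => ih (EL.cons b o t e m an bp pc acc)) A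

def anyP (PR : PL) (k : ℕ → ℕ → Bool) : Bool := PL.rec false (fun p c _ ih => k p c |. ih) PR

def allN (R : ℕ → RL) (p : ℕ) (DL : List ℕ) : Bool :=
  List.rec true (fun d _ ih => (d %. p =. n0 |. (R d).isNil) &. ih) DL

def cat (R : ℕ → RL) (DL : List ℕ) : RL := List.rec RL.nil (fun d _ ih => (R d).app ih) DL

def ct2 (kk g : ℕ) (A : EL) (PR : PL) (R : ℕ → RL) (DL : List ℕ) : Bool :=
  anyP PR (fun p _ => allN R p DL) |. (fun rows : RL => rows.srt g &. nt kk rows (g -. n1) (g0 A)) (cat R DL)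

def ct (kk g : ℕ) (A : EL) (PR : PL) : Bool :=
  g ≤. nat_lit 9000000 &. ct2 kk g A PR (rd g (rev A EL.nil)) (dvs g (nat_lit 3000) n2 [])

/-! ### leaves -/

def anyE (A : EL) (k : ℕ → ℕ → ℕ → ℕ → ℕ → Bool) : Bool :=
  EL.rec false (fun _ o t e c _ bp _ _ ih => k o t e c bp |. ih) A

def sumE (A : EL) (k : ℕ → ℕ → ℕ → ℕ → ℕ) : ℕ :=
  EL.rec n0 (fun _ o t e c _ _ _ _ ih => k o t e c +. ih) A

def nb (a : Bool) : Bool := Bool.rec true false a

def prodP (PR : PL) : ℕ := PL.rec n1 (fun p _ _ ih => p *. ih) PR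

def flp (g p : ℕ) (ih : ℕ → Bool) (f : ℕ) : ℕ → Bool :=
  Nat.rec (fun _ => false) (fun _ lp x => ih x |. (g %. (x *. p) =. n0 &. lp (x *. p))) f

def frb (g : ℕ) (A : EL) (PR : PL) : ℕ → Bool :=
  PL.rec (fun d => nb ((sumE A (fun o t _ c => IF d %. o =. n0 THEN t *. (g /. c) ELSE n0) +. n1) %. d =. n0))
    (fun p _ _ ih => flp g p ih n64) PR

def inL (l : List (ℕ × ℕ × ℕ)) (o t c : ℕ) : Bool :=
  List.rec false (fun x _ ih => (o =. x.1 &. t =. x.2.1 &. c =. x.2.2) |. ih) l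

def nd (A : EL) : Bool :=
  EL.rec true (fun _ o t _ c _ _ _ r ih =>
    nb (anyE r fun o' t' _ c' _ => o =. o' &. t =. t' &. c =. c') &. ih) A

def acp (acc : List (ℕ × List (ℕ × ℕ × ℕ))) (g : ℕ) (A : EL) : Bool :=
  List.rec false (fun x _ ih => (g =. x.1 &. nb (anyE A fun o t _ c _ => nb (inL x.2 o t c)) &. nd A) |. ih) acc

def leaf (kk : ℕ) (acc : List (ℕ × List (ℕ × ℕ × ℕ))) (PR : PL) (A : EL) (g : ℕ) : Bool :=
  anyE A (fun _ _ e c _ => nb (g %. (e *. c) =. n0)) |.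
  (fun h => nb (h =. n1) &. Nat.gcd h (prodP PR) =. n1) (g /. Nat.gcd g (Nat.pow (prodP PR) n64)) |.
  anyP PR (fun p cap =>
    nb (anyE A fun o _ _ c _ => o =. p &. c %. Nat.gcd g (Nat.pow p n64) =. n0) |.
    anyE A (fun _ _ _ c _ => Nat.pow p n64 %. (g /. c) =. n0) |.
    (IF cap =. n0 THEN (p =. n2 &. anyE A (fun o _ _ _ bp => bp =. n2 &. nb (g %. (nat_lit 4 *. o) =. n0)))
      ELSE nb (g %. cap =. n0 &. nb (g %. (cap *. p) =. n0)))) |.
  frb g A PR n1 |.
  (fun m => nb (m *. m ≤. m +. sumE A (fun o t e _ => IF o =. n2 |. e %. n2 =. n0 THEN t ELSE n0) *. g))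
    (sumE A fun o _ _ c => IF o =. n2 THEN g /. c ELSE n0) |.
  g =. nat_lit 1920 |. acp acc g A |. ct kk g A PR

/-! ### centraliser orders -/

def glp (hi p cap : ℕ) (ih : ℕ → Bool) (f : ℕ) : ℕ → Bool :=
  Nat.rec (fun _ => false) (fun _ lp x => x ≤. hi →. ih x &. (x %. cap =. n0 |. lp (x *. p))) f

def gen (hi lo : ℕ) (k : ℕ → Bool) (pc : PL) : ℕ → Bool :=
  PL.rec (fun x => lo ≤. x →. k x) (fun p cap _ ih => glp hi p cap ih n64) pc

def sumB (U : EL) (l1 : ℕ) : ℕ :=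
  EL.rec n0 (fun _ _ t _ m _ _ _ _ ih => Nat.succ (SC *. t /. (Nat.succ (l1 /. m) *. m)) +. ih) U

def sumT (U : EL) : ℕ := EL.rec n0 (fun _ _ t _ _ _ _ _ _ ih => t +. ih) U

def orA (U : EL) : ℕ := EL.rec n0 (fun _ _ _ _ _ an _ _ _ ih => Nat.lor an ih) U

def upd (U : EL) (b0 an0 c ec : ℕ) : EL :=
  EL.rec EL.nil (fun b o t e m an bp pc _ ih => IF b =. b0 THEN ih ELSE
    EL.cons b o t e (IF Nat.land b an0 =. n0 THEN m ELSE lc (lc m c) (ec /. Nat.gcd ec e)) an bp pc ih) U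

def secR (A : EL) (b0 o0 t0 p c : ℕ) : ℕ :=
  EL.rec n1 (fun _ o t _ m an _ _ _ ih =>
    IF Nat.land b0 an =. n0 |. o /. o0 %. p =. n0 THEN ih ELSE t /. t0 *. (c /. m) +. ih) A

def secBad (A : EL) (b o t p c : ℕ) : Bool :=
  nb (p =. n1) &. (fun cp => nb (cp =. n1) &. nb (cp %. p =. n0) &.
    (fun R => nb (R %. cp =. n0 &. R *. o ≤. c)) (secR A b o t p c)) (c /. Nat.gcd c (Nat.pow p n64))

def step (ih : EL → EL → ℕ → ℕ → ℕ → ℕ → Bool) (U A : EL) (a b b0 o t e an bp : ℕ) (pc : PL)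
    (c last lo : ℕ) : Bool :=
  secBad A b0 o t bp c |.
    (fun na nb => (fun gg => ih (upd U b0 an c (e *. c)) (EL.cons b0 o t e c an bp pc A) (na /. gg) (nb /. gg) last lo)
      (Nat.gcd na nb)) (a *. c -. b *. t) (b *. c)

def capd (pc : PL) (m : ℕ) : Bool := PL.rec true (fun _ cap _ ih => m %. cap =. n0 &. ih) pc

def lp2 (ih : EL → EL → ℕ → ℕ → ℕ → ℕ → Bool) (U A : EL) (a b last lo mask hi : ℕ) (V : EL) : ℕ → ℕ → Bool :=
  EL.rec (fun _ _ => true) (fun b0 o t e m an bp pc _ ih2 po pt =>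
    (Nat.land b0 mask =. n0 →. ((o =. po &. t =. pt) |.
      gen hi ((fun x => last +. (x -. last)) (Nat.succ (t *. b /. a)))
        (fun c => (c =. last &. Nat.succ lo ≤. o) |. step ih U A a b b0 o t e an bp pc c c o) pc m)) &.
    ih2 o t) V

def fx (ih : EL → EL → ℕ → ℕ → ℕ → ℕ → Bool) (U A : EL) (a b mask : ℕ) (els : Bool) (V : EL) : Bool :=
  EL.rec els (fun b0 o t e m an bp pc _ ih2 =>
    IF Nat.land b0 mask =. n0 &. capd pc m THEN
      (Nat.succ (b *. t) ≤. a *. m →. step ih U A a b b0 o t e an bp pc m n1 n0) ELSE ih2) V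

def nbd (lf : EL → ℕ → Bool) (ih : EL → EL → ℕ → ℕ → ℕ → ℕ → Bool) (U A : EL) (a b last lo : ℕ) : Bool :=
  (fun r => IF r =. n0 THEN (b %. a =. n0 →. lf A (b /. a)) ELSE
    (SC *. a ≤. (sumB U (last -. n1) +. Nat.succ (SC /. (n6 *. (last +. (nat_lit 10 -. last))))) *. b →.
      (fun mask => (fun X : Bool => IF last =. n1 THEN fx ih U A a b mask X U ELSE X)
        (lp2 ih U A a b last lo mask (Nat.succ (n6 *. r) *. b /. (n6 *. a)) U n0 n0)) (orA U))) (sumT U)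

def node (lf : EL → ℕ → Bool) (f : ℕ) : EL → EL → ℕ → ℕ → ℕ → ℕ → Bool :=
  Nat.rec (fun _ _ _ _ _ _ => false) (fun _ ih => nbd lf ih) f

/-! ### element orders -/

def hasO (L : EL) (x : ℕ) : Bool := EL.rec false (fun _ o _ _ _ _ _ _ _ ih => o =. x |. ih) L

def updM (L : EL) (an0 lb : ℕ) : EL :=
  EL.rec EL.nil (fun b o t e m an bp pc _ ih =>
    EL.cons b o t e (IF Nat.land b an0 =. n0 THEN m ELSE lc m lb) an bp pc ih) L

def flt (PR : PL) (o : ℕ) : PL :=
  PL.rec PL.nil (fun p c _ ih => IF o %. p =. n0 THEN PL.cons p c ih ELSE ih) PR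

def phi (pc : PL) (o : ℕ) : ℕ := PL.rec o (fun p _ _ ih => ih /. p *. (p -. n1)) pc

def lenP (PR : PL) : ℕ := PL.rec n0 (fun _ _ _ ih => Nat.succ ih) PR

def parl (o t p an : ℕ) (ih : ℕ → Bool) (L : EL) : Bool :=
  EL.rec true (fun b' o' t' _ _ an' _ _ _ ih2 =>
    (o' *. p =. o →. t %. t' =. n0 →. ih (Nat.lor an (Nat.lor b' an'))) &. ih2) L

def par (L : EL) (o t : ℕ) (k : ℕ → Bool) (pc : PL) : ℕ → Bool :=
  PL.rec k (fun p _ _ ih an => parl o t p an ih L) pc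

def sq (p : ℕ) : ℕ := IF p =. n2 THEN nat_lit 8 ELSE p *. p

/-- state: bit, remaining classes, last order, last count, cap of 2, next power of 2, hash, entries, primes -/
abbrev K1 : Type := ℕ → ℕ → ℕ → ℕ → ℕ → ℕ → ℕ → EL → PL → Bool

def add (ih : K1) (bit rem c2 w h : ℕ) (L : EL) (o t e lb an bp : ℕ) (pc PR : PL) : Bool :=
  ih (bit *. n2) (rem -. t) o t c2 (IF o =. w THEN w *. n2 ELSE w)
    (h *. nat_lit 31 +. o +. nat_lit 7 *. t +. lb +. nat_lit 3 *. an)
    (EL.cons bit o t e lb an bp pc (updM L an lb)) PR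

def newP (ih : K1) (bit rem last c2 w h : ℕ) (L : EL) (PR : PL) (o : ℕ) : Bool :=
  o ≤. Nat.succ (rem *. last) →. (Nat.pow n2 (o -. n1) %. o =. n1 |. o =. n2) →.
  allLt rem fun t0 => (o -. n1) %. Nat.succ t0 =. n0 →.
    (fun t e => (e =. n1 |. hasO L e) →.
      add ih bit rem c2 w h L o t e (sq o) n0 o (PL.cons o n0 PL.nil) (PL.cons o n0 PR) &.
      (IF o =. n2 THEN allLt rem fun z => (fun cap =>
          add ih bit rem cap w h L o t e cap n0 o (PL.cons o cap PL.nil) (PL.cons o cap PR))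
          (Nat.pow n2 (z +. n2))
        ELSE (e =. n1 |. add ih bit rem c2 w h L o t e o n0 o (PL.cons o o PL.nil) (PL.cons o o PR))))
      (Nat.succ t0) ((o -. n1) /. Nat.succ t0)

def cmp (ih : K1) (bit rem last lt c2 w h : ℕ) (L : EL) (PR : PL) (o : ℕ) (pc : PL) (lb bp : ℕ) : Bool :=
  (fun ph => allLt rem fun t0 => ph %. Nat.succ t0 =. n0 →. (nb (o =. last) |. lt ≤. Nat.succ t0) →.
    par L o (Nat.succ t0)
      (fun an => add ih bit rem c2 w h L o (Nat.succ t0) (ph /. Nat.succ t0) lb an bp pc PR) pc n0) (phi pc o)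

def cand (ih : K1) (bit rem last lt c2 w h : ℕ) (L : EL) (PR : PL) (o : ℕ) (pc : PL) : Bool :=
  PL.rec (newP ih bit rem last c2 w h L PR o) (fun p cap r _ =>
    IF p =. o THEN (cap =. n0 →. allLt rem fun t0 => (o -. n1) %. Nat.succ t0 =. n0 →. lt ≤. Nat.succ t0 →.
        (fun e => (e =. n1 |. hasO L e) →. add ih bit rem c2 w h L o (Nat.succ t0) e (sq o) n0 o pc PR)
          ((o -. n1) /. Nat.succ t0))
    ELSE PL.rec (motive := fun _ => Bool)
      (IF cap =. n0 THEN cmp ih bit rem last lt c2 w h L PR o pc (lc o (sq p)) p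
        ELSE (o %. cap =. n0 |. cmp ih bit rem last lt c2 w h L PR o pc o p))
      (fun _ _ _ _ => cmp ih bit rem last lt c2 w h L PR o pc o n1) r) pc

def mn (a b : ℕ) : ℕ := a -. (a -. b)

def mxP (PR : PL) : ℕ := PL.rec n0 (fun p _ _ ih => p +. (ih -. p)) PR

def body (fin : EL → PL → Bool) (ih : K1) (bit rem last lt c2 w h : ℕ) (L : EL) (PR : PL) : Bool :=
  (fun s0 => IF rem =. n0 THEN (SC ≤. s0 →. (w *. n2 ≤. c2 |. fin L PR)) ELSE
    allLt (Nat.succ ((fun h1 => (fun h2 => IF w *. n2 ≤. c2 THEN mn h2 w ELSE h2)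
        (IF SC ≤. s0 THEN h1 ELSE mn h1 (SC *. rem /. (SC -. s0))))
        (Nat.succ (rem *. last) +. (last *. mxP PR -. Nat.succ (rem *. last)))) -. last)
      fun f => cand ih bit rem last lt c2 w h L PR (last +. f) (flt PR (last +. f)))
    (nat_lit 19215358410114117 +. sumB L n0)

def fin (kk : ℕ) (acc : List (ℕ × List (ℕ × ℕ × ℕ))) (L : EL) (PR : PL) : Bool :=
  lenP PR ≤. n2 |. nb (anyE L fun _ _ _ _ bp => bp =. n1) |.
    node (leaf kk acc PR) (nat_lit 12) (rev L EL.nil) EL.nil n1 n1 n1 n0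

def p1 (fn : EL → PL → Bool) (gt : ℕ → ℕ → Bool) (f : ℕ) : K1 :=
  Nat.rec (fun _ _ _ _ _ _ _ _ _ => false) (fun _ ih bit rem last lt c2 w h L PR =>
    gt bit h →. body fn ih bit rem last lt c2 w h L PR) f

end

end Cfsg.Agent.KC
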