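import Cfsg.Agent.KC.Spec
import Cfsg.Agent.KC.Prog

/-! Semantics of the data structures of the search program. -/

set_option autoImplicit false

namespace Cfsg.Agent.KC

open Finset

theorem brec {α : Type} (a b : α) (c : Bool) :
    (Bool.rec (motive := fun _ => α) b a c) = if c = true then a else b := by cases c <;> rfl
theorem dv (a b : ℕ) : Nat.div a b = a / b := rfl
theorem md (a b : ℕ) : Nat.mod a b = a % b := rfl
theorem pw (a b : ℕ) : Nat.pow a b = a ^ b := rfl
theorem ld (a b : ℕ) : Nat.land a b = a &&& b := rfl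
theorem lr (a b : ℕ) : Nat.lor a b = a ||| b := rfl
theorem and_t {c : Prop} [Decidable c] {b : Bool} : (if c then b else false) = true ↔ c ∧ b = true := by
  split_ifs <;> simp [*]
theorem or_t {c : Prop} [Decidable c] {b : Bool} : (if c then true else b) = true ↔ c ∨ b = true := by
  split_ifs <;> simp [*]
theorem imp_t {c : Prop} [Decidable c] {b : Bool} : (if c then b else true) = true ↔ (c → b = true) := by
  split_ifs <;> simp [*]
theorem nb_t {a : Bool} : nb a = true ↔ ¬ a = true := by cases a <;> simp [nb]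
theorem ff_t : (false = true) ↔ False := by simp
theorem mod0 {a b : ℕ} : a % b = 0 ↔ b ∣ a := (Nat.dvd_iff_mod_eq_zero ..).symm

theorem land0 {j m : ℕ} : 2 ^ j &&& m = 0 ↔ ¬ m.testBit j = true := by
  rw [Nat.two_pow_and]
  cases m.testBit j <;> simp

/-- simplification of program text -/
macro "psimp" loc:(Lean.Parser.Tactic.location)? : tactic =>
  `(tactic| simp only [brec, dv, md, pw, ld, lr, and_t, or_t, imp_t, nb_t, ff_t, Nat.add_eq, Nat.sub_eq,
    Nat.mul_eq, Nat.beq_eq, Nat.ble_eq, Nat.succ_eq_add_one, mod0, land0] $[$loc]?)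

theorem lc_eq (a b : ℕ) : lc a b = a.lcm b := by
  rw [lc, dv, Nat.mul_eq, Nat.lcm, Nat.div_mul_right_comm (Nat.gcd_dvd_left a b)]

theorem ad_cast (a b : ℕ) : ((ad a b : ℕ) : ℤ) = |(a : ℤ) - b| := by
  simp only [ad, Nat.add_eq, Nat.sub_eq]
  rcases le_total a b with h | h
  · rw [abs_of_nonpos (by omega)]; omega
  · rw [abs_of_nonneg (by omega)]; omega

theorem ad_sq (a b : ℕ) : ((ad a b * ad a b : ℕ) : ℤ) = ((a : ℤ) - b) ^ 2 := by
  push_cast; rw [ad_cast, ← pow_two, sq_abs]

theorem allLt_t {n : ℕ} {k : ℕ → Bool} (h : allLt n k = true) {i : ℕ} (hi : i < n) : k i = true := by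
  induction n with
  | zero => omega
  | succ n ih =>
    have h' : (Bool.rec (motive := fun _ => Bool) false (allLt n k) (k n)) = true := h
    psimp at h'
    rcases Nat.lt_succ_iff_lt_or_eq.1 hi with e | e
    exacts [ih h'.2 e, e ▸ h'.1]

/-- the list of pairs -/
def PL.l : PL → List (ℕ × ℕ)
  | .nil => []
  | .cons p c r => (p, c) :: r.l

/-- static data of the entries -/
structure St where
  an : ℕ → ℕ
  bp : ℕ → ℕ
  pc : ℕ → PL

/-- the entries with numbers in a list -/
def mE (D : Dat) (s : St) (f : ℕ → ℕ) : List ℕ → EL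
  | [] => .nil
  | j :: js => .cons (2 ^ j) (D.O j) (D.T j) (D.E j) (f j) (s.an j) (s.bp j) (s.pc j) (mE D s f js)

/-- a valid prime with its cap -/
structure CapOK (D : Dat) (p cap : ℕ) : Prop where
  pr : p.Prime
  dvd : p ∣ D.g
  z1 : cap = 0 → ∀ j < D.n, ∀ a, D.O j = p ^ a → sq p ∣ D.C j
  z2 : cap = 0 → p = 2 → ∀ j < D.n, ∀ a, D.O j = 2 ^ a → 4 * D.O j ∣ D.g
  c1 : cap ≠ 0 → cap ∣ D.g
  c2 : cap ≠ 0 → ¬ cap * p ∣ D.g
  c3 : cap ≠ 0 → ∀ j < D.n, ∀ l < D.n, D.O j = p → D.O l = p → j = l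
  c4 : cap ≠ 0 → ∀ j < D.n, ∀ a, D.O j = p ^ a → D.O j ≠ p → ¬ cap ∣ D.O j

/-- valid static data -/
structure StOK (D : Dat) (s : St) (j : ℕ) : Prop where
  an : ∀ i, (s.an j).testBit i = true ↔ D.A j i
  bp : s.bp j = 1 ∨ (s.bp j).Prime ∧ ∃ a, D.O j = s.bp j ^ a
  pc : ∀ x ∈ (s.pc j).l, CapOK D x.1 x.2
  all : ∀ q, q.Prime → q ∣ D.O j → ∃ c, (q, c) ∈ (s.pc j).l

/-- valid list of primes -/
structure PROK (D : Dat) (PR : PL) : Prop where
  ok : ∀ x ∈ PR.l, CapOK D x.1 x.2
  all : ∀ q, q.Prime → q ∣ D.g → ∃ c, (q, c) ∈ PR.l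

variable {D : Dat} {s : St} {f : ℕ → ℕ}

theorem mk_congr {s' : St} {f' : ℕ → ℕ} {js : List ℕ} (h : ∀ j ∈ js, f j = f' j ∧ s.an j = s'.an j ∧
    s.bp j = s'.bp j ∧ s.pc j = s'.pc j) : mE D s f js = mE D s' f' js := by
  induction js with
  | nil => rfl
  | cons j js ih =>
    obtain ⟨h1, h2, h3, h4⟩ := h j List.mem_cons_self
    simp only [mE, h1, h2, h3, h4, ih fun i hi => h i (List.mem_cons_of_mem _ hi)]

theorem rev_mk (js ks : List ℕ) : rev (mE D s f js) (mE D s f ks) = mE D s f (js.reverse ++ ks) := by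
  induction js generalizing ks with
  | nil => rfl
  | cons j js ih => exact (ih (j :: ks)).trans (by simp)

theorem anyE_mk {js : List ℕ} {k : ℕ → ℕ → ℕ → ℕ → ℕ → Bool} :
    anyE (mE D s f js) k = true ↔ ∃ j ∈ js, k (D.O j) (D.T j) (D.E j) (f j) (s.bp j) = true := by
  induction js with
  | nil => simp [mE, anyE]
  | cons j js ih =>
    change (Bool.rec (motive := fun _ => Bool) (anyE (mE D s f js) k) true _) = true ↔ _
    psimp
    simp [ih]

theorem sumE_mk (js : List ℕ) (k : ℕ → ℕ → ℕ → ℕ → ℕ) :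
    sumE (mE D s f js) k = (js.map fun j => k (D.O j) (D.T j) (D.E j) (f j)).sum := by
  induction js with
  | nil => rfl
  | cons j js ih => rw [List.map_cons, List.sum_cons, ← ih]; rfl

theorem sumT_mk (js : List ℕ) : sumT (mE D s f js) = (js.map D.T).sum := by
  induction js with
  | nil => rfl
  | cons j js ih => rw [List.map_cons, List.sum_cons, ← ih]; rfl

theorem anyP_t {PR : PL} {k : ℕ → ℕ → Bool} (h : anyP PR k = true) : ∃ x ∈ PR.l, k x.1 x.2 = true := by
  induction PR with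
  | nil => exact absurd h (by simp [anyP])
  | cons p c r ih =>
    have h' : (Bool.rec (motive := fun _ => Bool) (anyP r k) true (k p c)) = true := h
    psimp at h'
    rcases h' with e | e
    · exact ⟨(p, c), List.mem_cons_self, e⟩
    · obtain ⟨x, hx, e⟩ := ih e
      exact ⟨x, List.mem_cons_of_mem _ hx, e⟩

theorem sum_perm {M : Type*} [AddCommMonoid M] {js : List ℕ} {n : ℕ} (h : js.Perm (List.range n)) (F : ℕ → M) :
    (js.map F).sum = ∑ j ∈ range n, F j := by
  rw [(h.map F).sum_eq, Finset.sum_eq_multiset_sum]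
  rfl

theorem orA_mk {js : List ℕ} {i : ℕ} :
    (orA (mE D s f js)).testBit i = true ↔ ∃ j ∈ js, (s.an j).testBit i = true := by
  induction js with
  | nil => simp [mE, orA]
  | cons j js ih =>
    change (s.an j ||| orA (mE D s f js)).testBit i = true ↔ _
    simp [ih]

theorem gen_t {hi lo c g : ℕ} {k : ℕ → Bool} (h1 : lo ≤ c) (h2 : c ≤ hi) (h0 : 0 < c) (hg : c ∣ g) (pc : PL)
    (hp : ∀ x ∈ pc.l, x.2 ≠ 0 → ¬ x.2 * x.1 ∣ g) {x w : ℕ} (e : c = x * w)
    (hw : ∀ q, q.Prime → q ∣ w → ∃ cap, (q, cap) ∈ pc.l) (h : gen hi lo k pc x = true) : k c = true := by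
  induction pc generalizing x w with
  | nil =>
    have : w = 1 := by
      by_contra h3
      obtain ⟨q, hq, hd⟩ := Nat.exists_prime_and_dvd h3
      obtain ⟨_, h4⟩ := hw q hq hd
      simp [PL.l] at h4
    have h' : (Bool.rec (motive := fun _ => Bool) true (k x) (Nat.ble lo x)) = true := h
    psimp at h'
    rw [this, mul_one] at e
    exact e ▸ h' (e ▸ h1)
  | cons p cap r ih =>
    replace h : glp hi p cap (gen hi lo k r) (nat_lit 64) x = true := h
    generalize (nat_lit 64) = u at h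
    induction u generalizing x w with
    | zero => exact absurd h (by simp [glp])
    | succ u iu =>
      have h' : (Bool.rec (motive := fun _ => Bool) true (Bool.rec (motive := fun _ => Bool) false
        (Bool.rec (motive := fun _ => Bool) (glp hi p cap (gen hi lo k r) u (x * p)) true
        (Nat.beq (Nat.mod x cap) 0)) (gen hi lo k r x)) (Nat.ble x hi)) = true := h
      psimp at h'
      have hx : x ∣ c := ⟨w, e⟩
      obtain ⟨h3, h4⟩ := h' ((Nat.le_of_dvd h0 hx).trans h2)
      by_cases hd : p ∣ w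
      · obtain ⟨w', rfl⟩ := hd
        rcases h4 with h4 | h4
        · refine absurd ((Nat.mul_dvd_mul_right h4 p).trans ((Dvd.intro w' (by rw [e, mul_assoc])).trans hg))
            (hp (p, cap) List.mem_cons_self fun e0 => ?_)
          simp only at e0
          rw [e0, zero_dvd_iff] at h4
          simp [e, h4] at h0
        · exact iu (by rw [e, mul_assoc]) (fun q hq hd => hw q hq (hd.mul_left p)) h4
      · refine ih (fun y hy => hp y (List.mem_cons_of_mem _ hy)) e (fun q hq hq2 => ?_) h3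
        obtain ⟨cp, hc⟩ := hw q hq hq2
        rcases List.mem_cons.1 hc with e1 | e1
        · exact absurd ((show q = p from congrArg Prod.fst e1) ▸ hq2) hd
        · exact ⟨cp, e1⟩

theorem sumB_mk {js : List ℕ} {l1 : ℕ} (h : ∀ j ∈ js, f j ∣ D.C j ∧ l1 < D.C j) :
    (js.map fun j => (D.T j : ℚ) / D.C j).sum * 1152921504606846976 ≤ sumB (mE D s f js) l1 := by
  induction js with
  | nil => simp [mE, sumB]
  | cons j js ih =>
    have h1 := ih fun i hi => h i (List.mem_cons_of_mem _ hi)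
    obtain ⟨⟨u, hu⟩, h3⟩ := h j List.mem_cons_self
    change _ ≤ ((1152921504606846976 * D.T j / ((l1 / f j + 1) * f j) + 1 + sumB (mE D s f js) l1 : ℕ) : ℚ)
    rw [List.map_cons, List.sum_cons, add_mul, Nat.cast_add]
    refine add_le_add ?_ h1
    have h4 : 0 < f j := Nat.pos_of_ne_zero fun e => by simp [e] at hu; omega
    have h5 : (l1 / f j + 1) * f j ≤ D.C j := by
      rw [hu, mul_comm]
      exact Nat.mul_le_mul_left _ ((Nat.div_lt_iff_lt_mul h4).2 (by rw [mul_comm, ← hu]; exact h3))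
    have h6 : 0 < (l1 / f j + 1) * f j := by positivity
    generalize (l1 / f j + 1) * f j = y at h5 h6
    have h7 := Nat.lt_mul_div_succ (1152921504606846976 * D.T j) h6
    rw [div_mul_eq_mul_div, div_le_iff₀ (by exact_mod_cast h6.trans_le h5), mul_comm (D.T j : ℚ)]
    exact_mod_cast h7.le.trans (by rw [mul_comm]; exact Nat.mul_le_mul_left _ h5)

theorem upd_mk (js : List ℕ) (i an c ec : ℕ) : upd (mE D s f js) (2 ^ i) an c ec =
    mE D s (fun j => if an.testBit j = true then ((f j).lcm c).lcm (ec / ec.gcd (D.E j)) else f j)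
      (js.filter (· ≠ i)) := by
  induction js with
  | nil => rfl
  | cons j js ih =>
    change (Bool.rec (motive := fun _ => EL) (EL.cons _ _ _ _ (Bool.rec (motive := fun _ => ℕ) _ _ _) _ _ _
      (upd (mE D s f js) (2 ^ i) an c ec)) (upd (mE D s f js) (2 ^ i) an c ec) _) = _
    psimp
    rw [ih]
    by_cases e : j = i
    · simp [e]
    · have : 2 ^ j ≠ 2 ^ i := fun h => e (Nat.pow_right_injective le_rfl h)
      cases h : an.testBit j <;> simp [e, this, mE, lc_eq, h]

theorem updM_mk (js : List ℕ) (an lb : ℕ) : updM (mE D s f js) an lb =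
    mE D s (fun j => if an.testBit j = true then (f j).lcm lb else f j) js := by
  induction js with
  | nil => rfl
  | cons j js ih =>
    change EL.cons _ _ _ _ (Bool.rec (motive := fun _ => ℕ) _ _ _) _ _ _ (updM (mE D s f js) an lb) = _
    psimp
    rw [ih]
    cases h : an.testBit j <;> simp [mE, lc_eq, h]

theorem hasO_mk {js : List ℕ} {j : ℕ} (h : j ∈ js) : hasO (mE D s f js) (D.O j) = true := by
  induction js with
  | nil => simp at h
  | cons i js ih =>
    change (Bool.rec (motive := fun _ => Bool) (hasO (mE D s f js) (D.O j)) true _) = true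
    psimp
    rcases List.mem_cons.1 h with e | e
    exacts [Or.inl (e ▸ rfl), Or.inr (ih e)]

namespace Dat

theorem F0.cd (h : D.F0) {j : ℕ} (hj : j < D.n) : D.C j ∣ D.g := (Dvd.intro_left _ rfl).trans (h.ecd j hj)

theorem F0.cpos (h : D.F0) {j : ℕ} (hj : j < D.n) : 0 < D.C j := Nat.pos_of_dvd_of_pos (h.cd hj) h.gpos

theorem F0.nc (h : D.F0) {j : ℕ} (hj : j < D.n) : D.N j * D.C j = D.g := Nat.div_mul_cancel (h.cd hj)

theorem F0.npos (h : D.F0) {j : ℕ} (hj : j < D.n) : 0 < D.N j :=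
  Nat.pos_of_ne_zero fun e => by have := h.nc hj; have := h.gpos; simp [e] at *; omega

theorem F0.te (h : D.F0) {j : ℕ} (hj : j < D.n) : D.T j * D.E j = (D.O j).totient :=
  Nat.div_mul_cancel (h.edvd j hj)

theorem F0.tpos (h : D.F0) {j : ℕ} (hj : j < D.n) : 0 < D.T j :=
  Nat.pos_of_ne_zero fun e => by
    have h1 := h.te hj
    have h2 := Nat.totient_pos.2 (show 0 < D.O j by have := h.two j hj; omega)
    simp [e] at h1; omega

theorem F0.lt (h : D.F0) {i j : ℕ} (hi : i < D.n) (e : D.O i < D.O j) : i < j := by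
  by_contra h1
  rcases h.srt j i (by omega) hi with h2 | h2 <;> omega

theorem F0.frac (h : D.F0) : ∑ j ∈ range D.n, (D.T j : ℚ) / D.C j + 1 / D.g = 1 := by
  have h1 : (D.g : ℚ) ≠ 0 := by exact_mod_cast h.gpos.ne'
  have h2 : ∑ j ∈ range D.n, (D.T j : ℚ) / D.C j = (∑ j ∈ range D.n, (D.T j * D.N j : ℕ) : ℕ) / D.g := by
    rw [Nat.cast_sum, sum_div]
    refine sum_congr rfl fun j hj => ?_
    have h3 := h.nc (mem_range.1 hj)
    have h4 : (D.C j : ℚ) ≠ 0 := by exact_mod_cast (h.cpos (mem_range.1 hj)).ne'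
    rw [div_eq_div_iff h4 h1, ← h3]
    push_cast; ring
  rw [h2, ← add_div, div_eq_one_iff_eq h1]
  exact_mod_cast h.sumN

theorem F4.six (h : D.F4) (h0 : D.F0) {j : ℕ} (hj : j < D.n) : 6 * D.C j ≤ D.g := by
  have h1 := h0.npos hj
  have h2 := h.npp j hj 2 0 Nat.prime_two
  have h3 := h.npp j hj 2 1 Nat.prime_two
  have h4 := h.npp j hj 3 1 Nat.prime_three
  have h5 := h.npp j hj 2 2 Nat.prime_two
  have h6 := h.npp j hj 5 1 Nat.prime_five
  rw [← h0.nc hj]
  exact Nat.mul_le_mul_right _ (by omega)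

theorem F1.anc (h : D.F1) {j i : ℕ} (hj : j < D.n) (a : D.A j i) : i < D.n ∧ D.O i < D.O j ∧
    D.C j ∣ D.C i ∧ D.E j * D.C j ∣ D.E i * D.C i := by
  obtain ⟨d, h1, h2, h3, rfl⟩ := a
  have h1 := mem_range.1 h1
  obtain ⟨h4, h5, -, h6, h7⟩ := h.pw j hj d h3 h1.ne
  refine ⟨h4, ?_, h6, h7⟩
  rw [← h5] at h1 ⊢
  rcases Nat.eq_zero_or_pos (D.O (D.Q j d)) with e | e
  · simp [e] at h1
  · exact (Nat.lt_mul_iff_one_lt_right e).2 h2

end Dat

end Cfsg.Agent.KC
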