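import Cfsg.Agent.EP.Tools
import Cfsg.Agent.SC3.Base

/-! Two-groups with a small centraliser, groups of order 1920, pairs of involutions. -/

set_option autoImplicit false

namespace Cfsg.Agent.KC

open Subgroup Finset Cfsg.Agent.SC3

universe u

theorem card_cen_quot {S : Type*} [Group S] [Finite S] {Z : Subgroup S} [Z.Normal] (hZ : Z ≤ center S) (x : S) :
    Nat.card (C1 (x : S ⧸ Z)) ≤ Nat.card (C1 x) := by
  let D := (C1 (x : S ⧸ Z)).comap (QuotientGroup.mk' Z)
  have hD : ∀ g : D, x⁻¹ * ((g : S) * x * (g : S)⁻¹) ∈ Z := fun g => by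
    have h := (mem_C1.1 g.2).eq
    rw [← QuotientGroup.eq]
    simp only [QuotientGroup.mk'_apply] at h
    simp only [QuotientGroup.mk_mul, QuotientGroup.mk_inv, ← h, mul_inv_cancel_right]
  let f : D →* Z := ⟨⟨fun g => ⟨_, hD g⟩, by ext; simp⟩, fun a b => by
    ext
    have h := mem_center_iff.1 (hZ (hD b))
    simp only [Subgroup.coe_mul, mul_inv_rev]
    rw [show x⁻¹ * (a * b * x * ((b : S)⁻¹ * (a : S)⁻¹)) =
      x⁻¹ * (a * x * (x⁻¹ * (b * x * (b : S)⁻¹)) * (a : S)⁻¹) by group, mul_assoc ((a : S) * x), ← h]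
    group⟩
  have h1 := card_comap_mk Z (C1 (x : S ⧸ Z))
  have h2 : Nat.card f.ker ≤ Nat.card (C1 x) :=
    Nat.card_le_card_of_injective (fun g => ⟨g.1.1, mem_C1.2 (by
      have := congrArg Subtype.val g.2
      exact (mul_inv_eq_iff_eq_mul.1 (inv_mul_eq_one.1 this).symm).symm)⟩) fun a b e => by
        ext; exact congrArg (fun g : C1 x => (g : S)) e
  have h3 := f.ker.card_mul_index
  have h4 : f.ker.index ≤ Nat.card Z := by
    rw [index_ker]; exact Nat.le_of_dvd Nat.card_pos (card_subgroup_dvd_card _)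
  refine Nat.le_of_mul_le_mul_right ?_ (Nat.card_pos (α := Z))
  rw [← h1, ← h3]
  exact Nat.mul_le_mul h2 h4

theorem cyc2 (n : ℕ) : ∀ (S : Type u) [Group S] [Finite S], Nat.card S = n → IsPGroup 2 S → ∀ x : S,
    Nat.card (C1 x) ≤ 4 → ∃ m : S, Nat.card S ≤ 2 * orderOf m := by
  induction n using Nat.strong_induction_on with
  | _ n ih =>
  intro S _ _ hn hS x hx
  by_cases h8 : n ≤ 8
  · by_contra! h
    have h1 : ∀ m : S, m * m = 1 := fun m => by
      obtain ⟨k, hk⟩ := IsPGroup.iff_orderOf.1 hS m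
      have h2 := h m
      rw [← sq, ← orderOf_dvd_iff_pow_eq_one, hk]
      rw [hk] at h2
      rcases k with _ | _ | k
      · simp
      · simp
      · have := Nat.one_le_two_pow (n := k); rw [pow_add, pow_add] at h2; omega
    have h2 : C1 x = ⊤ := eq_top_iff.2 fun y _ => mem_C1.2 (by
      have := h1 (x * y)
      rw [Commute, SemiconjBy, eq_inv_of_mul_eq_one_left this, mul_inv_rev, ← eq_inv_of_mul_eq_one_left (h1 x),
        ← eq_inv_of_mul_eq_one_left (h1 y)])
    rw [h2, card_top] at hx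
    have h3 := h 1
    have : Nontrivial S := Finite.one_lt_card_iff_nontrivial.1 (by simp at h3; omega)
    obtain ⟨m, hm⟩ := exists_ne (1 : S)
    have h4 := h m
    rw [orderOf_eq_prime (p := 2) (by rw [sq, h1]) hm] at h4
    omega
  have : Nontrivial S := Finite.one_lt_card_iff_nontrivial.1 (by omega)
  have := hS.center_nontrivial
  obtain ⟨⟨z, hz⟩, oz⟩ := exists_prime_orderOf_dvd_card' (G := center S) 2
    ((hS.to_subgroup _).card_eq_or_dvd.resolve_left Finite.one_lt_card.ne')
  rw [← orderOf_coe] at oz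
  have zc : ∀ g, g * z = z * g := mem_center_iff.1 hz
  have z2 : z * z = 1 := by rw [← sq, ← oz, pow_orderOf_eq_one]
  have z1 : z ≠ 1 := by rintro rfl; simp at oz
  have hZ : zpowers z ≤ center S := zpowers_le_of_mem hz
  have : (zpowers z).Normal := ⟨fun a ha g => by rwa [mem_center_iff.1 (hZ ha) g, mul_inv_cancel_right]⟩
  have cZ : Nat.card (zpowers z) = 2 := by rw [Nat.card_zpowers, oz]
  have c1 := (zpowers z).card_mul_index
  rw [cZ, index, hn] at c1
  obtain ⟨m, hm⟩ := ih _ (by omega) (S ⧸ zpowers z) rfl (hS.to_quotient _) x ((card_cen_quot hZ x).trans hx)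
  obtain ⟨m, rfl⟩ := QuotientGroup.mk_surjective m
  set M := (zpowers (m : S ⧸ zpowers z)).comap (QuotientGroup.mk' (zpowers z)) with hM
  have cM : Nat.card M = orderOf (m : S ⧸ zpowers z) * 2 := by rw [hM, card_comap_mk, cZ, Nat.card_zpowers]
  have mM : m ∈ M := mem_zpowers _
  have zM : z ∈ M := by
    rw [hM, mem_comap, QuotientGroup.mk'_apply, (QuotientGroup.eq_one_iff z).2 (mem_zpowers z)]
    exact one_mem _
  have eM : ∀ w ∈ M, ∃ i : ℤ, w = m ^ i ∨ w = m ^ i * z := fun w ⟨i, hi⟩ => by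
    simp only [QuotientGroup.mk'_apply] at hi
    rw [← QuotientGroup.mk_zpow, QuotientGroup.eq] at hi
    exact ⟨i, (EP.I2.zp ⟨z2, z1⟩ hi).imp (fun h => (inv_mul_eq_one.1 h).symm) fun h => by rw [← h]; group⟩
  by_cases hzm : z ∈ zpowers m
  · refine ⟨m, ?_⟩
    have : Nat.card M ≤ Nat.card (zpowers m) := card_le_of_le fun w hw => by
      obtain ⟨i, rfl | rfl⟩ := eM w hw
      exacts [zpow_mem (mem_zpowers _) _, mul_mem (zpow_mem (mem_zpowers _) _) hzm]
    rw [Nat.card_zpowers] at this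
    omega
  exfalso
  have cc : ∀ a ∈ M, ∀ b ∈ M, Commute a b := fun a ha b hb => by
    have h1 : ∀ g, Commute g z := zc
    obtain ⟨i, rfl | rfl⟩ := eM a ha <;> obtain ⟨j, rfl | rfl⟩ := eM b hb
    · exact Commute.zpow_zpow_self m i j
    · exact (Commute.zpow_zpow_self m i j).mul_right (h1 _)
    · exact (Commute.zpow_zpow_self m i j).mul_left (h1 _).symm
    · exact ((Commute.zpow_zpow_self m i j).mul_left (h1 _).symm).mul_right (h1 _)
  have xM : x ∉ M := fun h => by
    have : Nat.card M ≤ Nat.card (C1 x) := card_le_of_le fun w hw => mem_C1.2 (cc x h w hw)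
    omega
  have iM : M.index = 2 := by
    have h1 := M.card_mul_index
    have h2 : M.index ≠ 1 := fun e => xM (index_eq_one.1 e ▸ mem_top x)
    have h3 := M.index_ne_zero_of_finite
    by_contra h4
    have : Nat.card M * 3 ≤ Nat.card M * M.index := Nat.mul_le_mul_left _ (by omega)
    omega
  have fx : ∀ w ∈ M, Commute x w → w = 1 ∨ w = z := fun w hw h => by
    classical
    by_contra! hn
    have h1 : ({1, z, w, x, x * z} : Finset S).card = 5 := by
      have a1 : x * z ∉ M := fun e => xM ((M.mul_mem_cancel_right zM).1 e)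
      have a2 : x ≠ x * z := by simpa using z1
      rw [card_insert_of_notMem, card_insert_of_notMem, card_insert_of_notMem, card_pair a2] <;>
        simp only [mem_insert, Finset.mem_singleton, not_or]
      · exact ⟨fun e => xM (e ▸ hw), fun e => a1 (e ▸ hw)⟩
      · exact ⟨hn.2.symm, fun e => xM (e ▸ zM), fun e => a1 (e ▸ zM)⟩
      · exact ⟨z1.symm, hn.1.symm, fun e => xM (e ▸ one_mem _), fun e => a1 (e ▸ one_mem _)⟩
    have h2 : (({1, z, w, x, x * z} : Finset S) : Set S) ⊆ C1 x := by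
      have h3 : Commute x z := zc x
      simp only [coe_insert, coe_singleton, Set.insert_subset_iff, Set.singleton_subset_iff, SetLike.mem_coe, mem_C1]
      exact ⟨Commute.one_right _, h3, h, Commute.refl _, (Commute.refl _).mul_right h3⟩
    have h3 := Set.ncard_le_ncard h2
    rw [Set.ncard_coe_finset, h1, ← Nat.card_coe_set_eq] at h3
    exact absurd (h3.trans hx) (by norm_num)
  have nM := M.normal_of_index_eq_two iM
  have h1 : x * m * x⁻¹ ∈ M := nM.conj_mem m mM x
  have h2 : Commute x (m * (x * m * x⁻¹)) := by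
    have a1 := (cc _ (M.mul_self_mem_of_index_two iM x) m mM).eq
    have a2 := (cc _ mM _ h1).eq
    rw [Commute, SemiconjBy]
    calc x * (m * (x * m * x⁻¹)) = x * m * x⁻¹ * (x * x * m) * x⁻¹ := by group
      _ = (x * m * x⁻¹) * m * x := by rw [a1]; group
      _ = _ := by rw [a2]
  have h3 : x * m ^ 2 * x⁻¹ = (m ^ 2)⁻¹ := by
    have a1 : (m * (x * m * x⁻¹)) ^ 2 = 1 := by
      rcases fx _ (mul_mem mM h1) h2 with e | e <;> rw [e] <;> simp [sq, z2]
    rw [(cc _ mM _ h1).mul_pow, conj_pow] at a1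
    exact eq_inv_of_mul_eq_one_right a1
  obtain ⟨k, hk⟩ := IsPGroup.iff_orderOf.1 hS m
  have h4 : orderOf (m : S ⧸ zpowers z) ≤ orderOf m :=
    Nat.le_of_dvd (orderOf_pos _) (orderOf_map_dvd (QuotientGroup.mk' (zpowers z)) m)
  obtain ⟨k, rfl⟩ : ∃ l, k = l + 2 := by
    rcases k with _ | _ | k
    · omega
    · omega
    · exact ⟨k, rfl⟩
  have h5 : ((m ^ 2) ^ 2 ^ k)⁻¹ = (m ^ 2) ^ 2 ^ k := by
    rw [inv_eq_iff_mul_eq_one, ← pow_add, ← pow_mul, ← orderOf_dvd_iff_pow_eq_one, hk]
    exact ⟨1, by ring⟩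
  have h6 : Commute x ((m ^ 2) ^ 2 ^ k) := by
    rw [Commute, SemiconjBy, ← mul_inv_eq_iff_eq_mul, ← conj_pow, h3, inv_pow, h5]
  rcases fx _ (pow_mem (pow_mem mM _) _) h6 with e | e
  · rw [← pow_mul, ← orderOf_dvd_iff_pow_eq_one, hk, ← pow_succ'] at e
    have := (Nat.pow_dvd_pow_iff_le_right one_lt_two).1 e
    omega
  · exact hzm (e ▸ pow_mem (pow_mem (mem_zpowers m) _) _)

theorem dvd_card_inv {A X : Type*} [Group A] [MulAction A X] [Finite X] (T : Finset X)
    (hT : ∀ g : A, ∀ x ∈ T, g • x ∈ T) {d : ℕ} (h : ∀ x ∈ T, d ∣ (MulAction.stabilizer A x).index) :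
    d ∣ T.card := by
  classical
  rw [card_eq_sum_card_image (fun x => MulAction.orbit A x)]
  refine dvd_sum fun o ho => ?_
  obtain ⟨x, hx, rfl⟩ := Finset.mem_image.1 ho
  refine (h x hx).trans (dvd_of_eq (Eq.symm ?_))
  rw [MulAction.index_stabilizer, ← Set.ncard_coe_finset]
  congr 1
  ext y
  simp only [coe_filter, Set.mem_setOf_eq, MulAction.orbit_eq_iff]
  exact ⟨fun h => h.2, fun h => ⟨by obtain ⟨g, rfl⟩ := h; exact hT g x hx, h⟩⟩

variable {G : Type*} [Group G] [Finite G] [IsSimpleGroup G]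

theorem ne1920 (hG : ¬ IsMulCommutative G) : Nat.card G ≠ 1920 := fun hc => by
  classical
  obtain ⟨P⟩ : Nonempty (Sylow 2 G) := inferInstance
  have cP : ∀ Q : Sylow 2 G, Nat.card Q = 128 := fun Q => by
    rw [Q.card_eq_multiplicity, hc, show 1920 = 2 ^ 7 * 15 by norm_num,
      Nat.factorization_mul (by norm_num) (by norm_num), Finsupp.add_apply, Nat.prime_two.factorization_pow,
      Nat.factorization_eq_zero_of_not_dvd (by norm_num)]
    simp
  have key : ∀ B : Subgroup G, (P : Subgroup G) ≤ B → B ≠ ⊤ → B = P := fun B h1 h2 => by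
    have h3 := no_small_index h2
    have h4 := index_dvd_of_le h1
    have h5 := (P : Subgroup G).card_mul_index
    rw [cP, hc] at h5
    rw [show (P : Subgroup G).index = 15 by omega] at h4
    have h6 : B.index = 15 := by
      have := Nat.le_of_dvd (by norm_num) h4
      rw [hc] at h3
      generalize B.index = i at *
      interval_cases i <;> simp_all [Nat.factorial]
    have h7 := B.card_mul_index
    rw [h6, hc] at h7
    exact (eq_of_le_of_card_ge h1 (by rw [cP]; omega)).symm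
  have nb : ∀ D : Subgroup G, 1 < Nat.card D → D ≠ ⊥ := fun D h e => by simp [e] at h
  have hN := key _ le_normalizer (not_normal hG P.isPGroup' (nb _ (by rw [cP]; norm_num)))
  have := Fintype.ofFinite (Sylow 2 G)
  have cS : Fintype.card (Sylow 2 G) = 15 := by
    have h5 := (P : Subgroup G).card_mul_index
    rw [← Nat.card_eq_fintype_card, P.card_eq_index_normalizer]
    rw [cP, hc] at h5
    erw [hN]; omega
  have h1 : ¬ 4 ∣ (univ.erase P).card := by rw [card_erase_of_mem (Finset.mem_univ _), card_univ, cS]; norm_num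
  refine h1 (dvd_card_inv (A := (P : Subgroup G)) _ (fun g Q hQ => ?_) fun Q hQ => ?_)
  · refine mem_erase.2 ⟨fun e => ne_of_mem_erase hQ ?_, Finset.mem_univ _⟩
    rw [smul_eq_iff_eq_inv_smul] at e
    rw [e]
    exact Sylow.smul_eq_iff_mem_normalizer.2 (le_normalizer (inv_mem g.2))
  have hs : MulAction.stabilizer (P : Subgroup G) Q = (Q : Subgroup G).subgroupOf P := by
    ext g
    rw [MulAction.mem_stabilizer_iff, mem_subgroupOf]
    refine Sylow.smul_eq_iff_mem_normalizer.trans ⟨fun h => ?_, fun h => le_normalizer h⟩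
    exact ((P.isPGroup'.inf_normalizer_sylow Q).le ⟨g.2, h⟩).2
  have hQP : ¬ (Q : Subgroup G) ≤ P := fun h =>
    ne_of_mem_erase hQ (Sylow.ext (eq_of_le_of_card_ge h (by rw [cP, cP])))
  obtain ⟨k, hk⟩ := P.isPGroup'.index ((Q : Subgroup G).subgroupOf P)
  rw [hs, hk]
  rcases k with _ | _ | k
  · rw [pow_zero, index_eq_one, subgroupOf_eq_top] at hk
    exact absurd (eq_of_le_of_card_ge hk (by rw [cP, cP])).ge hQP
  · exfalso
    have c1 : Nat.card ((P : Subgroup G) ⊓ Q : Subgroup G) = 64 := by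
      have := ((Q : Subgroup G).subgroupOf P).card_mul_index
      rw [hk, cP, ← inf_subgroupOf_left, Nat.card_congr (subgroupOfEquivOfLe inf_le_left).toEquiv] at this
      omega
    have c2 : ∀ R : Sylow 2 G, (P : Subgroup G) ⊓ Q ≤ R → (R : Subgroup G) ≤ Nm ((P : Subgroup G) ⊓ Q) :=
      fun R hR => by
        have := (((P : Subgroup G) ⊓ Q).subgroupOf R).card_mul_index
        rw [cP, Nat.card_congr (subgroupOfEquivOfLe hR).toEquiv, c1] at this
        have := normal_of_index_eq_two (H := ((P : Subgroup G) ⊓ Q).subgroupOf R) (by omega)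
        exact (normal_subgroupOf_iff_le_normalizer hR).1 this
    exact hQP ((c2 Q inf_le_right).trans (key _ (c2 P inf_le_left)
      (not_normal hG P.isPGroup'.to_inf_left (nb _ (by rw [c1]; norm_num)))).le)
  · exact ⟨2 ^ k, by ring⟩

theorem syl_nc (hG : ¬ IsMulCommutative G) (h2 : 2 ∣ Nat.card G) (P : Sylow 2 G) {m : G}
    (h : (P : Subgroup G) ≤ zpowers m) : False := by
  refine transfer hG P (P.ne_bot_of_dvd_card h2)
    (IsCyclic.normalizer_le_centralizer ((Nat.minFac_eq_two_iff _).2 h2) ?_)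
  exact isCyclic_of_injective (inclusion h) (inclusion_injective h)

omit [IsSimpleGroup G] in
theorem bf_count (I R : Finset G) (hI : ∀ u ∈ I, u * u = 1)
    (hR : ∀ y u, y ≠ 1 → u * u = 1 → u * y * u = y⁻¹ → y ∈ R) :
    I.card ^ 2 ≤ I.card + ∑ y ∈ R, Nat.card (C1 y) := by
  classical
  have inv : ∀ u ∈ I, ∀ v ∈ I, u * (u * v) * u = (u * v)⁻¹ := fun u hu v hv => by
    rw [← mul_assoc, hI u hu, one_mul, mul_inv_rev, ← eq_inv_of_mul_eq_one_left (hI u hu),
      ← eq_inv_of_mul_eq_one_left (hI v hv)]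
  rw [sq, ← card_product, card_eq_sum_card_fiberwise (f := fun p : G × G => p.1 * p.2) (t := insert 1 (R.erase 1))
    (fun p hp => ?_), sum_insert (notMem_erase _ _)]
  · refine add_le_add ?_ ((sum_le_sum fun y hy => ?_).trans (sum_le_sum_of_subset (erase_subset 1 R)))
    · refine card_le_card_of_injOn (·.1) (fun p hp => (mem_product.1 (mem_filter.1 hp).1).1) fun p hp q hq e => ?_
      exact Prod.ext e (mul_left_cancel (((mem_filter.1 hp).2.trans (mem_filter.1 hq).2.symm).trans
        (by rw [show q.1 = p.1 from e.symm])))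
    · rcases (filter (fun p : G × G => p.1 * p.2 = y) (I ×ˢ I)).eq_empty_or_nonempty with e | ⟨r, hr⟩
      · simp [e]
      have key : ∀ p ∈ filter (fun p : G × G => p.1 * p.2 = y) (I ×ˢ I), p.1 * y * p.1 = y⁻¹ ∧ p.1 * p.1 = 1 :=
        fun p hp => by
          obtain ⟨h1, rfl⟩ := mem_filter.1 hp
          exact ⟨inv _ (mem_product.1 h1).1 _ (mem_product.1 h1).2, hI _ (mem_product.1 h1).1⟩
      rw [← Nat.card_eq_finsetCard]
      refine Nat.card_le_card_of_injective (fun p => ⟨r.1 * p.1.1, mem_C1.2 ?_⟩) fun p q e => ?_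
      · obtain ⟨a1, a2⟩ := key r hr
        obtain ⟨b1, b2⟩ := key p.1 p.2
        have a3 : r.1 * y⁻¹ * r.1 = y := by
          rw [← a1, ← mul_assoc, ← mul_assoc, a2, one_mul, mul_assoc, a2, mul_one]
        rw [Commute, SemiconjBy]
        calc y * (r.1 * p.1.1) = r.1 * (p.1.1 * y * p.1.1) * r.1 * (r.1 * p.1.1) := by rw [b1, a3]
          _ = r.1 * p.1.1 * y * (p.1.1 * (r.1 * r.1) * p.1.1) := by group
          _ = _ := by rw [a2, mul_one, b2, mul_one]
      · have e1 : p.1.1 = q.1.1 := mul_left_cancel (congrArg Subtype.val e)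
        exact Subtype.ext (Prod.ext e1 (mul_left_cancel
          (((mem_filter.1 p.2).2.trans (mem_filter.1 q.2).2.symm).trans (by rw [e1]))))
  · obtain ⟨h1, h2⟩ := mem_product.1 hp
    by_cases e : p.1 * p.2 = 1
    · simp [e]
    · simpa [e] using hR _ _ e (hI _ h1) (inv _ h1 _ h2)

omit [IsSimpleGroup G] in
theorem two_dvd_nor {y u : G} (hy : y * y ≠ 1) (hu : u * u = 1) (h : u * y * u = y⁻¹) :
    2 * Nat.card (C1 y) ∣ Nat.card (Nm (zpowers y)) := by
  have u1 : u⁻¹ = u := inv_eq_of_mul_eq_one_right hu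
  have hN : u ∈ Nm (zpowers y) := by
    have a : ∀ w ∈ zpowers y, u * w * u⁻¹ ∈ zpowers y := by
      rintro _ ⟨i, rfl⟩
      rw [← conj_zpow, u1, h]
      exact zpow_mem (inv_mem (mem_zpowers _)) _
    refine mem_normalizer_iff.2 fun w => ⟨a w, fun hw => ?_⟩
    have := a _ hw
    rwa [u1, ← mul_assoc, ← mul_assoc, hu, one_mul, mul_assoc, hu, mul_one] at this
  have hC : Ce (zpowers y) = C1 y := by rw [Ce, zpowers_eq_closure, centralizer_closure]
  have h1 := (zpowers y).normalizerMonoidHom.ker.card_mul_index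
  have h2 : orderOf ((zpowers y).normalizerMonoidHom ⟨u, hN⟩) = 2 := by
    refine orderOf_eq_prime (by rw [← map_pow, sq]; exact congrArg _ (Subtype.ext hu) |>.trans (map_one _)) fun e => hy ?_
    rw [← MonoidHom.mem_ker, normalizerMonoidHom_ker, mem_subgroupOf] at e
    have := (mem_C1.1 (hC.le e)).eq
    simp only at this
    rw [← this, mul_assoc, hu, mul_one] at h
    exact mul_eq_one_iff_eq_inv.2 h
  rw [index_ker, normalizerMonoidHom_ker,
    Nat.card_congr (subgroupOfEquivOfLe (centralizer_le_normalizer _)).toEquiv] at h1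
  rw [← h1, mul_comm, ← hC]
  exact mul_dvd_mul_left _ (h2 ▸ Subgroup.orderOf_dvd_natCard _ ⟨_, rfl⟩)

end Cfsg.Agent.KC
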